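import Cfsg.Prelude.Def_LocalEven
import Cfsg.Agent.H29.Dihedral

set_option autoImplicit false
open Cfsg

namespace Cfsg.Agent.H51

section dih
variable {G : Type*} [Group G]

theorem conj_inv_of_conj {x y : G} (hxy : x * y * x⁻¹ = y⁻¹) : x⁻¹ * y * x = y⁻¹ := by
  have h1 : y = x * y⁻¹ * x⁻¹ := by
    have h0 := congrArg (fun g => g⁻¹) hxy
    simp only [mul_inv_rev, inv_inv] at h0
    rw [mul_assoc]; exact h0.symm
  calc x⁻¹ * y * x = x⁻¹ * (x * y⁻¹ * x⁻¹) * x := by rw [← h1]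
    _ = y⁻¹ := by group

theorem dih_C_to_B {p : ℕ} [Fact p.Prime] (hp : p ≠ 2) (x y : G) (hx : ∃ k : ℕ, orderOf x = 2 ^ k)
    (hy : ∃ k : ℕ, orderOf y = p ^ k) (hy1 : y ≠ 1) (hxy : x * y * x⁻¹ = y⁻¹) :
    ∃ (x : G) (P : Subgroup G), (∃ k : ℕ, orderOf x = 2 ^ k) ∧ IsPGroup p ↥P ∧
      x ∈ Subgroup.normalizer (P : Set G) ∧ x ∉ Subgroup.centralizer (P : Set G) := by
  have hp' := (Fact.out : p.Prime)
  refine ⟨x, Subgroup.zpowers y, hx, ?_, ?_, ?_⟩
  · obtain ⟨k, hk⟩ := hy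
    exact IsPGroup.of_card (n := k) (by rw [Nat.card_zpowers, hk])
  · rw [Subgroup.mem_normalizer_iff]
    intro h
    constructor
    · rintro ⟨n, rfl⟩
      refine ⟨-n, ?_⟩
      show y ^ (-n) = x * y ^ n * x⁻¹
      rw [← conj_zpow, hxy, inv_zpow, zpow_neg]
    · rintro ⟨n, hn⟩
      refine ⟨-n, ?_⟩
      have hn' : y ^ n = x * h * x⁻¹ := hn
      have e : h = x⁻¹ * y ^ n * x := by rw [hn']; group
      show y ^ (-n) = h
      rw [e]
      have e2 : x⁻¹ * y ^ n * x = (x⁻¹ * y * x) ^ n := by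
        have := conj_zpow (a := x⁻¹) (b := y) (i := n)
        rw [inv_inv] at this
        exact this.symm
      rw [e2, conj_inv_of_conj hxy, inv_zpow, zpow_neg]
  · intro hc
    have h1 := (Subgroup.mem_centralizer_iff.1 hc) y (Subgroup.mem_zpowers y)
    have h2 : x * y * x⁻¹ = y := by rw [← h1]; group
    rw [hxy] at h2
    have h3 : y ^ 2 = 1 := by
      rw [sq]
      calc y * y = y⁻¹ * y := by rw [h2]
        _ = 1 := by group
    obtain ⟨k, hk⟩ := hy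
    have h4 : orderOf y ∣ 2 := orderOf_dvd_of_pow_eq_one h3
    rw [hk] at h4
    have hk0 : k ≠ 0 := by
      intro h0
      rw [h0, pow_zero, orderOf_eq_one_iff] at hk
      exact hy1 hk
    have h5 : p ∣ 2 := (dvd_pow_self p hk0).trans h4
    exact hp ((Nat.prime_dvd_prime_iff_eq hp' Nat.prime_two).1 h5)

theorem dih_B_to_C {p : ℕ} [Fact p.Prime] (x : G) (P : Subgroup G) (hx : ∃ k : ℕ, orderOf x = 2 ^ k)
    (hP : IsPGroup p ↥P) (hxN : x ∈ Subgroup.normalizer (P : Set G))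
    (hxC : x ∉ Subgroup.centralizer (P : Set G)) :
    ∃ x y : G, (∃ k : ℕ, orderOf x = 2 ^ k) ∧ (∃ k : ℕ, orderOf y = p ^ k) ∧ y ≠ 1 ∧
      x * y * x⁻¹ = y⁻¹ := by
  classical
  obtain ⟨k, hk⟩ := hx
  have hex : ∃ j, x ^ (2 ^ j) ∈ Subgroup.centralizer (P : Set G) :=
    ⟨k, by rw [← hk, pow_orderOf_eq_one]; exact one_mem _⟩
  have hj := Nat.find_spec hex
  have hj0 : Nat.find hex ≠ 0 := by
    intro h0
    rw [h0] at hj
    simp only [pow_zero, pow_one] at hj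
    exact hxC hj
  obtain ⟨i, hi⟩ := Nat.exists_eq_succ_of_ne_zero hj0
  have hi' : x ^ (2 ^ i) ∉ Subgroup.centralizer (P : Set G) := Nat.find_min hex (by omega)
  have hx'2 : x ^ (2 ^ i) * x ^ (2 ^ i) ∈ Subgroup.centralizer (P : Set G) := by
    have e : x ^ (2 ^ i) * x ^ (2 ^ i) = x ^ (2 ^ Nat.find hex) := by
      rw [hi, ← pow_add, Nat.succ_eq_add_one, pow_succ, mul_two]
    rw [e]; exact hj
  have hx'N : x ^ (2 ^ i) ∈ Subgroup.normalizer (P : Set G) := pow_mem hxN _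
  have hx'o : ∃ k : ℕ, orderOf (x ^ (2 ^ i)) = 2 ^ k := by
    have h1 : orderOf (x ^ (2 ^ i)) ∣ 2 ^ k := hk ▸ orderOf_pow_dvd (2 ^ i)
    obtain ⟨m, _, hm⟩ := (Nat.dvd_prime_pow Nat.prime_two).1 h1
    exact ⟨m, hm⟩
  generalize x ^ (2 ^ i) = x' at hi' hx'2 hx'N hx'o
  rw [Subgroup.mem_centralizer_iff] at hi'
  push Not at hi'
  obtain ⟨u, hu, hne⟩ := hi'
  have hyP : u⁻¹ * (x' * u * x'⁻¹) ∈ P :=
    P.mul_mem (P.inv_mem hu) ((Subgroup.mem_normalizer_iff.1 hx'N u).1 hu)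
  refine ⟨x', u⁻¹ * (x' * u * x'⁻¹), hx'o, ?_, ?_, ?_⟩
  · obtain ⟨m, hm⟩ := (IsPGroup.iff_orderOf.1 hP) ⟨_, hyP⟩
    exact ⟨m, by rw [← hm, Subgroup.orderOf_mk]⟩
  · intro h1
    apply hne
    have h2 : x' * u * x'⁻¹ = u := by
      calc x' * u * x'⁻¹ = u * (u⁻¹ * (x' * u * x'⁻¹)) := by group
        _ = u := by rw [h1, mul_one]
    calc u * x' = (x' * u * x'⁻¹) * x' := by rw [h2]
      _ = x' * u := by group
  · have hc := (Subgroup.mem_centralizer_iff.1 hx'2) u hu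
    have e : x' * u * x'⁻¹ * x'⁻¹ = x'⁻¹ * u := by
      have h3 : x' * x' * u * x'⁻¹ * x'⁻¹ = u := by rw [← hc]; group
      calc x' * u * x'⁻¹ * x'⁻¹ = x'⁻¹ * (x' * x' * u * x'⁻¹ * x'⁻¹) := by group
        _ = x'⁻¹ * u := by rw [h3]
    calc x' * (u⁻¹ * (x' * u * x'⁻¹)) * x'⁻¹ = x' * u⁻¹ * (x' * u * x'⁻¹ * x'⁻¹) := by group
      _ = x' * u⁻¹ * (x'⁻¹ * u) := by rw [e]
      _ = (u⁻¹ * (x' * u * x'⁻¹))⁻¹ := by group

theorem dih_C_to_A_aux {p : ℕ} [Fact p.Prime] (hp : p ≠ 2) (x y : G) (hx : ∃ k : ℕ, orderOf x = 2 ^ k)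
    (hy : orderOf y = p) (hxy : x * y * x⁻¹ = y⁻¹) :
    Cfsg.Involves (DihedralGroup p) G := by
  have hp' := (Fact.out : p.Prime)
  obtain ⟨k, hk⟩ := hx
  have hy1 : y ≠ 1 := by
    intro h
    rw [h, orderOf_one] at hy
    exact hp'.one_lt.ne hy
  have hp2 : ¬ p ∣ 2 := fun h => hp ((Nat.prime_dvd_prime_iff_eq hp' Nat.prime_two).1 h)
  have hk0 : k ≠ 0 := by
    intro h0
    rw [h0, pow_zero, orderOf_eq_one_iff] at hk
    rw [hk] at hxy
    simp only [one_mul, inv_one, mul_one] at hxy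
    have h3 : y ^ 2 = 1 := by
      rw [sq]
      calc y * y = y⁻¹ * y := by rw [← hxy]
        _ = 1 := by group
    have h4 : orderOf y ∣ 2 := orderOf_dvd_of_pow_eq_one h3
    rw [hy] at h4
    exact hp2 h4
  have hxN : x ∉ Subgroup.zpowers (x ^ 2) := by
    rintro ⟨m, hm⟩
    have hm' : (x ^ 2) ^ m = x := hm
    have h1 : x ^ (2 * m - 1) = 1 := by
      rw [zpow_sub, zpow_mul, zpow_one, zpow_ofNat, hm', mul_inv_cancel]
    have h2 := orderOf_dvd_iff_zpow_eq_one.2 h1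
    rw [hk] at h2
    have h3 : (2 : ℤ) ∣ 2 * m - 1 := by
      have h4 : (2 : ℤ) ∣ ((2 ^ k : ℕ) : ℤ) := by
        push_cast
        exact dvd_pow_self 2 hk0
      exact h4.trans h2
    omega
  have hyN : y ∉ Subgroup.zpowers (x ^ 2) := by
    intro h
    have h1 : y ∈ Subgroup.zpowers x :=
      (Subgroup.zpowers_le.2 (Subgroup.pow_mem _ (Subgroup.mem_zpowers x) 2)) h
    have h2 := orderOf_dvd_of_mem_zpowers h1
    rw [hy, hk] at h2
    exact hp2 (hp'.dvd_of_dvd_pow h2)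
  have hxK : x ∈ Subgroup.zpowers x ⊔ Subgroup.zpowers y :=
    (le_sup_left : Subgroup.zpowers x ≤ _) (Subgroup.mem_zpowers x)
  have hyK : y ∈ Subgroup.zpowers x ⊔ Subgroup.zpowers y :=
    (le_sup_right : Subgroup.zpowers y ≤ _) (Subgroup.mem_zpowers y)
  have hcent : ∀ g : G, g * x ^ 2 = x ^ 2 * g →
      g ∈ Subgroup.centralizer ((Subgroup.zpowers (x ^ 2) : Subgroup G) : Set G) := by
    intro g hg
    rw [Subgroup.mem_centralizer_iff]
    rintro _ ⟨m, rfl⟩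
    exact ((show Commute g (x ^ 2) from hg).zpow_right m).eq.symm
  have hKc : Subgroup.zpowers x ⊔ Subgroup.zpowers y ≤
      Subgroup.centralizer ((Subgroup.zpowers (x ^ 2) : Subgroup G) : Set G) := by
    rw [sup_le_iff, Subgroup.zpowers_le, Subgroup.zpowers_le]
    refine ⟨hcent x ?_, hcent y ?_⟩
    · rw [sq]; group
    · have h1 : x * y = y⁻¹ * x := by rw [← hxy]; group
      have h2 : x * y⁻¹ = y * x := by
        have h3 := conj_inv_of_conj hxy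
        calc x * y⁻¹ = x * (x⁻¹ * y * x) := by rw [h3]
          _ = y * x := by group
      rw [sq]
      calc y * (x * x) = (y * x) * x := by group
        _ = (x * y⁻¹) * x := by rw [h2]
        _ = x * (y⁻¹ * x) := by group
        _ = x * (x * y) := by rw [h1]
        _ = x * x * y := by group
  have hnorm : ((Subgroup.zpowers (x ^ 2)).subgroupOf (Subgroup.zpowers x ⊔ Subgroup.zpowers y)).Normal := by
    constructor
    intro n hn g
    rw [Subgroup.mem_subgroupOf] at hn ⊢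
    have h1 := (Subgroup.mem_centralizer_iff.1 (hKc g.2)) _ hn
    have h2 : ((g * n * g⁻¹ : ↥(Subgroup.zpowers x ⊔ Subgroup.zpowers y)) : G) = (n : G) := by
      show (g : G) * (n : G) * (g : G)⁻¹ = (n : G)
      rw [← h1]; group
    rw [h2]; exact hn
  refine ⟨Subgroup.zpowers x ⊔ Subgroup.zpowers y, Subgroup.zpowers (x ^ 2), hnorm, ?_⟩
  have ha : (QuotientGroup.mk (⟨x, hxK⟩ : ↥(Subgroup.zpowers x ⊔ Subgroup.zpowers y)) :
      ↥(Subgroup.zpowers x ⊔ Subgroup.zpowers y) ⧸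
        (Subgroup.zpowers (x ^ 2)).subgroupOf (Subgroup.zpowers x ⊔ Subgroup.zpowers y)) *
      QuotientGroup.mk (⟨x, hxK⟩ : ↥(Subgroup.zpowers x ⊔ Subgroup.zpowers y)) = 1 := by
    rw [← QuotientGroup.mk_mul, QuotientGroup.eq_one_iff, Subgroup.mem_subgroupOf]
    show x * x ∈ Subgroup.zpowers (x ^ 2)
    rw [← sq]
    exact Subgroup.mem_zpowers _
  have ha1 : (QuotientGroup.mk (⟨x, hxK⟩ : ↥(Subgroup.zpowers x ⊔ Subgroup.zpowers y)) :
      ↥(Subgroup.zpowers x ⊔ Subgroup.zpowers y) ⧸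
        (Subgroup.zpowers (x ^ 2)).subgroupOf (Subgroup.zpowers x ⊔ Subgroup.zpowers y)) ≠ 1 := by
    intro h
    rw [QuotientGroup.eq_one_iff, Subgroup.mem_subgroupOf] at h
    exact hxN h
  have hab : (QuotientGroup.mk (⟨x, hxK⟩ : ↥(Subgroup.zpowers x ⊔ Subgroup.zpowers y)) :
      ↥(Subgroup.zpowers x ⊔ Subgroup.zpowers y) ⧸
        (Subgroup.zpowers (x ^ 2)).subgroupOf (Subgroup.zpowers x ⊔ Subgroup.zpowers y)) *
      QuotientGroup.mk (⟨y, hyK⟩ : ↥(Subgroup.zpowers x ⊔ Subgroup.zpowers y)) *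
      (QuotientGroup.mk (⟨x, hxK⟩ : ↥(Subgroup.zpowers x ⊔ Subgroup.zpowers y)))⁻¹ =
      (QuotientGroup.mk (⟨y, hyK⟩ : ↥(Subgroup.zpowers x ⊔ Subgroup.zpowers y)))⁻¹ := by
    rw [← QuotientGroup.mk_mul, ← QuotientGroup.mk_inv, ← QuotientGroup.mk_mul, ← QuotientGroup.mk_inv]
    congr 1
    exact Subtype.ext hxy
  have hb : orderOf (QuotientGroup.mk (⟨y, hyK⟩ : ↥(Subgroup.zpowers x ⊔ Subgroup.zpowers y)) :
      ↥(Subgroup.zpowers x ⊔ Subgroup.zpowers y) ⧸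
        (Subgroup.zpowers (x ^ 2)).subgroupOf (Subgroup.zpowers x ⊔ Subgroup.zpowers y)) = p := by
    apply orderOf_eq_prime
    · rw [← QuotientGroup.mk_pow, QuotientGroup.eq_one_iff]
      have h1 : (⟨y, hyK⟩ : ↥(Subgroup.zpowers x ⊔ Subgroup.zpowers y)) ^ p = 1 := by
        apply Subtype.ext
        show y ^ p = 1
        rw [← hy]; exact pow_orderOf_eq_one y
      rw [h1]; exact Subgroup.one_mem _
    · intro h
      rw [QuotientGroup.eq_one_iff, Subgroup.mem_subgroupOf] at h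
      exact hyN h
  have hodd : Odd p := hp'.odd_of_ne_two hp
  obtain ⟨e⟩ := Cfsg.Agent.H29.nonempty_dihedral_equiv _ _ (by rw [hb]; exact hodd) ha ha1 hab
  rw [hb] at e
  have htop : Subgroup.zpowers (QuotientGroup.mk (⟨x, hxK⟩ : ↥(Subgroup.zpowers x ⊔ Subgroup.zpowers y)) :
      ↥(Subgroup.zpowers x ⊔ Subgroup.zpowers y) ⧸
        (Subgroup.zpowers (x ^ 2)).subgroupOf (Subgroup.zpowers x ⊔ Subgroup.zpowers y)) ⊔
      Subgroup.zpowers (QuotientGroup.mk (⟨y, hyK⟩ : ↥(Subgroup.zpowers x ⊔ Subgroup.zpowers y))) = ⊤ := by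
    rw [eq_top_iff]
    intro q _
    obtain ⟨⟨g, hg⟩, rfl⟩ := QuotientGroup.mk_surjective q
    have hle : Subgroup.zpowers x ⊔ Subgroup.zpowers y ≤
        ((Subgroup.zpowers (QuotientGroup.mk (⟨x, hxK⟩ : ↥(Subgroup.zpowers x ⊔ Subgroup.zpowers y)) :
          ↥(Subgroup.zpowers x ⊔ Subgroup.zpowers y) ⧸
            (Subgroup.zpowers (x ^ 2)).subgroupOf (Subgroup.zpowers x ⊔ Subgroup.zpowers y)) ⊔
          Subgroup.zpowers (QuotientGroup.mk (⟨y, hyK⟩ : ↥(Subgroup.zpowers x ⊔ Subgroup.zpowers y)))).comap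
            (QuotientGroup.mk' _)).map (Subgroup.zpowers x ⊔ Subgroup.zpowers y).subtype := by
      rw [sup_le_iff, Subgroup.zpowers_le, Subgroup.zpowers_le]
      refine ⟨⟨⟨x, hxK⟩, ?_, rfl⟩, ⟨⟨y, hyK⟩, ?_, rfl⟩⟩
      · exact (le_sup_left : Subgroup.zpowers _ ≤ _) (Subgroup.mem_zpowers _)
      · exact (le_sup_right : Subgroup.zpowers _ ≤ _) (Subgroup.mem_zpowers _)
    obtain ⟨g', hg', hgg⟩ := hle hg
    have : g' = ⟨g, hg⟩ := Subtype.ext hgg
    rw [← this]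
    exact hg'
  exact ⟨(Subgroup.topEquiv.symm.trans (MulEquiv.subgroupCongr htop.symm)).trans e⟩

theorem dih_C_to_A {p : ℕ} [Fact p.Prime] (hp : p ≠ 2) (x y : G) (hx : ∃ k : ℕ, orderOf x = 2 ^ k)
    (hy : ∃ k : ℕ, orderOf y = p ^ k) (hy1 : y ≠ 1) (hxy : x * y * x⁻¹ = y⁻¹) :
    Cfsg.Involves (DihedralGroup p) G := by
  have hp' := (Fact.out : p.Prime)
  obtain ⟨j, hj⟩ := hy
  have hj0 : j ≠ 0 := by
    intro h0
    rw [h0, pow_zero, orderOf_eq_one_iff] at hj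
    exact hy1 hj
  obtain ⟨i, rfl⟩ := Nat.exists_eq_succ_of_ne_zero hj0
  have hy'o : orderOf (y ^ (p ^ i)) = p := by
    apply orderOf_eq_prime
    · rw [← pow_mul, ← pow_succ, ← hj, pow_orderOf_eq_one]
    · intro h1
      have h2 := orderOf_dvd_of_pow_eq_one h1
      rw [hj] at h2
      have h3 := (Nat.pow_dvd_pow_iff_le_right hp'.one_lt).1 h2
      omega
  have hxy' : x * y ^ (p ^ i) * x⁻¹ = (y ^ (p ^ i))⁻¹ := by rw [← conj_pow, hxy, inv_pow]
  exact dih_C_to_A_aux hp x (y ^ (p ^ i)) hx hy'o hxy'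

/-- the sign homomorphism of a dihedral group -/
def dihSign (n : ℕ) : DihedralGroup n →* ℤˣ where
  toFun g := match g with
    | DihedralGroup.r _ => 1
    | DihedralGroup.sr _ => -1
  map_one' := rfl
  map_mul' := by
    rintro (a | a) (b | b) <;> rfl

theorem dihSign_r (n : ℕ) (i : ZMod n) : dihSign n (DihedralGroup.r i) = 1 := rfl

theorem dihSign_sr (n : ℕ) (i : ZMod n) : dihSign n (DihedralGroup.sr i) = -1 := rfl

theorem dih_A_to_B [Finite G] {p : ℕ} [Fact p.Prime] (hp : p ≠ 2)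
    (h : Cfsg.Involves (DihedralGroup p) G) :
    ∃ (x : G) (P : Subgroup G), (∃ k : ℕ, orderOf x = 2 ^ k) ∧ IsPGroup p ↥P ∧
      x ∈ Subgroup.normalizer (P : Set G) ∧ x ∉ Subgroup.centralizer (P : Set G) := by
  have hp' := (Fact.out : p.Prime)
  obtain ⟨K, R, hN, ⟨e⟩⟩ := h
  let π : K →* DihedralGroup p := e.toMonoidHom.comp (QuotientGroup.mk' (R.subgroupOf K))
  have hπ : Function.Surjective π := e.surjective.comp (QuotientGroup.mk'_surjective _)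
  obtain ⟨u, hu⟩ := hπ (DihedralGroup.r 1)
  obtain ⟨a, m', hm', ho⟩ := Nat.exists_eq_pow_mul_and_not_dvd (orderOf_pos u).ne' p hp'.ne_one
  have hv : (u ^ m') ^ (p ^ a) = 1 := by rw [← pow_mul, mul_comm, ← ho, pow_orderOf_eq_one]
  have hπv : π (u ^ m') = DihedralGroup.r (m' : ZMod p) := by
    rw [map_pow, hu, DihedralGroup.r_one_pow]
  have hvL : u ^ m' ∈ ((dihSign p).comp π).ker := by
    show (dihSign p) (π (u ^ m')) = 1
    rw [hπv]; rfl
  have hm0 : (m' : ZMod p) ≠ 0 := by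
    rw [Ne, ZMod.natCast_eq_zero_iff]; exact hm'
  have hpg : IsPGroup p (Subgroup.zpowers (⟨u ^ m', hvL⟩ : ((dihSign p).comp π).ker)) := by
    rintro ⟨g, z, rfl⟩
    refine ⟨a, ?_⟩
    apply Subtype.ext
    apply Subtype.ext
    show ((u ^ m') ^ z) ^ (p ^ a) = 1
    rw [← zpow_natCast, ← zpow_mul, mul_comm, zpow_mul, zpow_natCast, hv, one_zpow]
  obtain ⟨P, hP⟩ := hpg.exists_le_sylow
  have hvP : (⟨u ^ m', hvL⟩ : ((dihSign p).comp π).ker) ∈ P := hP (Subgroup.mem_zpowers _)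
  have hfr := Sylow.normalizer_sup_eq_top P
  obtain ⟨g0, hg0⟩ := hπ (DihedralGroup.sr 0)
  have hg0L : g0 ∉ ((dihSign p).comp π).ker := by
    intro h
    have h1 : (dihSign p) (π g0) = 1 := h
    rw [hg0, dihSign_sr] at h1
    exact absurd h1 (by decide)
  have hex : ∃ n ∈ Subgroup.normalizer (((P : Subgroup ((dihSign p).comp π).ker).map
      ((dihSign p).comp π).ker.subtype : Subgroup K) : Set K), n ∉ ((dihSign p).comp π).ker := by
    by_contra hcon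
    push Not at hcon
    have h1 : Subgroup.normalizer (((P : Subgroup ((dihSign p).comp π).ker).map
      ((dihSign p).comp π).ker.subtype : Subgroup K) : Set K) ⊔ ((dihSign p).comp π).ker ≤
        ((dihSign p).comp π).ker := sup_le hcon le_rfl
    rw [hfr] at h1
    exact hg0L (h1 (Subgroup.mem_top g0))
  obtain ⟨n, hnN, hnL⟩ := hex
  obtain ⟨c, m, hmodd, hom⟩ := Nat.exists_eq_two_pow_mul_odd (orderOf_pos n).ne'
  have hs2 : (n ^ m) ^ (2 ^ c) = 1 := by rw [← pow_mul, mul_comm, ← hom, pow_orderOf_eq_one]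
  have hsN : n ^ m ∈ Subgroup.normalizer (((P : Subgroup ((dihSign p).comp π).ker).map
      ((dihSign p).comp π).ker.subtype : Subgroup K) : Set K) := pow_mem hnN m
  have hsL : (dihSign p) (π (n ^ m)) = -1 := by
    have h1 : (dihSign p) (π n) = -1 := by
      have h2 : (dihSign p) (π n) ≠ 1 := hnL
      rcases Int.units_eq_one_or ((dihSign p) (π n)) with h | h
      · exact absurd h h2
      · exact h
    rw [map_pow, map_pow, h1, hmodd.neg_one_pow]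
  obtain ⟨j, hj⟩ : ∃ j, π (n ^ m) = DihedralGroup.sr j := by
    cases hc : π (n ^ m) with
    | r i => rw [hc, dihSign_r] at hsL; exact absurd hsL (by decide)
    | sr j => exact ⟨j, rfl⟩
  refine ⟨((n ^ m : K) : G), ((P : Subgroup ((dihSign p).comp π).ker).map
      ((dihSign p).comp π).ker.subtype).map K.subtype, ?_, ?_, ?_, ?_⟩
  · have h1 : orderOf ((n ^ m : K) : G) ∣ 2 ^ c := by
      rw [Subgroup.orderOf_coe]; exact orderOf_dvd_of_pow_eq_one hs2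
    obtain ⟨d, _, hd⟩ := (Nat.dvd_prime_pow Nat.prime_two).1 h1
    exact ⟨d, hd⟩
  · exact (P.isPGroup'.map _).map _
  · exact Subgroup.le_normalizer_map K.subtype ⟨n ^ m, hsN, rfl⟩
  · intro hc
    have h1 := (Subgroup.mem_centralizer_iff.1 hc) ((u ^ m' : K) : G)
      ⟨u ^ m', ⟨⟨u ^ m', hvL⟩, hvP, rfl⟩, rfl⟩
    have h2 : u ^ m' * n ^ m = n ^ m * u ^ m' := Subtype.ext h1
    have h3 := congrArg π h2
    rw [map_mul, map_mul, hπv, hj, DihedralGroup.r_mul_sr, DihedralGroup.sr_mul_r] at h3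
    have h4 : j - (m' : ZMod p) = j + (m' : ZMod p) := by injection h3
    have h5 : (2 : ZMod p) * (m' : ZMod p) = 0 := by linear_combination -h4
    have h6 : (2 : ZMod p) ≠ 0 := by
      intro h
      have h7 : ((2 : ℕ) : ZMod p) = 0 := by exact_mod_cast h
      rw [ZMod.natCast_eq_zero_iff] at h7
      exact hp ((Nat.prime_dvd_prime_iff_eq hp' Nat.prime_two).1 h7)
    rcases mul_eq_zero.1 h5 with h | h
    · exact h6 h
    · exact hm0 h

theorem dih_main [Finite G] {p : ℕ} [Fact p.Prime] (hp : p ≠ 2) :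
    (Cfsg.Involves (DihedralGroup p) G ↔ ∃ (x : G) (P : Subgroup G), (∃ k : ℕ, orderOf x = 2 ^ k) ∧
      IsPGroup p ↥P ∧ x ∈ Subgroup.normalizer (P : Set G) ∧ x ∉ Subgroup.centralizer (P : Set G)) ∧
    (Cfsg.Involves (DihedralGroup p) G ↔ ∃ x y : G, (∃ k : ℕ, orderOf x = 2 ^ k) ∧
      (∃ k : ℕ, orderOf y = p ^ k) ∧ y ≠ 1 ∧ x * y * x⁻¹ = y⁻¹) := by
  have hBC : (∃ (x : G) (P : Subgroup G), (∃ k : ℕ, orderOf x = 2 ^ k) ∧
      IsPGroup p ↥P ∧ x ∈ Subgroup.normalizer (P : Set G) ∧ x ∉ Subgroup.centralizer (P : Set G)) →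
      ∃ x y : G, (∃ k : ℕ, orderOf x = 2 ^ k) ∧
      (∃ k : ℕ, orderOf y = p ^ k) ∧ y ≠ 1 ∧ x * y * x⁻¹ = y⁻¹ := by
    rintro ⟨x, P, hx, hP, hxN, hxC⟩
    exact dih_B_to_C x P hx hP hxN hxC
  have hCA : (∃ x y : G, (∃ k : ℕ, orderOf x = 2 ^ k) ∧
      (∃ k : ℕ, orderOf y = p ^ k) ∧ y ≠ 1 ∧ x * y * x⁻¹ = y⁻¹) → Cfsg.Involves (DihedralGroup p) G := by
    rintro ⟨x, y, hx, hy, hy1, hxy⟩
    exact dih_C_to_A hp x y hx hy hy1 hxy
  exact ⟨⟨dih_A_to_B hp, fun h => hCA (hBC h)⟩, ⟨fun h => hBC (dih_A_to_B hp h), hCA⟩⟩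

end dih

end Cfsg.Agent.H51
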