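import Cfsg.Agent.H51.AnMom

set_option autoImplicit false

/-!
# S4560 (helper51), part 3: permutations with prescribed fixed-point data

Elements of `Perm (Fin n)` obtained from `Equiv.Perm.exists_with_cycleType_iff`.
-/

namespace Cfsg.Agent.H51.AnCh

open Equiv

variable {n : ℕ}

theorem fixN_perm (σ : Perm (Fin n)) : fixN (Fin n) σ = n - σ.cycleType.sum := by
  have h := Equiv.Perm.card_fixedPoints σ
  rw [Fintype.card_fin] at h
  rw [← h, fixN, Nat.card_eq_fintype_card]
  exact Fintype.card_congr (Equiv.subtypeEquivRight (fun a => Iff.rfl))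

theorem swpN_perm (σ : Perm (Fin n)) (h2 : 2 ∉ σ.cycleType) : swpN (Fin n) σ = 0 := by
  unfold swpN
  have : IsEmpty {a : Fin n // σ • a ≠ a ∧ σ • σ • a = a} := by
    constructor
    rintro ⟨a, h1, h3⟩
    rw [Equiv.Perm.smul_def] at h1
    rw [Equiv.Perm.smul_def, Equiv.Perm.smul_def] at h3
    apply h2
    have hcyc : (σ.cycleOf a).IsCycle := Equiv.Perm.isCycle_cycleOf σ h1
    have hmem : σ.cycleOf a ∈ σ.cycleFactorsFinset :=
      Equiv.Perm.cycleOf_mem_cycleFactorsFinset_iff.2 (Equiv.Perm.mem_support.2 h1)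
    have hca : σ.cycleOf a a ≠ a := by rw [Equiv.Perm.cycleOf_apply_self]; exact h1
    have hsq : σ.cycleOf a ^ 2 = 1 := by
      rw [hcyc.pow_eq_one_iff' hca, Equiv.Perm.cycleOf_pow_apply_self]
      simpa [pow_two] using h3
    have hord : orderOf (σ.cycleOf a) = 2 := by
      have hd : orderOf (σ.cycleOf a) ∣ 2 := orderOf_dvd_of_pow_eq_one hsq
      rcases (Nat.dvd_prime Nat.prime_two).1 hd with h | h
      · exact absurd (orderOf_eq_one_iff.1 h) hcyc.ne_one
      · exact h
    rw [Equiv.Perm.cycleType_def, Multiset.mem_map]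
    exact ⟨σ.cycleOf a, hmem, by rw [Function.comp_apply, ← hcyc.orderOf, hord]⟩
  exact Nat.card_of_isEmpty

theorem exists_perm (m : Multiset ℕ) (hsum : m.sum ≤ n) (h2 : ∀ a ∈ m, 2 ≤ a) :
    ∃ σ : Perm (Fin n), σ.cycleType = m :=
  (Equiv.Perm.exists_with_cycleType_iff (α := Fin n)).2 ⟨by rw [Fintype.card_fin]; exact hsum, h2⟩

theorem sign_eq_one_of_even (σ : Perm (Fin n))
    (h : Even (σ.cycleType.sum + Multiset.card σ.cycleType)) : Equiv.Perm.sign σ = 1 := by
  rw [Equiv.Perm.sign_of_cycleType, h.neg_one_pow]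

theorem orderOf_two_pow (σ : Perm (Fin n)) (k : ℕ) (h : ∀ a ∈ σ.cycleType, a ∣ 2 ^ k) :
    ∃ j, orderOf σ = 2 ^ j := by
  have hd : orderOf σ ∣ 2 ^ k := by
    rw [← Equiv.Perm.lcm_cycleType]
    exact Multiset.lcm_dvd.2 h
  obtain ⟨j, -, hj⟩ := (Nat.dvd_prime_pow Nat.prime_two).1 hd
  exact ⟨j, hj⟩

/-- an even permutation of order 3 with `n % 3` fixed points. -/
theorem exists_order3 (hn : 3 ≤ n) : ∃ σ : Perm (Fin n), Equiv.Perm.sign σ = 1 ∧ orderOf σ = 3 ∧
    fixN (Fin n) σ = n % 3 ∧ swpN (Fin n) σ = 0 := by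
  have hk : 1 ≤ n / 3 := by omega
  obtain ⟨σ, hσ⟩ := exists_perm (n := n) (Multiset.replicate (n / 3) 3)
    (by rw [Multiset.sum_replicate, smul_eq_mul]; omega)
    (fun a ha => by rw [Multiset.eq_of_mem_replicate ha]; norm_num)
  refine ⟨σ, ?_, ?_, ?_, ?_⟩
  · apply sign_eq_one_of_even
    rw [hσ, Multiset.sum_replicate, Multiset.card_replicate, smul_eq_mul]
    exact ⟨2 * (n / 3), by ring⟩
  · have hd : orderOf σ ∣ 3 := by
      rw [← Equiv.Perm.lcm_cycleType, hσ]
      exact Multiset.lcm_dvd.2 (fun a ha => by rw [Multiset.eq_of_mem_replicate ha])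
    rcases (Nat.dvd_prime Nat.prime_three).1 hd with h | h
    · exfalso
      have h1 : σ = 1 := orderOf_eq_one_iff.1 h
      have h0 : σ.cycleType = 0 := Equiv.Perm.cycleType_eq_zero.2 h1
      rw [hσ] at h0
      have := congrArg Multiset.card h0
      rw [Multiset.card_replicate, Multiset.card_zero] at this
      omega
    · exact h
  · rw [fixN_perm, hσ, Multiset.sum_replicate, smul_eq_mul]
    omega
  · apply swpN_perm
    rw [hσ]
    intro h
    have := Multiset.eq_of_mem_replicate h
    omega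

/-- `n` odd: an even 2-element with exactly one fixed point. -/
theorem exists_two_odd (hn : 7 ≤ n) (hodd : n % 2 = 1) :
    ∃ σ : Perm (Fin n), Equiv.Perm.sign σ = 1 ∧ (∃ j, orderOf σ = 2 ^ j) ∧ fixN (Fin n) σ = 1 := by
  rcases Nat.even_or_odd (n / 2) with he | ho
  · obtain ⟨σ, hσ⟩ := exists_perm (n := n) (Multiset.replicate (n / 2) 2)
      (by rw [Multiset.sum_replicate, smul_eq_mul]; omega)
      (fun a ha => by rw [Multiset.eq_of_mem_replicate ha])
    refine ⟨σ, ?_, ?_, ?_⟩
    · apply sign_eq_one_of_even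
      rw [hσ, Multiset.sum_replicate, Multiset.card_replicate, smul_eq_mul]
      obtain ⟨c, hc⟩ := he
      exact ⟨3 * c, by omega⟩
    · apply orderOf_two_pow σ 1
      intro a ha
      rw [hσ] at ha
      rw [Multiset.eq_of_mem_replicate ha, pow_one]
    · rw [fixN_perm, hσ, Multiset.sum_replicate, smul_eq_mul]
      omega
  · obtain ⟨σ, hσ⟩ := exists_perm (n := n) (4 ::ₘ Multiset.replicate (n / 2 - 2) 2)
      (by rw [Multiset.sum_cons, Multiset.sum_replicate, smul_eq_mul]; omega)
      (fun a ha => by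
        rcases Multiset.mem_cons.1 ha with h | h
        · omega
        · rw [Multiset.eq_of_mem_replicate h])
    refine ⟨σ, ?_, ?_, ?_⟩
    · apply sign_eq_one_of_even
      rw [hσ, Multiset.sum_cons, Multiset.card_cons, Multiset.sum_replicate,
        Multiset.card_replicate, smul_eq_mul]
      obtain ⟨c, hc⟩ := ho
      exact ⟨3 * c + 1, by omega⟩
    · apply orderOf_two_pow σ 2
      intro a ha
      rw [hσ] at ha
      rcases Multiset.mem_cons.1 ha with h | h
      · rw [h]; norm_num
      · rw [Multiset.eq_of_mem_replicate h]; norm_num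
    · rw [fixN_perm, hσ, Multiset.sum_cons, Multiset.sum_replicate, smul_eq_mul]
      omega

/-- `n` even: an even 2-element with `n % 4` fixed points and no 2-cycles. -/
theorem exists_two_even (hn : 7 ≤ n) (heven : n % 2 = 0) :
    ∃ σ : Perm (Fin n), Equiv.Perm.sign σ = 1 ∧ (∃ j, orderOf σ = 2 ^ j) ∧
      fixN (Fin n) σ = n % 4 ∧ swpN (Fin n) σ = 0 := by
  rcases Nat.even_or_odd (n / 4) with he | ho
  · obtain ⟨σ, hσ⟩ := exists_perm (n := n) (Multiset.replicate (n / 4) 4)
      (by rw [Multiset.sum_replicate, smul_eq_mul]; omega)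
      (fun a ha => by rw [Multiset.eq_of_mem_replicate ha]; norm_num)
    refine ⟨σ, ?_, ?_, ?_, ?_⟩
    · apply sign_eq_one_of_even
      rw [hσ, Multiset.sum_replicate, Multiset.card_replicate, smul_eq_mul]
      obtain ⟨c, hc⟩ := he
      exact ⟨5 * c, by omega⟩
    · apply orderOf_two_pow σ 2
      intro a ha
      rw [hσ] at ha
      rw [Multiset.eq_of_mem_replicate ha]; norm_num
    · rw [fixN_perm, hσ, Multiset.sum_replicate, smul_eq_mul]
      omega
    · apply swpN_perm
      rw [hσ]
      intro h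
      have := Multiset.eq_of_mem_replicate h
      omega
  · obtain ⟨σ, hσ⟩ := exists_perm (n := n) (8 ::ₘ Multiset.replicate (n / 4 - 2) 4)
      (by
        rw [Multiset.sum_cons, Multiset.sum_replicate, smul_eq_mul]
        obtain ⟨c, hc⟩ := ho
        omega)
      (fun a ha => by
        rcases Multiset.mem_cons.1 ha with h | h
        · omega
        · rw [Multiset.eq_of_mem_replicate h]; norm_num)
    refine ⟨σ, ?_, ?_, ?_, ?_⟩
    · apply sign_eq_one_of_even
      rw [hσ, Multiset.sum_cons, Multiset.card_cons, Multiset.sum_replicate,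
        Multiset.card_replicate, smul_eq_mul]
      obtain ⟨c, hc⟩ := ho
      exact ⟨5 * c + 2, by omega⟩
    · apply orderOf_two_pow σ 3
      intro a ha
      rw [hσ] at ha
      rcases Multiset.mem_cons.1 ha with h | h
      · rw [h]; norm_num
      · rw [Multiset.eq_of_mem_replicate h]; norm_num
    · rw [fixN_perm, hσ, Multiset.sum_cons, Multiset.sum_replicate, smul_eq_mul]
      obtain ⟨c, hc⟩ := ho
      omega
    · apply swpN_perm
      rw [hσ]
      intro h
      rcases Multiset.mem_cons.1 h with h | h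
      · omega
      · have := Multiset.eq_of_mem_replicate h
        omega

end Cfsg.Agent.H51.AnCh
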