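import Cfsg.Agent.H74.DihBasic

set_option autoImplicit false

/-!
# S3572, piece Q (helper51 for helper74): at most two non-identity classes off `z`
-/

namespace Cfsg.Agent.H51.Dih

open DihedralGroup Cfsg.Agent.H74.Dih

variable {n : ℕ} [NeZero n]

/-- the standing hypotheses of pieces Q and R3C. -/
structure ZData (P : PSR n) (p : ℕ) (z : ZMod n) : Prop where
  hz : z ≠ 0
  hpz : p • z = 0
  hst : ∀ i c : ZMod n, p • i ≠ 0 → p • c = 0 → P.rel (r i) (r (i + c))
  hC : ∀ c : ZMod n, c ≠ 0 → p • c = 0 → P.rel (r c) (r z)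

variable {P : PSR n} {p : ℕ} {z : ZMod n}

theorem ZData.rel_shift (H : ZData P p z) (k : ZMod n) (hk0 : k ≠ 0) (hkz : k ≠ z) :
    P.rel (r k) (r (k - z)) := by
  by_cases hk : p • k = 0
  · have h1 := H.hC k hk0 hk
    have h2 := H.hC (k - z) (sub_ne_zero.2 hkz) (by rw [smul_sub, hk, H.hpz, sub_zero])
    exact P.equiv.trans h1 (P.equiv.symm h2)
  · have := H.hst k (-z) hk (by rw [smul_neg, H.hpz, neg_zero])
    rwa [← sub_eq_add_neg] at this

theorem ZData.rel_neg (H : ZData P p z) : P.rel (r (-z)) (r z) :=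
  H.hC _ (neg_ne_zero.2 H.hz) (by rw [smul_neg, H.hpz, neg_zero])

/-- the identity (*) for functions constant on classes. -/
theorem ZData.resp_shift (H : ZData P p z) (φ : DihedralGroup n → ℤ) (hφ : Resp P.rel φ)
    (k : ZMod n) :
    φ (r k) - φ (r (k - z)) =
      (φ 1 - φ (r z)) * ((if k = 0 then 1 else 0) - (if k = z then 1 else 0)) := by
  by_cases hk0 : k = 0
  · subst hk0
    rw [zero_sub, hφ _ _ H.rel_neg, if_pos rfl, if_neg (Ne.symm H.hz), one_def]; ring
  · by_cases hkz : k = z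
    · subst hkz; rw [sub_self, if_neg hk0, if_pos rfl, one_def]; ring
    · rw [hφ _ _ (H.rel_shift k hk0 hkz), if_neg hk0, if_neg hkz]; ring

/-- rotation parts of suitable closed sets are `z`-invariant. -/
theorem ZData.r_add_mem (H : ZData P p z) (S : Set (DihedralGroup n))
    (hS : ∀ h h', P.rel h h' → h ∈ S → h' ∈ S) (h1z : (1 : DihedralGroup n) ∈ S ↔ r z ∈ S)
    (k : ZMod n) (hk : r k ∈ S) : r (z + k) ∈ S := by
  by_cases h0 : z + k = 0
  · have hk' : k = -z := by rw [← sub_eq_zero, sub_neg_eq_add, add_comm]; exact h0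
    subst hk'
    rw [h0, ← one_def]
    exact h1z.2 (hS _ _ H.rel_neg hk)
  · by_cases hzz : z + k = z
    · have hk' : k = 0 := by simpa using hzz
      subst hk'
      rw [add_zero]
      exact h1z.1 (by rw [one_def]; exact hk)
    · have := H.rel_shift (z + k) h0 hzz
      rw [add_sub_cancel_left] at this
      exact hS _ _ (P.equiv.symm this) hk

/-- Claims 1 and 2: reflection parts are not `z`-invariant. -/
theorem ZData.exists_sr_shift (H : ZData P p z) (S : Set (DihedralGroup n))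
    (hS : ∀ h h', P.rel h h' → h ∈ S → h' ∈ S) (hne : S.Nonempty) (huniv : S ≠ Set.univ)
    (h1z : (1 : DihedralGroup n) ∈ S ↔ r z ∈ S) :
    ∃ j : ZMod n, sr j ∈ S ∧ sr (j - z) ∉ S := by
  by_contra hcon
  push Not at hcon
  have h1 := P.stab S hS hne huniv (r z) (by
    intro x hx
    cases x with
    | r i => rw [r_mul_r]; exact H.r_add_mem S hS h1z i hx
    | sr j => rw [r_mul_sr]; exact hcon j hx)
  rw [one_def] at h1
  exact H.hz (r.inj h1)

open Classical in
/-- the indicator of the class of `g`. -/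
noncomputable def ind (P : PSR n) (g : DihedralGroup n) : DihedralGroup n → ℤ :=
  fun h => if P.rel h g then 1 else 0

theorem ind_resp (P : PSR n) (g : DihedralGroup n) : Resp P.rel (ind P g) := by
  intro h h' hh
  unfold ind
  have : P.rel h g ↔ P.rel h' g :=
    ⟨fun h1 => P.equiv.trans (P.equiv.symm hh) h1, fun h1 => P.equiv.trans hh h1⟩
  by_cases h1 : P.rel h g
  · rw [if_pos h1, if_pos (this.1 h1)]
  · rw [if_neg h1, if_neg (fun h2 => h1 (this.2 h2))]

theorem ind_of_rel (P : PSR n) {g h : DihedralGroup n} (hh : P.rel h g) : ind P g h = 1 := by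
  unfold ind; rw [if_pos hh]

theorem ind_of_not_rel (P : PSR n) {g h : DihedralGroup n} (hh : ¬ P.rel h g) : ind P g h = 0 := by
  unfold ind; rw [if_neg hh]

theorem ind_nonneg (P : PSR n) (g h : DihedralGroup n) : 0 ≤ ind P g h := by
  unfold ind; split_ifs <;> norm_num

theorem ind_le_one (P : PSR n) (g h : DihedralGroup n) : ind P g h ≤ 1 := by
  unfold ind; split_ifs <;> norm_num

/-! ### The convolution algebra of `ZMod n` -/

/-- the reflection part as an element of the group ring of `ZMod n`. -/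
noncomputable def bel (f : DihedralGroup n → ℤ) : AddMonoidAlgebra ℤ (ZMod n) :=
  ∑ i : ZMod n, AddMonoidAlgebra.single i (f (sr i))

/-- the reversed reflection part. -/
noncomputable def sta (f : DihedralGroup n → ℤ) : AddMonoidAlgebra ℤ (ZMod n) :=
  ∑ i : ZMod n, AddMonoidAlgebra.single (-i) (f (sr i))

/-- the difference element. -/
noncomputable def Dz (z : ZMod n) : AddMonoidAlgebra ℤ (ZMod n) :=
  AddMonoidAlgebra.single 0 1 - AddMonoidAlgebra.single z 1

theorem coeff_sta_mul_bel (f g : DihedralGroup n → ℤ) (k : ZMod n) :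
    (sta f * bel g).coeff k = ∑ i : ZMod n, f (sr i) * g (sr (i + k)) := by
  unfold sta bel
  rw [Finset.sum_mul_sum]
  simp only [AddMonoidAlgebra.single_mul_single, AddMonoidAlgebra.coeff_sum,
    AddMonoidAlgebra.coeff_single, Finsupp.coe_finsetSum, Finset.sum_apply, Finsupp.single_apply]
  refine Finset.sum_congr rfl fun i _ => ?_
  rw [Finset.sum_eq_single (i + k)]
  · simp
  · intro j _ hj
    rw [if_neg]
    intro h
    apply hj
    rw [← h]; abel
  · simp

theorem coeff_Dz_mul (z : ZMod n) (u : AddMonoidAlgebra ℤ (ZMod n)) (k : ZMod n) :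
    (Dz z * u).coeff k = u.coeff k - u.coeff (k - z) := by
  unfold Dz
  rw [sub_mul, AddMonoidAlgebra.coeff_sub, Finsupp.sub_apply,
    AddMonoidAlgebra.coeff_single_mul_apply, AddMonoidAlgebra.coeff_single_mul_apply]
  simp [sub_eq_neg_add]

theorem coeff_Dz (z : ZMod n) (k : ZMod n) :
    (Dz z).coeff k = (if k = 0 then 1 else 0) - (if k = z then 1 else 0) := by
  unfold Dz
  rw [AddMonoidAlgebra.coeff_sub, Finsupp.sub_apply, AddMonoidAlgebra.coeff_single,
    AddMonoidAlgebra.coeff_single, Finsupp.single_apply, Finsupp.single_apply]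
  simp only [eq_comm]

theorem absorb3 {R : Type*} [CommRing R] (D X Y Z : R) (a b c : ℤ) (hX : D * X = a • D)
    (hY : D * Y = b • D) (hZ : D * Z = c • D) : D * (X * Y * Z) = (a * b * c) • D := by
  rw [← mul_assoc, ← mul_assoc, hX, smul_mul_assoc, hY, smul_mul_assoc, smul_mul_assoc, hZ,
    smul_smul, smul_smul]

/-- the constant `Q_fg`. -/
noncomputable def Qv (z : ZMod n) (f g : DihedralGroup n → ℤ) : ℤ :=
  (conv f g 1 - conv f g (r z)) - (f 1 - f (r z)) * (g 1 - g (r z))

theorem ZData.X_shift (H : ZData P p z) (f g : DihedralGroup n → ℤ) (hf : Resp P.rel f)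
    (hg : Resp P.rel g) : Dz z * (sta f * bel g) = Qv z f g • Dz z := by
  apply AddMonoidAlgebra.ext
  apply Finsupp.ext
  intro k
  rw [coeff_Dz_mul, coeff_sta_mul_bel, coeff_sta_mul_bel, AddMonoidAlgebra.coeff_smul,
    Finsupp.smul_apply, coeff_Dz, smul_eq_mul]
  have h1 := conv_r f g k
  have h2 := conv_r f g (k - z)
  have h3 := H.resp_shift (conv f g) (P.conv_closed f g hf hg) k
  have h4 : ∑ i : ZMod n, f (r i) * g (r (k - i)) - ∑ i : ZMod n, f (r i) * g (r (k - z - i)) =
      (f 1 - f (r z)) * (g 1 - g (r z)) *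
        ((if k = 0 then 1 else 0) - (if k = z then 1 else 0)) := by
    rw [← Finset.sum_sub_distrib]
    have e0 : ∀ i : ZMod n, f (r i) * g (r (k - i)) - f (r i) * g (r (k - z - i)) =
        f (r i) * ((g 1 - g (r z)) *
          ((if i = k then 1 else 0) - (if i = k - z then 1 else 0))) := by
      intro i
      have e1 : (k - i = 0) ↔ (i = k) := by rw [sub_eq_zero, eq_comm]
      have e2 : (k - i = z) ↔ (i = k - z) := by
        constructor
        · intro h; rw [← h]; abel
        · intro h; rw [h]; abel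
      have := H.resp_shift g hg (k - i)
      rw [if_congr e1 rfl rfl, if_congr e2 rfl rfl] at this
      rw [← this, mul_sub, show k - z - i = k - i - z by abel]
    have e3 : ∀ i : ZMod n, f (r i) * ((g 1 - g (r z)) *
          ((if i = k then 1 else 0) - (if i = k - z then 1 else 0))) =
        (g 1 - g (r z)) * ((if i = k then f (r i) else 0) -
          (if i = k - z then f (r i) else 0)) := by
      intro i; split_ifs <;> ring
    simp only [e0, e3]
    rw [← Finset.mul_sum, Finset.sum_sub_distrib, Finset.sum_ite_eq', Finset.sum_ite_eq',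
      if_pos (Finset.mem_univ _), if_pos (Finset.mem_univ _)]
    have := H.resp_shift f hf k
    linear_combination (g 1 - g (r z)) * this
  unfold Qv
  linear_combination h3 - h4 - h1 + h2

theorem ind_one_eq_zero (P : PSR n) {g : DihedralGroup n} (hg : g ≠ 1) : ind P g 1 = 0 :=
  ind_of_not_rel P (fun h => hg (P.one_class g (P.equiv.symm h)))

theorem Qv_nonpos (P : PSR n) (z : ZMod n) (ga gb : DihedralGroup n) (ha : ga ≠ 1)
    (hb : gb ≠ 1) (hab : ¬ P.rel ga gb) : Qv z (ind P ga) (ind P gb) ≤ 0 := by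
  have h0 : conv (ind P ga) (ind P gb) 1 = 0 := by
    unfold conv
    apply Finset.sum_eq_zero
    intro x _
    by_cases h1 : P.rel x ga
    · by_cases h2 : P.rel (x⁻¹ * 1) gb
      · exfalso
        rw [mul_one] at h2
        exact hab (P.equiv.trans (P.equiv.symm h1) (P.equiv.trans (rel_inv P x) h2))
      · rw [ind_of_not_rel P h2, mul_zero]
    · rw [ind_of_not_rel P h1, zero_mul]
  have h1 : 0 ≤ conv (ind P ga) (ind P gb) (r z) := by
    unfold conv
    exact Finset.sum_nonneg fun x _ => mul_nonneg (ind_nonneg P _ _) (ind_nonneg P _ _)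
  have h2 := mul_nonneg (ind_nonneg P ga (r z)) (ind_nonneg P gb (r z))
  unfold Qv
  rw [h0, ind_one_eq_zero P ha, ind_one_eq_zero P hb]
  linarith

theorem ZData.Qv_pos (H : ZData P p z) (g : DihedralGroup n) (j : ZMod n)
    (hj : P.rel (sr j) g) (hj' : ¬ P.rel (sr (j - z)) g) : 0 < Qv z (ind P g) (ind P g) := by
  have h1 : (Dz z * (sta (ind P g) * bel (ind P g))).coeff 0 =
      (Qv z (ind P g) (ind P g) • Dz z).coeff 0 := by
    rw [H.X_shift (ind P g) (ind P g) (ind_resp P g) (ind_resp P g)]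
  rw [coeff_Dz_mul, coeff_sta_mul_bel, coeff_sta_mul_bel, AddMonoidAlgebra.coeff_smul,
    Finsupp.smul_apply, coeff_Dz, smul_eq_mul, if_pos rfl, if_neg (Ne.symm H.hz), sub_zero,
    mul_one, ← Finset.sum_sub_distrib] at h1
  rw [← h1]
  apply Finset.sum_pos'
  · intro i _
    by_cases hi : P.rel (sr i) g
    · rw [add_zero, ind_of_rel P hi]
      have := ind_le_one P g (sr (i + (0 - z)))
      linarith
    · rw [ind_of_not_rel P hi]; simp
  · refine ⟨j, Finset.mem_univ _, ?_⟩
    rw [add_zero, ind_of_rel P hj, zero_sub, ← sub_eq_add_neg, ind_of_not_rel P hj']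
    norm_num

/-- Claim 3. -/
theorem ZData.claim3 (H : ZData P p z) (g1 g2 g3 : DihedralGroup n) (h1 : g1 ≠ 1)
    (h2 : g2 ≠ 1) (h3 : g3 ≠ 1) (h12 : ¬ P.rel g1 g2) (h23 : ¬ P.rel g2 g3)
    (h31 : ¬ P.rel g3 g1) (j1 j2 j3 : ZMod n)
    (hj1 : P.rel (sr j1) g1) (hj1' : ¬ P.rel (sr (j1 - z)) g1)
    (hj2 : P.rel (sr j2) g2) (hj2' : ¬ P.rel (sr (j2 - z)) g2)
    (hj3 : P.rel (sr j3) g3) (hj3' : ¬ P.rel (sr (j3 - z)) g3) : False := by
  have E := fun a b : DihedralGroup n =>
    H.X_shift (ind P a) (ind P b) (ind_resp P a) (ind_resp P b)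
  have A1 := absorb3 _ _ _ _ _ _ _ (E g1 g2) (E g2 g3) (E g3 g1)
  have A2 := absorb3 _ _ _ _ _ _ _ (E g1 g1) (E g2 g2) (E g3 g3)
  have e : sta (ind P g1) * bel (ind P g2) * (sta (ind P g2) * bel (ind P g3)) *
      (sta (ind P g3) * bel (ind P g1)) =
      sta (ind P g1) * bel (ind P g1) * (sta (ind P g2) * bel (ind P g2)) *
      (sta (ind P g3) * bel (ind P g3)) := by ring
  rw [e, A2] at A1
  have A3 := congrArg (fun u => u.coeff 0) A1
  beta_reduce at A3
  rw [AddMonoidAlgebra.coeff_smul, AddMonoidAlgebra.coeff_smul, Finsupp.smul_apply,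
    Finsupp.smul_apply, coeff_Dz, if_pos rfl, if_neg (Ne.symm H.hz), sub_zero, smul_eq_mul,
    smul_eq_mul, mul_one, mul_one] at A3
  have p1 := H.Qv_pos g1 j1 hj1 hj1'
  have p2 := H.Qv_pos g2 j2 hj2 hj2'
  have p3 := H.Qv_pos g3 j3 hj3 hj3'
  have n1 := Qv_nonpos P z g1 g2 h1 h2 h12
  have n2 := Qv_nonpos P z g2 g3 h2 h3 h23
  have n3 := Qv_nonpos P z g3 g1 h3 h1 h31
  have := mul_pos (mul_pos p1 p2) p3
  have := mul_nonpos_of_nonneg_of_nonpos (mul_nonneg_of_nonpos_of_nonpos n1 n2) n3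
  linarith

/-- **Piece Q of S3572**: at most two non-identity classes off `z`. -/
theorem atMostTwo (P : PSR n) (p : ℕ) (hp : p.Prime) (z : ZMod n) (hz : z ≠ 0) (hpz : p • z = 0) (hst : ∀ i c : ZMod n, p • i ≠ 0 → p • c = 0 → P.rel (r i) (r (i + c))) (hC : ∀ c : ZMod n, c ≠ 0 → p • c = 0 → P.rel (r c) (r z)) (h h' : DihedralGroup n) (hh : h ≠ 1) (hh' : h' ≠ 1) (h1 : ¬ P.rel h (r z)) (h1' : ¬ P.rel h' (r z)) : P.rel h h' := by
  by_contra hcon
  have H : ZData P p z := ⟨hz, hpz, hst, hC⟩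
  have hrz : (r z : DihedralGroup n) ≠ 1 := by
    rw [one_def]; intro h0; exact hz (r.inj h0)
  obtain ⟨j1, hj1, hj1'⟩ := H.exists_sr_shift {x | P.rel x (r z) ∨ x = 1}
    (by
      rintro x x' hxx (hx | hx)
      · exact Or.inl (P.equiv.trans (P.equiv.symm hxx) hx)
      · subst hx
        exact Or.inr (P.one_class x' (P.equiv.symm hxx)))
    ⟨1, Or.inr rfl⟩
    (by
      intro hU
      have : h ∈ {x | P.rel x (r z) ∨ x = 1} := by rw [hU]; trivial
      rcases this with h2 | h2
      · exact h1 h2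
      · exact hh h2)
    ⟨fun _ => Or.inl (P.equiv.refl _), fun _ => Or.inr rfl⟩
  obtain ⟨j2, hj2, hj2'⟩ := H.exists_sr_shift {x | P.rel x h}
    (fun x x' hxx hx => P.equiv.trans (P.equiv.symm hxx) hx)
    ⟨h, P.equiv.refl _⟩
    (by
      intro hU
      have : r z ∈ {x | P.rel x h} := by rw [hU]; trivial
      exact h1 (P.equiv.symm this))
    ⟨fun h2 => absurd (P.one_class h (P.equiv.symm h2)) hh,
      fun h2 => absurd (P.equiv.symm h2) h1⟩
  obtain ⟨j3, hj3, hj3'⟩ := H.exists_sr_shift {x | P.rel x h'}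
    (fun x x' hxx hx => P.equiv.trans (P.equiv.symm hxx) hx)
    ⟨h', P.equiv.refl _⟩
    (by
      intro hU
      have : r z ∈ {x | P.rel x h'} := by rw [hU]; trivial
      exact h1' (P.equiv.symm this))
    ⟨fun h2 => absurd (P.one_class h' (P.equiv.symm h2)) hh',
      fun h2 => absurd (P.equiv.symm h2) h1'⟩
  have hj1r : P.rel (sr j1) (r z) := by
    rcases hj1 with h2 | h2
    · exact h2
    · exact absurd h2 (by rw [one_def]; exact fun h => nomatch h)
  have hj1r' : ¬ P.rel (sr (j1 - z)) (r z) := fun h2 => hj1' (Or.inl h2)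
  exact H.claim3 (r z) h h' hrz hh hh' (fun h2 => h1 (P.equiv.symm h2)) hcon h1'
    j1 j2 j3 hj1r hj1r' hj2 hj2' hj3 hj3'

end Cfsg.Agent.H51.Dih
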