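import Cfsg.Agent.H51.DihQ

set_option autoImplicit false

/-!
# S3572, piece R3C (helper51 for helper74): from the Schur ring to the numbers
-/

namespace Cfsg.Agent.H51.Dih

open DihedralGroup Cfsg.Agent.H74.Dih

variable {n : ℕ} [NeZero n]

/-- counting the points of a graph inside a product. -/
theorem card_graph {α : Type*} [DecidableEq α] (S1 S2 : Finset α) (e : α → α) :
    ((S1 ×ˢ S2).filter (fun x => x.2 = e x.1)).card = (S1.filter (fun y => e y ∈ S2)).card := by
  apply Finset.card_nbij' (fun x => x.1) (fun y => (y, e y))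
  · intro x hx
    simp only [Finset.coe_filter, Finset.mem_product, Set.mem_ofPred_eq] at hx ⊢
    exact ⟨hx.1.1, hx.2 ▸ hx.1.2⟩
  · intro y hy
    simp only [Finset.coe_filter, Finset.mem_product, Set.mem_ofPred_eq] at hy ⊢
    exact ⟨⟨hy.1, hy.2⟩, trivial⟩
  · intro x hx
    simp only [Finset.coe_filter, Finset.mem_product, Set.mem_ofPred_eq] at hx
    exact Prod.ext rfl hx.2.symm
  · intro y _
    rfl

/-- a filtered cardinality as a sum of products of indicators. -/
theorem card_filter_mem_eq_sum (qa qb : ZMod n → Prop) [DecidablePred qa] [DecidablePred qb]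
    (e : ZMod n → ZMod n) :
    (((Finset.univ.filter qa).filter (fun y => e y ∈ Finset.univ.filter qb)).card : ℤ) =
      ∑ y : ZMod n, (if qa y then (1 : ℤ) else 0) * (if qb (e y) then 1 else 0) := by
  rw [Finset.filter_filter, Finset.natCast_card_filter]
  refine Finset.sum_congr rfl fun y _ => ?_
  simp only [Finset.mem_filter, Finset.mem_univ, true_and]
  by_cases h1 : qa y <;> by_cases h2 : qb (e y) <;> simp [h1, h2]

/-- `AB k` as a sum. -/
theorem card_add_eq_sum (qa qb : ZMod n → Prop) [DecidablePred qa] [DecidablePred qb]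
    (k : ZMod n) :
    ((((Finset.univ.filter qa) ×ˢ (Finset.univ.filter qb)).filter
      (fun x => x.1 + x.2 = k)).card : ℤ) =
      ∑ y : ZMod n, (if qa y then (1 : ℤ) else 0) * (if qb (k - y) then 1 else 0) := by
  rw [← card_filter_mem_eq_sum qa qb (fun y => k - y), ← card_graph]
  congr 2
  apply Finset.filter_congr
  intro x _
  constructor
  · intro h; rw [← h]; abel
  · intro h; rw [h]; abel

/-- `BB k` as a sum. -/
theorem card_sub_eq_sum (qa qb : ZMod n → Prop) [DecidablePred qa] [DecidablePred qb]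
    (k : ZMod n) :
    ((((Finset.univ.filter qa) ×ˢ (Finset.univ.filter qb)).filter
      (fun x => x.2 - x.1 = k)).card : ℤ) =
      ∑ y : ZMod n, (if qa y then (1 : ℤ) else 0) * (if qb (y + k) then 1 else 0) := by
  rw [← card_filter_mem_eq_sum qa qb (fun y => y + k), ← card_graph]
  congr 2
  apply Finset.filter_congr
  intro x _
  constructor
  · intro h; rw [← h]; abel
  · intro h; rw [h]; abel

/-- **Piece R3C of S3572**: from the Schur ring to the numbers. -/
theorem rank3_data (P : PSR n) (p : ℕ) (hp : p.Prime) (z : ZMod n) (hz : z ≠ 0) (hpz : p • z = 0) (hst : ∀ i c : ZMod n, p • i ≠ 0 → p • c = 0 → P.rel (r i) (r (i + c))) (hC : ∀ c : ZMod n, c ≠ 0 → p • c = 0 → P.rel (r c) (r z)) (htwo : ∀ h h' : DihedralGroup n, h ≠ 1 → h' ≠ 1 → ¬ P.rel h (r z) → ¬ P.rel h' (r z) → P.rel h h') (h₂ : DihedralGroup n) (hh₂ : h₂ ≠ 1) (hz₂ : ¬ P.rel h₂ (r z)) : ∃ (A B : Finset (ZMod n)) (μ N : ℤ), (0 : ZMod n) ∉ A ∧ A.Nonempty ∧ (∀ i ∈ A, i + z ∈ A) ∧ (∀ i ∈ A, -i ∈ A) ∧ (¬ ∀ i ∈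 B, i + z ∈ B) ∧ (∀ k : ZMod n, 2 * (((A ×ˢ B).filter (fun x => x.1 + x.2 = k)).card : ℤ) = μ) ∧ (∀ k : ZMod n, (((A ×ˢ A).filter (fun x => x.1 + x.2 = k)).card : ℤ) + (((B ×ˢ B).filter (fun x => x.2 - x.1 = k)).card : ℤ) = (if k = 0 then N else 0) + μ) := by
  classical
  have H : ZData P p z := ⟨hz, hpz, hst, hC⟩
  have hn : 2 ≤ n := by
    by_contra hlt
    have h1 : n = 1 := by have := NeZero.ne n; omega
    have := ZMod.subsingleton_iff.2 h1
    exact hz (Subsingleton.elim _ _)
  -- the class of `h₂`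
  have hSclosed : ∀ x x', P.rel x x' → x ∈ {x | P.rel x h₂} → x' ∈ {x | P.rel x h₂} :=
    fun x x' hxx hx => P.equiv.trans (P.equiv.symm hxx) hx
  have hS1z : (1 : DihedralGroup n) ∈ {x | P.rel x h₂} ↔ r z ∈ {x | P.rel x h₂} :=
    ⟨fun h2 => absurd (P.one_class h₂ (P.equiv.symm h2)) hh₂,
      fun h2 => absurd (P.equiv.symm h2) hz₂⟩
  obtain ⟨j, hj, hj'⟩ := H.exists_sr_shift {x | P.rel x h₂} hSclosed ⟨h₂, P.equiv.refl _⟩
    (by
      intro hU
      have : r z ∈ {x | P.rel x h₂} := by rw [hU]; trivial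
      exact hz₂ (P.equiv.symm this)) hS1z
  simp only [Set.mem_ofPred_eq] at hj hj'
  -- the functions
  set f := ind P h₂ with hf
  have hfR : Resp P.rel f := ind_resp P h₂
  have hφR : Resp P.rel (conv f f) := P.conv_closed f f hfR hfR
  have hfr : ∀ i : ZMod n, f (r i) = if P.rel (r i) h₂ then 1 else 0 := fun i => rfl
  have hfs : ∀ i : ZMod n, f (sr i) = if P.rel (sr i) h₂ then 1 else 0 := fun i => rfl
  have hfneg : ∀ i : ZMod n, f (r (-i)) = f (r i) := by
    intro i
    have := hfR _ _ (rel_inv P (r i))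
    rw [inv_r] at this
    exact this.symm
  have hfz : ∀ i : ZMod n, f (r (i - z)) = f (r i) := by
    intro i
    have h1 := H.resp_shift f hfR i
    rw [hf, ind_one_eq_zero P hh₂, ind_of_not_rel P (fun h2 => hz₂ (P.equiv.symm h2))] at h1
    rw [hf]
    linarith
  -- every other element is in the class of `r z`
  have hother : ∀ x : DihedralGroup n, x ≠ 1 → ¬ P.rel x h₂ → P.rel x (r z) := by
    intro x hx hx2
    by_contra hx3
    exact hx2 (htwo x h₂ hx hh₂ hx3 hz₂)
  have hval : ∀ x : DihedralGroup n, x ≠ 1 → ¬ P.rel x h₂ → conv f f x = conv f f (r z) :=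
    fun x hx hx2 => hφR _ _ (hother x hx hx2)
  have hval2 : ∀ x : DihedralGroup n, P.rel x h₂ → conv f f x = conv f f (sr j) :=
    fun x hx => hφR _ _ (P.equiv.trans hx (P.equiv.symm hj))
  -- the counts
  have hAB : ∀ k : ZMod n, conv f f (sr k) = 2 * ∑ y : ZMod n, f (r y) * f (sr (k - y)) := by
    intro k
    rw [conv_sr, two_mul]
    congr 1
    · rw [← Equiv.sum_comp (Equiv.neg (ZMod n))]
      refine Finset.sum_congr rfl fun i _ => ?_
      rw [Equiv.neg_apply, hfneg, sub_eq_add_neg]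
    · rw [← Equiv.sum_comp (Equiv.subLeft k)]
      refine Finset.sum_congr rfl fun i _ => ?_
      rw [Equiv.subLeft_apply, sub_sub_cancel, mul_comm]
  have hABz : ∀ k : ZMod n, ∑ y : ZMod n, f (r y) * f (sr (k - z - y)) =
      ∑ y : ZMod n, f (r y) * f (sr (k - y)) := by
    intro k
    rw [← Equiv.sum_comp (Equiv.subRight z)]
    refine Finset.sum_congr rfl fun i _ => ?_
    rw [Equiv.subRight_apply, hfz, show k - z - (i - z) = k - i by abel]
  have hlam : conv f f (sr j) = conv f f (r z) := by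
    have h1 := hval (sr (j - z)) (by rw [one_def]; exact fun h => nomatch h) hj'
    rw [← h1, hAB, hAB, hABz]
  have hsr : ∀ k : ZMod n, conv f f (sr k) = conv f f (r z) := by
    intro k
    by_cases hk : P.rel (sr k) h₂
    · rw [hval2 _ hk, hlam]
    · exact hval _ (by rw [one_def]; exact fun h => nomatch h) hk
  have hr : ∀ k : ZMod n, k ≠ 0 → conv f f (r k) = conv f f (r z) := by
    intro k hk0
    by_cases hk : P.rel (r k) h₂
    · rw [hval2 _ hk, hlam]
    · exact hval _ (by rw [one_def]; intro h; exact hk0 (r.inj h)) hk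
  refine ⟨Finset.univ.filter (fun i => P.rel (r i) h₂),
    Finset.univ.filter (fun i => P.rel (sr i) h₂), conv f f (r z),
    conv f f 1 - conv f f (r z), ?_, ?_, ?_, ?_, ?_, ?_, ?_⟩
  · rw [Finset.mem_filter, ← one_def]
    rintro ⟨-, h0⟩
    exact hh₂ (P.one_class h₂ (P.equiv.symm h0))
  · obtain ⟨i, -, hi⟩ := exists_r P hn h₂ hh₂
    exact ⟨i, Finset.mem_filter.2 ⟨Finset.mem_univ _, P.equiv.symm hi⟩⟩
  · intro i hi
    rw [Finset.mem_filter] at hi ⊢
    have := H.r_add_mem {x | P.rel x h₂} hSclosed hS1z i hi.2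
    rw [add_comm] at this
    exact ⟨Finset.mem_univ _, this⟩
  · intro i hi
    rw [Finset.mem_filter] at hi ⊢
    have h1 := rel_inv P (r i)
    rw [inv_r] at h1
    exact ⟨Finset.mem_univ _, P.equiv.trans (P.equiv.symm h1) hi.2⟩
  · intro hB
    have hBm : ∀ m : ℕ, ∀ i : ZMod n, P.rel (sr i) h₂ → P.rel (sr (i + m • z)) h₂ := by
      intro m
      induction m with
      | zero => intro i hi; simpa using hi
      | succ m ih =>
        intro i hi
        have h1 := hB (i + m • z) (Finset.mem_filter.2 ⟨Finset.mem_univ _, ih i hi⟩)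
        rw [Finset.mem_filter] at h1
        rw [succ_nsmul, ← add_assoc]
        exact h1.2
    have h2 : (p - 1) • z = -z := by
      have h3 : (p - 1 + 1) • z = 0 := by
        rw [Nat.sub_add_cancel hp.one_le]; exact hpz
      rw [succ_nsmul] at h3
      exact eq_neg_of_add_eq_zero_left h3
    have h4 := hBm (p - 1) j hj
    rw [h2, ← sub_eq_add_neg] at h4
    exact hj' h4
  · intro k
    rw [card_add_eq_sum, ← hsr k, hAB]
    rfl
  · intro k
    rw [card_add_eq_sum, card_sub_eq_sum]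
    have h1 := conv_r f f k
    simp only [hfr, hfs] at h1
    rw [← h1]
    by_cases hk : k = 0
    · subst hk
      rw [if_pos rfl, ← one_def]; ring
    · rw [if_neg hk, hr k hk, zero_add]

end Cfsg.Agent.H51.Dih
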