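import Mathlib
import Cfsg.Agent.H51.PSLQAff

/-! The field with eight elements as `𝔽₂[ζ]`, `ζ³ = ζ + 1`, with coordinates in `Bool`
(helper51). -/

set_option autoImplicit false

namespace Cfsg.Agent.H51

/-- The field with eight elements: `c0 + c1 ζ + c2 ζ²` with `ζ³ = ζ + 1`. -/
structure F8 where
  c0 : Bool
  c1 : Bool
  c2 : Bool
deriving DecidableEq, Fintype

namespace F8

/-- Addition. -/
def addF (x y : F8) : F8 := ⟨xor x.c0 y.c0, xor x.c1 y.c1, xor x.c2 y.c2⟩

/-- Multiplication modulo `ζ³ = ζ + 1`. -/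
def mulF (x y : F8) : F8 :=
  ⟨xor (x.c0 && y.c0) (xor (x.c1 && y.c2) (x.c2 && y.c1)),
   xor (xor (x.c0 && y.c1) (x.c1 && y.c0)) (xor (xor (x.c1 && y.c2) (x.c2 && y.c1)) (x.c2 && y.c2)),
   xor (xor (x.c0 && y.c2) (x.c1 && y.c1)) (xor (x.c2 && y.c0) (x.c2 && y.c2))⟩

/-- The inverse, as the sixth power. -/
def invF (x : F8) : F8 := mulF (mulF (mulF x x) (mulF x x)) (mulF x x)

instance : Add F8 := ⟨addF⟩
instance : Mul F8 := ⟨mulF⟩
instance : Neg F8 := ⟨id⟩
instance : Inv F8 := ⟨invF⟩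
instance : Zero F8 := ⟨⟨false, false, false⟩⟩
instance : One F8 := ⟨⟨true, false, false⟩⟩

instance : Field F8 :=
  Field.ofMinimalAxioms F8 (by decide) (by decide) (by decide) (by decide) (by decide) (by decide)
    (by decide) (by decide) (by decide) ⟨0, 1, by decide⟩

end F8

theorem card_F8 : Fintype.card F8 = 8 := by decide

/-- The element `ζ` as a unit. -/
def zetaU : F8ˣ := ⟨⟨false, true, false⟩, ⟨true, false, true⟩, by decide, by decide⟩

end Cfsg.Agent.H51
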