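import Mathlib
import Cfsg.Agent.H59.FRDefs

/-!
# S4563-BRIDGE (helper51, for helper59): LOC-A transported to subgroups of an ambient group
-/

set_option autoImplicit false

namespace Cfsg.Agent.H51.FR

open Cfsg Cfsg.Agent.Clifford Cfsg.Agent.H59.FR

universe u

/-- `extendByZero` on an element of the subgroup. -/
theorem extendByZero_of_mem {H : Type u} [Group H] (M : Subgroup H) (η : ↥M → ℂ) {y : H}
    (hy : y ∈ M) : extendByZero M η y = η ⟨y, hy⟩ := by
  unfold extendByZero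
  exact Subtype.val_injective.extend_apply η 0 ⟨y, hy⟩

/-- `extendByZero` off the subgroup. -/
theorem extendByZero_of_not_mem {H : Type u} [Group H] (M : Subgroup H) (η : ↥M → ℂ) {y : H}
    (hy : y ∉ M) : extendByZero M η y = 0 := by
  unfold extendByZero
  rw [Function.extend_apply']
  · rfl
  · rintro ⟨a, rfl⟩
    exact hy a.2

/-- The element of `M.subgroupOf S` given by an element of `M ≤ S`. -/
def mkSub {H : Type u} [Group H] {S M : Subgroup H} (hMS : M ≤ S) (y : H) (hy : y ∈ M) :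
    ↥(M.subgroupOf S) :=
  ⟨⟨y, hMS hy⟩, Subgroup.mem_subgroupOf.mpr hy⟩

@[simp] theorem mkSub_coe {H : Type u} [Group H] {S M : Subgroup H} (hMS : M ≤ S) (y : H)
    (hy : y ∈ M) : (((mkSub hMS y hy : ↥(M.subgroupOf S)) : ↥S) : H) = y := rfl

theorem eq_mkSub {H : Type u} [Group H] {S M : Subgroup H} (hMS : M ≤ S)
    (x : ↥(M.subgroupOf S)) (y : H) (hy : y ∈ M) (hxy : ((x : ↥S) : H) = y) :
    x = mkSub hMS y hy := by
  apply Subtype.ext
  apply Subtype.ext
  exact hxy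

theorem mkSub_self {H : Type u} [Group H] {S M : Subgroup H} (hMS : M ≤ S)
    (x : ↥(M.subgroupOf S)) : mkSub hMS ((x : ↥S) : H) x.2 = x := rfl

/-- Conjugation by an element normalizing `M`, as an automorphism of `↥M`. -/
def conjEquivOf {H : Type u} [Group H] (M : Subgroup H) (n : H)
    (hn : ∀ y : H, y ∈ M ↔ n⁻¹ * y * n ∈ M) : ↥M ≃* ↥M where
  toFun m := ⟨n⁻¹ * m * n, (hn m).mp m.2⟩
  invFun m := ⟨n * m * n⁻¹, (hn _).mpr (by simpa [mul_assoc] using m.2)⟩
  left_inv m := by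
    apply Subtype.ext
    simp [mul_assoc]
  right_inv m := by
    apply Subtype.ext
    simp [mul_assoc]
  map_mul' a b := by
    apply Subtype.ext
    simp [mul_assoc]

@[simp] theorem conjEquivOf_coe {H : Type u} [Group H] (M : Subgroup H) (n : H)
    (hn : ∀ y : H, y ∈ M ↔ n⁻¹ * y * n ∈ M) (m : ↥M) :
    ((conjEquivOf M n hn m : ↥M) : H) = n⁻¹ * m * n := rfl

/-- BRIDGE: LOC-A for abstract groups gives LOC-H for subgroups of an ambient group. -/
theorem locH_of (hA : LocAStmt.{u}) : LocHStmt.{u} := by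
  intro H _ _ Z _ θ hθ S M hZM hMS hnorm ξ e₁ he₁ hξ p _ k hk hcase
  have hZS : Z ≤ S := hZM.trans hMS
  haveI hM'n : (M.subgroupOf S).Normal := by
    refine ⟨fun m hm s => ?_⟩
    rw [Subgroup.mem_subgroupOf] at hm ⊢
    simpa using hnorm s s.2 m hm
  have hle' : Z.subgroupOf S ≤ M.subgroupOf S := by
    intro x hx
    rw [Subgroup.mem_subgroupOf] at hx ⊢
    exact hZM hx
  set eZ : ↥(Z.subgroupOf S) ≃* ↥Z := Subgroup.subgroupOfEquivOfLe hZS with heZ
  set eM : ↥(M.subgroupOf S) ≃* ↥M := Subgroup.subgroupOfEquivOfLe hMS with heM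
  set θ' : ↥(Z.subgroupOf S) → ℂ := fun z => (θ : ↥Z → ℂ) (eZ z) with hθ'
  have hL : Loc ↥S (Z.subgroupOf S) (M.subgroupOf S) θ' (ξ : ↥S → ℂ) e₁ := by
    refine ⟨isIrrCharacter_comp_equiv eZ θ.2, ξ.2, hle', he₁, ?_⟩
    intro z
    have h1 := hξ (eZ z)
    have h2 : (⟨((eZ z : ↥Z) : H), hMS (hZM (eZ z).2)⟩ : ↥S) = (z : ↥S) := by
      apply Subtype.ext
      rfl
    rw [h2] at h1
    exact h1
  have hidx : (M.subgroupOf S).index = p ^ k := hk
  have hcase' : IsCyclic (↥S ⧸ M.subgroupOf S) ∨ ∃ (ρ : ↥(M.subgroupOf S) → ℂ) (f : ℕ),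
      IsCharacter ↥(M.subgroupOf S) ρ ∧
        (∀ z : ↥(Z.subgroupOf S), ρ ⟨(z : ↥S), hL.le z.2⟩ = (f : ℂ) * θ' z) ∧
        ∀ a : ℕ, a * e₁ = f * p ^ k → ¬ p ∣ a := by
    rcases hcase with ⟨g, hgS, hg⟩ | ⟨ρ, f, hρ, hρZ, hf⟩
    · left
      refine ⟨⟨((⟨g, hgS⟩ : ↥S)⁻¹ : ↥S), fun x => ?_⟩⟩
      induction x using QuotientGroup.induction_on with
      | H s =>
        obtain ⟨j, hj⟩ := hg s s.2
        refine ⟨(j : ℤ), ?_⟩
        show ((((⟨g, hgS⟩ : ↥S)⁻¹ : ↥S) : ↥S ⧸ M.subgroupOf S)) ^ (j : ℤ) = (s : ↥S ⧸ M.subgroupOf S)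
        have h1 : (((⟨g, hgS⟩ : ↥S) ^ j * s : ↥S) : ↥S ⧸ M.subgroupOf S) = 1 := by
          rw [QuotientGroup.eq_one_iff, Subgroup.mem_subgroupOf]
          simpa using hj
        rw [QuotientGroup.mk_mul, QuotientGroup.mk_pow] at h1
        rw [zpow_natCast, QuotientGroup.mk_inv, inv_pow]
        exact inv_eq_of_mul_eq_one_right h1
    · right
      refine ⟨fun m => ρ (eM m), f, isCharacter_comp_equiv eM hρ, ?_, hf⟩
      intro z
      have h1 := hρZ (eZ z)
      have h2 : (⟨((eZ z : ↥Z) : H), hZM (eZ z).2⟩ : ↥M) =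
          eM ⟨(z : ↥S), hL.le z.2⟩ := by
        apply Subtype.ext
        rfl
      rw [h2] at h1
      exact h1
  obtain ⟨η', hη', hstab, htrans⟩ := hA ↥S (Z.subgroupOf S) (M.subgroupOf S) θ' (ξ : ↥S → ℂ) e₁
    hL p k hidx hcase'
  obtain ⟨hη'irr, b, hb0, hη'Z⟩ := hη'
  have hη'cf : IsClassFunction ↥(M.subgroupOf S) η' :=
    Cfsg.Agent.H4.isClassFunction_of_isCharacter (Cfsg.Agent.H4.isCharacter_of_isIrrCharacter hη'irr)
  set η : ↥M → ℂ := fun m => η' (mkSub hMS m.1 m.2) with hη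
  have hηirr : IsIrrCharacter ↥M η := by
    have h := isIrrCharacter_comp_equiv eM.symm hη'irr
    have h2 : (fun a : ↥M => η' (eM.symm a)) = η := by
      funext a
      show η' (eM.symm a) = η' (mkSub hMS a.1 a.2)
      congr 1
    rw [h2] at h
    exact h
  have hF1 : ∀ (y : H) (hy : y ∈ M), extendByZero M η y = η' (mkSub hMS y hy) := by
    intro y hy
    rw [extendByZero_of_mem M η hy]
  have hF0 : ∀ (y : H), y ∉ M → extendByZero M η y = 0 := fun y hy =>
    extendByZero_of_not_mem M η hy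
  refine ⟨extendByZero M η, ?_, ?_, ?_⟩
  · -- (1) invariance under `M`
    intro m hm y
    by_cases hy : y ∈ M
    · have hy' : m⁻¹ * y * m ∈ M := M.mul_mem (M.mul_mem (M.inv_mem hm) hy) hm
      rw [hF1 y hy, hF1 _ hy']
      have h := hη'cf (mkSub hMS y hy) (mkSub hMS m⁻¹ (M.inv_mem hm))
      rw [← h]
      congr 1
      apply Subtype.ext
      apply Subtype.ext
      simp
    · have hy' : m⁻¹ * y * m ∉ M := by
        intro h
        apply hy
        have := M.mul_mem (M.mul_mem hm h) (M.inv_mem hm)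
        simpa [mul_assoc] using this
      rw [hF0 y hy, hF0 _ hy']
  · -- (2) the stabilizer in `S` is `M`
    intro s hs hF
    have h1 : conjChar (M.subgroupOf S) η' ((⟨s, hs⟩ : ↥S)⁻¹) = η' := by
      funext n
      rw [conjChar_apply]
      have hnM : ((n : ↥S) : H) ∈ M := n.2
      have hF' := hF ((n : ↥S) : H)
      have hn' : s⁻¹ * ((n : ↥S) : H) * s ∈ M := by
        have := hnorm s⁻¹ (S.inv_mem hs) _ hnM
        simpa using this
      rw [hF1 _ hnM, hF1 _ hn'] at hF'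
      rw [mkSub_self] at hF'
      rw [← hF']
      congr 1
      apply Subtype.ext
      apply Subtype.ext
      simp
    have h2 := hstab _ h1
    rw [Subgroup.mem_subgroupOf] at h2
    have h3 : s⁻¹ ∈ M := by simpa using h2
    simpa using M.inv_mem h3
  · -- (3) the `N_H(M)`-orbit is the `S`-orbit
    intro n hn
    have hnM : ∀ y : H, y ∈ M ↔ n⁻¹ * y * n ∈ M := by
      intro y
      have h := (Subgroup.mem_normalizer_iff'' (H := M)).mp hn y
      exact h
    set c : ↥M ≃* ↥M := conjEquivOf M n hnM with hc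
    have hirr2 : IsIrrCharacter ↥(M.subgroupOf S) (fun a => η ((eM.trans c) a)) :=
      isIrrCharacter_comp_equiv (eM.trans c) hηirr
    have hval2 : ∀ a : ↥(M.subgroupOf S), η ((eM.trans c) a) =
        η' (mkSub hMS (n⁻¹ * ((a : ↥S) : H) * n) ((hnM _).mp a.2)) := by
      intro a
      rfl
    have hover : Over (Z.subgroupOf S) (M.subgroupOf S) hL.le θ' (fun a => η ((eM.trans c) a)) := by
      refine ⟨hirr2, b, hb0, ?_⟩
      intro z
      show η ((eM.trans c) ⟨(z : ↥S), hL.le z.2⟩) = (b : ℂ) * θ' z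
      rw [hval2]
      have hzZ : ((z : ↥S) : H) ∈ Z := z.2
      have hz2 : n⁻¹ * ((z : ↥S) : H) * n ∈ Z := by
        have := ‹Z.Normal›.conj_mem _ hzZ n⁻¹
        simpa using this
      let z₂ : ↥(Z.subgroupOf S) := ⟨⟨n⁻¹ * ((z : ↥S) : H) * n, hZS hz2⟩, Subgroup.mem_subgroupOf.mpr hz2⟩
      have h1 := hη'Z z₂
      have h2 : (⟨(z₂ : ↥S), hL.le z₂.2⟩ : ↥(M.subgroupOf S)) =
          mkSub hMS (n⁻¹ * ((z : ↥S) : H) * n) ((hnM _).mp (hZM hzZ)) := rfl
      rw [h2] at h1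
      rw [h1]
      congr 1
      apply hθ n⁻¹ (eZ z) (eZ z₂)
      show n⁻¹ * ((z : ↥S) : H) * n = n⁻¹ * ((z : ↥S) : H) * n⁻¹⁻¹
      rw [inv_inv]
    obtain ⟨g, hg⟩ := htrans _ hover
    refine ⟨((g⁻¹ : ↥S) : H), (g⁻¹ : ↥S).2, ?_⟩
    intro y
    have hgy : ((g⁻¹ : ↥S) : H)⁻¹ * y * ((g⁻¹ : ↥S) : H) = (g : H) * y * (g : H)⁻¹ := by
      simp
    rw [hgy]
    by_cases hy : y ∈ M
    · have hy1 : n⁻¹ * y * n ∈ M := (hnM y).mp hy
      have hy2 : (g : H) * y * (g : H)⁻¹ ∈ M := hnorm g g.2 y hy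
      rw [hF1 _ hy1, hF1 _ hy2]
      have h3 := congrFun hg (mkSub hMS y hy)
      rw [conjChar_apply] at h3
      have h4 : η ((eM.trans c) (mkSub hMS y hy)) = η' (mkSub hMS (n⁻¹ * y * n) hy1) := rfl
      rw [← h4]
      refine h3.trans ?_
      congr 1
    · have hy1 : n⁻¹ * y * n ∉ M := fun h => hy ((hnM y).mpr h)
      have hy2 : (g : H) * y * (g : H)⁻¹ ∉ M := by
        intro h
        apply hy
        have := hnorm (g : H)⁻¹ (S.inv_mem g.2) _ h
        simpa [mul_assoc] using this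
      rw [hF0 _ hy1, hF0 _ hy2]

end Cfsg.Agent.H51.FR
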