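import Mathlib
import Cfsg.Agent.H91.JRDefs
import Cfsg.Agent.S0111

set_option autoImplicit false

/-!
S3206 piece FUS (helper51, for helper91): in the Janko–Ree setting the normalizer of a Sylow
2-subgroup `S ∋ t` is transitive on `S ∖ {1}`.
-/

namespace Cfsg.Agent.H51.JR

open Subgroup Cfsg.Agent.H91.JR

universe u

/-- In a finite group, an element conjugating `S` into itself normalizes `S`. -/
theorem conj_mem_iff_of_forall {G : Type*} [Group G] [Finite G] (S : Subgroup G) (g : G)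
    (h : ∀ s ∈ S, g * s * g⁻¹ ∈ S) : ∀ s : G, s ∈ S ↔ g * s * g⁻¹ ∈ S := by
  intro s
  refine ⟨h s, fun hs => ?_⟩
  let f : S → S := fun x => ⟨g * x * g⁻¹, h x x.2⟩
  have hf : Function.Injective f := by
    intro a b hab
    have h1 : g * (a : G) * g⁻¹ = g * (b : G) * g⁻¹ := congrArg Subtype.val hab
    apply Subtype.ext
    simpa using h1
  obtain ⟨x, hx⟩ := (Finite.injective_iff_surjective.mp hf) ⟨g * s * g⁻¹, hs⟩
  have h1 : g * (x : G) * g⁻¹ = g * s * g⁻¹ := congrArg Subtype.val hx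
  have h2 : (x : G) = s := by simpa using h1
  rw [← h2]
  exact x.2

/-- A fixed-point-free conjugation action on a four-group of exponent 2 is transitive on the
non-identity elements. -/
theorem four_group_trans {G : Type*} [Group G] (V : Subgroup G) (hcard : Nat.card V = 4)
    (hexp : ∀ v ∈ V, v * v = 1) (c : G) (hc : ∀ v ∈ V, c * v * c⁻¹ ∈ V)
    (hfix : ∀ v ∈ V, c * v * c⁻¹ = v → v = 1) (v w : G) (hv : v ∈ V) (hw : w ∈ V)
    (hv1 : v ≠ 1) (hw1 : w ≠ 1) :
    w = v ∨ w = c * v * c⁻¹ ∨ w = c * (c * v * c⁻¹) * c⁻¹ := by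
  classical
  have hfin : Finite V := Nat.finite_of_card_ne_zero (by rw [hcard]; norm_num)
  have : Fintype V := Fintype.ofFinite V
  set v' := c * v * c⁻¹ with hv'
  set v'' := c * v' * c⁻¹ with hv''
  have hv'V : v' ∈ V := hc v hv
  have hv''V : v'' ∈ V := hc v' hv'V
  have hconj1 : ∀ x : G, c * x * c⁻¹ = 1 → x = 1 := by
    intro x hx
    have : x = c⁻¹ * (c * x * c⁻¹) * c := by group
    rw [this, hx]
    group
  have hv'1 : v' ≠ 1 := fun h => hv1 (hconj1 v h)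
  have hv''1 : v'' ≠ 1 := fun h => hv'1 (hconj1 v' h)
  have h01 : v' ≠ v := fun h => hv1 (hfix v hv h)
  have h12 : v'' ≠ v' := fun h => hv'1 (hfix v' hv'V h)
  have h02 : v'' ≠ v := by
    intro h
    have hcomm : v' * v = v * v' := by
      have e1 := hexp (v * v') (V.mul_mem hv hv'V)
      have e2 := hexp v hv
      have e3 := hexp v' hv'V
      have i1 : v⁻¹ = v := inv_eq_of_mul_eq_one_right e2
      have i2 : v'⁻¹ = v' := inv_eq_of_mul_eq_one_right e3
      calc v' * v = v'⁻¹ * v⁻¹ := by rw [i1, i2]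
        _ = (v * v')⁻¹ := (mul_inv_rev v v').symm
        _ = v * v' := inv_eq_of_mul_eq_one_right e1
    have hfixu : c * (v * v') * c⁻¹ = v * v' := by
      calc c * (v * v') * c⁻¹ = (c * v * c⁻¹) * (c * v' * c⁻¹) := by group
        _ = v' * v := by rw [← hv', ← hv'', h]
        _ = v * v' := hcomm
    have hu1 := hfix (v * v') (V.mul_mem hv hv'V) hfixu
    have : v' = v := by
      have e2 := hexp v hv
      calc v' = v * (v * v') := by rw [← mul_assoc, e2, one_mul]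
        _ = v := by rw [hu1, mul_one]
    exact h01 this
  -- the four elements exhaust `V`
  let T : Finset V := {1, ⟨v, hv⟩, ⟨v', hv'V⟩, ⟨v'', hv''V⟩}
  have hT : T.card = 4 := by
    have e1 : (1 : V) ≠ ⟨v, hv⟩ := fun h => hv1 (congrArg Subtype.val h).symm
    have e2 : (1 : V) ≠ ⟨v', hv'V⟩ := fun h => hv'1 (congrArg Subtype.val h).symm
    have e3 : (1 : V) ≠ ⟨v'', hv''V⟩ := fun h => hv''1 (congrArg Subtype.val h).symm
    have e4 : (⟨v, hv⟩ : V) ≠ ⟨v', hv'V⟩ := fun h => h01 (congrArg Subtype.val h).symm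
    have e5 : (⟨v, hv⟩ : V) ≠ ⟨v'', hv''V⟩ := fun h => h02 (congrArg Subtype.val h).symm
    have e6 : (⟨v', hv'V⟩ : V) ≠ ⟨v'', hv''V⟩ := fun h => h12 (congrArg Subtype.val h).symm
    simp [T, e1, e2, e3, e4, e5, e6]
  have hTu : T = Finset.univ := by
    apply Finset.eq_univ_of_card
    rw [hT, ← Nat.card_eq_fintype_card, hcard]
  have hwT : (⟨w, hw⟩ : V) ∈ T := hTu ▸ Finset.mem_univ _
  simp only [T, Finset.mem_insert, Finset.mem_singleton, Subtype.ext_iff] at hwT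
  rcases hwT with h | h | h | h
  · exact absurd h hw1
  · exact Or.inl h
  · exact Or.inr (Or.inl h)
  · exact Or.inr (Or.inr h)

theorem fus (h1 : Str1Stmt.{u}) : FusStmt.{u} := by
  intro G _ _ _ t E N hset hab S htS
  obtain ⟨hexp, hcard, ⟨V, hV⟩, hdec⟩ := h1 t E N hset hab S htS
  have : Fact (Nat.Prime 2) := ⟨Nat.prime_two⟩
  obtain ⟨⟨hVcard, hVexp⟩, ⟨c, hcV, hcfix⟩, -⟩ := hset.psl.2 V
  have hcomm : IsMulCommutative ↥(S : Subgroup G) :=
    ⟨⟨fun a b => Subtype.ext (hab S a a.2 b b.2)⟩⟩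
  -- `Q = S ⊓ N`
  set Q : Subgroup G := (S : Subgroup G) ⊓ N with hQ
  have hQV : ∀ x : G, x ∈ Q ↔ ∃ hx : x ∈ N, (⟨x, hx⟩ : N) ∈ V := by
    intro x
    constructor
    · rintro ⟨hxS, hxN⟩
      exact ⟨hxN, (hV ⟨x, hxN⟩).mpr hxS⟩
    · rintro ⟨hxN, hxV⟩
      exact ⟨(hV ⟨x, hxN⟩).mp hxV, hxN⟩
  have hQcard : Nat.card Q = 4 := by
    rw [← hVcard]
    refine Nat.card_congr ⟨fun x => ⟨⟨x, x.2.2⟩, (hV _).mpr x.2.1⟩,
      fun y => ⟨((y : N) : G), ⟨(hV y).mp y.2, (y : N).2⟩⟩, fun x => rfl, fun y => rfl⟩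
  have hQexp : ∀ v ∈ Q, v * v = 1 := fun v hv => hexp v hv.1
  have hQi : Q.relIndex (S : Subgroup G) = 2 := by
    have e1 := Subgroup.relIndex_mul_index (inf_le_left : Q ≤ (S : Subgroup G))
    have e2 := Subgroup.card_mul_index Q
    have e3 := Subgroup.card_mul_index (S : Subgroup G)
    rw [hQcard] at e2
    rw [hcard] at e3
    have hpos : 0 < (S : Subgroup G).index := Nat.pos_of_ne_zero Subgroup.index_ne_zero_of_finite
    have e4 : 4 * (Q.relIndex (S : Subgroup G) * (S : Subgroup G).index)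
        = 4 * (2 * (S : Subgroup G).index) := by
      rw [e1, e2, ← e3]; ring
    have e5 := Nat.eq_of_mul_eq_mul_left (by norm_num : 0 < 4) e4
    exact Nat.eq_of_mul_eq_mul_right hpos e5
  -- the element `c`
  set cG : G := (c : G) with hcG
  have hcN : cG ∈ N := c.2
  have hct : cG * t = t * cG := hset.comm cG (hset.N_le hcN)
  have hcQ : ∀ v ∈ Q, cG * v * cG⁻¹ ∈ Q := by
    intro v hv
    obtain ⟨hvN, hvV⟩ := (hQV v).mp hv
    have := hcV ⟨v, hvN⟩ hvV
    exact (hQV _).mpr ⟨N.mul_mem (N.mul_mem hcN hvN) (N.inv_mem hcN), this⟩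
  have hcQfix : ∀ v ∈ Q, cG * v * cG⁻¹ = v → v = 1 := by
    intro v hv hfix
    obtain ⟨hvN, hvV⟩ := (hQV v).mp hv
    have h2 : c * ⟨v, hvN⟩ * c⁻¹ = ⟨v, hvN⟩ := Subtype.ext hfix
    have := hcfix ⟨v, hvN⟩ hvV h2
    exact congrArg Subtype.val this
  have hcS : ∀ s ∈ (S : Subgroup G), cG * s * cG⁻¹ ∈ (S : Subgroup G) := by
    intro s hs
    obtain ⟨v, hvN, hvS, h | h⟩ := hdec s hs
    · rw [h]
      exact (hcQ v ⟨hvS, hvN⟩).1
    · have e : cG * (t * v) * cG⁻¹ = t * (cG * v * cG⁻¹) := by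
        rw [← mul_assoc, hct]; group
      rw [h, e]
      exact (S : Subgroup G).mul_mem htS (hcQ v ⟨hvS, hvN⟩).1
  have hcNorm : cG ∈ normalizer ((S : Subgroup G) : Set G) :=
    Subgroup.mem_normalizer_iff.mpr (conj_mem_iff_of_forall (S : Subgroup G) cG hcS)
  -- `8 ≤ |G|`
  have hG8 : 8 ≤ Nat.card G := by
    rw [← hcard]
    exact Nat.le_of_dvd Nat.card_pos (Subgroup.card_subgroup_dvd_card _)
  -- Claim A: every non-identity element of `S` is `N_G(S)`-conjugate into `Q`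
  have claimA : ∀ u ∈ (S : Subgroup G), u ≠ 1 →
      ∃ n ∈ normalizer ((S : Subgroup G) : Set G), n * u * n⁻¹ ∈ Q := by
    intro u huS hu1
    by_cases huQ : u ∈ Q
    · exact ⟨1, Subgroup.one_mem _, by simpa using huQ⟩
    · have hord : orderOf u = 2 := by
        apply orderOf_eq_prime
        · rw [pow_two]; exact hexp u huS
        · exact hu1
      rcases Cfsg.Agent.S0111.result S Q inf_le_left hQi u hord huS huQ with
        ⟨M, hMn, hMi, -⟩ | ⟨g, hg⟩
      · exfalso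
        rcases hMn.eq_bot_or_eq_top with h | h
        · rw [h, Subgroup.index_bot] at hMi
          omega
        · rw [h, Subgroup.index_top] at hMi
          omega
      · have hy : g⁻¹⁻¹ * u * g⁻¹ ∈ (S : Subgroup G) := by
          rw [inv_inv]; exact hg.1
        obtain ⟨n, hn, hneq⟩ := S.conj_eq_normalizer_conj_of_mem u g⁻¹ huS hy
        refine ⟨n⁻¹, Subgroup.inv_mem _ hn, ?_⟩
        rw [inv_inv, ← hneq, inv_inv]
        exact hg
  -- Claim B: the non-identity elements of `Q` are fused by powers of `c`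
  have claimB : ∀ v ∈ Q, ∀ w ∈ Q, v ≠ 1 → w ≠ 1 →
      ∃ n ∈ normalizer ((S : Subgroup G) : Set G), n * v * n⁻¹ = w := by
    intro v hv w hw hv1 hw1
    rcases four_group_trans Q hQcard hQexp cG hcQ hcQfix v w hv hw hv1 hw1 with h | h | h
    · exact ⟨1, Subgroup.one_mem _, by rw [h]; group⟩
    · exact ⟨cG, hcNorm, h.symm⟩
    · refine ⟨cG * cG, Subgroup.mul_mem _ hcNorm hcNorm, ?_⟩
      rw [h]; group
  intro x hx y hy hx1 hy1
  obtain ⟨nx, hnx, hxQ⟩ := claimA x hx hx1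
  obtain ⟨ny, hny, hyQ⟩ := claimA y hy hy1
  have hx1' : nx * x * nx⁻¹ ≠ 1 := by
    intro h
    apply hx1
    have : x = nx⁻¹ * (nx * x * nx⁻¹) * nx := by group
    rw [this, h]; group
  have hy1' : ny * y * ny⁻¹ ≠ 1 := by
    intro h
    apply hy1
    have : y = ny⁻¹ * (ny * y * ny⁻¹) * ny := by group
    rw [this, h]; group
  obtain ⟨m, hm, hmeq⟩ := claimB _ hxQ _ hyQ hx1' hy1'
  refine ⟨ny⁻¹ * m * nx, ?_, ?_⟩
  · exact Subgroup.mem_normalizer_iff.mp
      (Subgroup.mul_mem _ (Subgroup.mul_mem _ (Subgroup.inv_mem _ hny) hm) hnx)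
  · calc ny⁻¹ * m * nx * x * (ny⁻¹ * m * nx)⁻¹
        = ny⁻¹ * (m * (nx * x * nx⁻¹) * m⁻¹) * ny := by group
      _ = ny⁻¹ * (ny * y * ny⁻¹) * ny := by rw [hmeq]
      _ = y := by group

end Cfsg.Agent.H51.JR
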