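import Mathlib
import Cfsg.Agent.H51.PSL9Sylow

/-! General lemmas for the analysis of a simple group of order 504: conjugation actions on stable
subsets, a transfer lemma, and the bound on the index of a proper subgroup (helper51). -/

set_option autoImplicit false

namespace Cfsg.Agent.H51.PSL8

open Subgroup PSL9

variable {G : Type*} [Group G]

/-- The conjugation action of a subgroup on a stable subset. -/
@[reducible] def conjSetAction (P : Subgroup G) (T : Set G)
    (hT : ∀ x ∈ P, ∀ v ∈ T, x * v * x⁻¹ ∈ T) : MulAction P T where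
  smul x v := ⟨(x : G) * v * (x : G)⁻¹, hT x x.2 v v.2⟩
  one_smul v := Subtype.ext (by
    change ((1 : P) : G) * v * ((1 : P) : G)⁻¹ = v
    simp)
  mul_smul x y v := Subtype.ext (by
    change ((x * y : P) : G) * v * ((x * y : P) : G)⁻¹ = (x : G) * ((y : G) * v * (y : G)⁻¹) * (x : G)⁻¹
    simp [mul_assoc])

/-- A subgroup acting freely by conjugation on a stable subset: its order divides the size of the
subset. -/
theorem card_dvd_of_free (P : Subgroup G) (T : Set G)
    (hT : ∀ x ∈ P, ∀ v ∈ T, x * v * x⁻¹ ∈ T)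
    (hfree : ∀ x ∈ P, ∀ v ∈ T, x * v * x⁻¹ = v → x = 1) : Nat.card P ∣ Nat.card T := by
  let _ := conjSetAction P T hT
  have h : ∀ v : T, MulAction.stabilizer P v = ⊥ := by
    intro v
    rw [Subgroup.eq_bot_iff_forall]
    intro x hx
    have h1 : x • v = v := hx
    have h2 : (x : G) * v * (x : G)⁻¹ = v := congrArg Subtype.val h1
    exact Subtype.ext (hfree x x.2 v v.2 h2)
  have e := MulAction.selfEquivOrbitsQuotientProd h
  rw [Nat.card_congr e, Nat.card_prod]
  exact dvd_mul_left _ _

/-- A `p`-subgroup acting by conjugation on a stable subset of size prime to `p` has a fixed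
point. -/
theorem exists_fixed_of_not_dvd [Finite G] (p : ℕ) [Fact p.Prime] (P : Subgroup G)
    (hP : IsPGroup p P) (T : Set G) (hT : ∀ x ∈ P, ∀ v ∈ T, x * v * x⁻¹ ∈ T)
    (hc : ¬ p ∣ Nat.card T) : ∃ v ∈ T, ∀ x ∈ P, x * v * x⁻¹ = v := by
  let _ := conjSetAction P T hT
  obtain ⟨v, hv⟩ := IsPGroup.nonempty_fixed_point_of_prime_not_dvd_card hP T hc
  refine ⟨v, v.2, fun x hx => ?_⟩
  have h1 : (⟨x, hx⟩ : P) • v = v := hv ⟨x, hx⟩
  exact congrArg Subtype.val h1

open scoped IsMulCommutative in
/-- In a simple group, an element of an abelian Sylow subgroup which is central in its normaliser is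
trivial. -/
theorem transfer_central [Finite G] [IsSimpleGroup G] {p : ℕ} [Fact p.Prime] (P : Sylow p G)
    [IsMulCommutative (P : Subgroup G)] (hP : (P : Subgroup G) ≠ ⊤) {y : G}
    (hy : y ∈ (P : Subgroup G))
    (hc : ∀ n ∈ normalizer ((P : Subgroup G) : Set G), n * y = y * n) : y = 1 := by
  have key : ∀ (k : ℕ) (g₀ : G), g₀⁻¹ * y ^ k * g₀ ∈ (P : Subgroup G) →
      g₀⁻¹ * y ^ k * g₀ = y ^ k := by
    intro k g₀ h
    obtain ⟨n, hn, h'⟩ := P.conj_eq_normalizer_conj_of_mem (y ^ k) g₀ (pow_mem hy k) h
    rw [h']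
    have h1 : n * y ^ k = y ^ k * n := ((show Commute n y from hc n hn).pow_right k).eq
    calc n⁻¹ * y ^ k * n = n⁻¹ * (y ^ k * n) := by group
      _ = n⁻¹ * (n * y ^ k) := by rw [h1]
      _ = y ^ k := by group
  have h1 := MonoidHom.transfer_eq_pow (MonoidHom.id (P : Subgroup G)) y key
  set ψ : G →* (P : Subgroup G) := MonoidHom.transfer (MonoidHom.id (P : Subgroup G)) with hψ
  have hker : ψ.ker = ⊤ := by
    rcases (MonoidHom.normal_ker ψ).eq_bot_or_eq_top with h | h
    · exfalso
      have hinj : Function.Injective ψ := (MonoidHom.ker_eq_bot_iff ψ).mp h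
      have h2 := Nat.card_le_card_of_injective ψ hinj
      exact hP (Subgroup.eq_top_of_le_card _ h2)
    · exact h
  have h2 : ψ y = 1 := by
    have : y ∈ ψ.ker := hker ▸ Subgroup.mem_top y
    exact this
  rw [h2] at h1
  have h3 : y ^ (P : Subgroup G).index = 1 := by
    have := congrArg (fun z : (P : Subgroup G) => (z : G)) h1
    simpa using this.symm
  have h4 : y ^ Nat.card (P : Subgroup G) = 1 := by
    have h := pow_card_eq_one' (G := (P : Subgroup G)) (x := ⟨y, hy⟩)
    have := congrArg (fun z : (P : Subgroup G) => (z : G)) h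
    simp only [Subgroup.coe_pow, Subgroup.coe_one] at this
    exact this
  have h5 : orderOf y ∣ Nat.gcd (Nat.card (P : Subgroup G)) (P : Subgroup G).index :=
    Nat.dvd_gcd (orderOf_dvd_of_pow_eq_one h4) (orderOf_dvd_of_pow_eq_one h3)
  rw [Nat.Coprime.gcd_eq_one P.card_coprime_index] at h5
  exact orderOf_eq_one_iff.mp (Nat.dvd_one.mp h5)

/-- A homomorphism from a simple group of order greater than two to a permutation group has even
image. -/
theorem sign_eq_one_of_simple [IsSimpleGroup G] (hG : 2 < Nat.card G) {α : Type*} [Fintype α]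
    [DecidableEq α] (φ : G →* Equiv.Perm α) (g : G) : Equiv.Perm.sign (φ g) = 1 := by
  let ψ : G →* ℤˣ := Equiv.Perm.sign.comp φ
  rcases (MonoidHom.normal_ker ψ).eq_bot_or_eq_top with h | h
  · exfalso
    have hinj : Function.Injective ψ := (MonoidHom.ker_eq_bot_iff ψ).mp h
    have := Nat.card_le_card_of_injective ψ hinj
    rw [Nat.card_eq_fintype_card (α := ℤˣ), Fintype.card_units_int] at this
    omega
  · have : g ∈ ψ.ker := h ▸ Subgroup.mem_top g
    exact this

/-- A proper subgroup of a simple group of order 504 has index at least eight. -/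
theorem index_ge_eight [Finite G] [IsSimpleGroup G] (hG : Nat.card G = 504) (H : Subgroup G)
    (hH : H ≠ ⊤) : 8 ≤ H.index := by
  have h1 := simple_card_dvd_factorial H hH
  rw [hG] at h1
  by_contra hlt
  push Not at hlt
  have h0 : H.index ≠ 0 := Subgroup.index_ne_zero_of_finite
  have key : ∀ n < 8, (n ≠ 0 ∧ 504 ∣ n.factorial) → n = 7 := by decide
  have h7 : H.index = 7 := key _ hlt ⟨h0, h1⟩
  classical
  have : Fintype (G ⧸ H) := Fintype.ofFinite _
  set φ := MulAction.toPermHom G (G ⧸ H) with hφ
  have hker : φ.ker = ⊥ := by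
    rcases (MonoidHom.normal_ker φ).eq_bot_or_eq_top with h | h
    · exact h
    · exfalso
      apply hH
      rw [← Subgroup.normalCore_eq_ker] at h
      exact top_le_iff.mp (h ▸ Subgroup.normalCore_le H)
  have hinj : Function.Injective φ := (MonoidHom.ker_eq_bot_iff _).mp hker
  have hsign : ∀ g, Equiv.Perm.sign (φ g) = 1 :=
    fun g => sign_eq_one_of_simple (by rw [hG]; norm_num) φ g
  have hcard7 : Nat.card (G ⧸ H) = 7 := h7
  have hnt : Nontrivial (G ⧸ H) :=
    Finite.one_lt_card_iff_nontrivial.mp (by rw [hcard7]; norm_num)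
  have hA : Nat.card (alternatingGroup (G ⧸ H)) = 2520 := by
    rw [nat_card_alternatingGroup, hcard7]
    decide
  have hAs : IsSimpleGroup (alternatingGroup (G ⧸ H)) :=
    alternatingGroup.isSimpleGroup (by rw [hcard7]; norm_num)
  let ψ : G →* alternatingGroup (G ⧸ H) :=
    φ.codRestrict (alternatingGroup (G ⧸ H)) (fun g => Equiv.Perm.mem_alternatingGroup.mpr (hsign g))
  have hψ : Function.Injective ψ := by
    intro a b hab
    apply hinj
    exact congrArg Subtype.val hab
  have hR : Nat.card ψ.range = 504 := by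
    rw [← Nat.card_congr (MonoidHom.ofInjective hψ).toEquiv, hG]
  have hidx : ψ.range.index = 5 := by
    have := Subgroup.card_mul_index ψ.range
    rw [hR, hA] at this
    omega
  have hne : ψ.range ≠ ⊤ := by
    intro h
    rw [h, Subgroup.index_top] at hidx
    omega
  have := simple_card_dvd_factorial ψ.range hne
  rw [hidx, hA] at this
  revert this
  decide

end Cfsg.Agent.H51.PSL8
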