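import Mathlib
import Cfsg.Agent.H51.PSL8Basic
import Cfsg.Agent.H51.PSL9TI

/-! In a simple group of order 504, no element of order 3 or 7 commutes with an involution
(helper51). -/

set_option autoImplicit false

namespace Cfsg.Agent.H51.PSL8

open Subgroup PSL9

section General

variable {G : Type*} [Group G]

/-- An element commuting with every element of a subgroup normalises it. -/
theorem mem_normalizer_of_comm (P : Subgroup G) (c : G) (h : ∀ q ∈ P, c * q = q * c) :
    c ∈ normalizer (P : Set G) := by
  rw [Subgroup.mem_normalizer_iff]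
  intro q
  constructor
  · intro hq
    have : c * q * c⁻¹ = q := by rw [h q hq]; group
    rw [this]; exact hq
  · intro hq
    have h1 := h _ hq
    have : c * q * c⁻¹ = q := by
      have : c * (c * q * c⁻¹) = c * q := by rw [h1]; group
      exact mul_left_cancel this
    rw [← this]; exact hq

/-- A subgroup normalises the image of any of its normal subgroups. -/
theorem le_normalizer_map_subtype (C : Subgroup G) (V : Subgroup C) (hVn : V.Normal) :
    C ≤ normalizer ((V.map C.subtype : Subgroup G) : Set G) := by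
  intro c hc
  rw [Subgroup.mem_normalizer_iff]
  intro v
  have aux : ∀ (c : G) (hc : c ∈ C) (v : G), v ∈ V.map C.subtype → c * v * c⁻¹ ∈ V.map C.subtype := by
    rintro c hc v ⟨w, hw, rfl⟩
    exact ⟨⟨c, hc⟩ * w * ⟨c, hc⟩⁻¹, hVn.conj_mem w hw ⟨c, hc⟩, rfl⟩
  refine ⟨aux c hc v, fun h => ?_⟩
  have := aux c⁻¹ (C.inv_mem hc) _ h
  simpa [mul_assoc] using this

end General

variable {G : Type*} [Group G] [Finite G] [IsSimpleGroup G]

omit [IsSimpleGroup G] in
theorem card_sylow7 (hG : Nat.card G = 504) [Fact (Nat.Prime 7)] (P : Sylow 7 G) :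
    Nat.card (P : Subgroup G) = 7 := by
  have := sylow_card_pow (p := 7) (k := 1) (m := 72) (by rw [hG]; norm_num) (by norm_num) P
  simpa using this

omit [IsSimpleGroup G] in
theorem card_sylow3' (hG : Nat.card G = 504) (P : Sylow 3 G) :
    Nat.card (P : Subgroup G) = 9 := by
  have := sylow_card_pow (p := 3) (k := 2) (m := 56) (by rw [hG]; norm_num) (by norm_num) P
  simpa using this

omit [IsSimpleGroup G] in
theorem card_sylow2 (hG : Nat.card G = 504) (P : Sylow 2 G) :
    Nat.card (P : Subgroup G) = 8 := by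
  have := sylow_card_pow (p := 2) (k := 3) (m := 63) (by rw [hG]; norm_num) (by norm_num) P
  simpa using this

omit [Finite G] in
/-- A Sylow subgroup of a simple group of order 504 is not normal. -/
theorem normalizer_ne_top (hG : Nat.card G = 504) (P : Subgroup G) (h1 : Nat.card P ≠ 1)
    (h2 : Nat.card P ≠ 504) : normalizer (P : Set G) ≠ ⊤ := by
  intro h
  have hPn : P.Normal := normalizer_eq_top_iff.mp h
  rcases simple_normal_card P with h | h <;> omega

/-- No element of order 7 commutes with an involution. -/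
theorem no_comm_seven (hG : Nat.card G = 504) {x t : G} (hx : orderOf x = 7) (ht : orderOf t = 2)
    (hc : t * x = x * t) : False := by
  have : Fact (Nat.Prime 7) := ⟨by norm_num⟩
  have hzc : Nat.card (zpowers x) = 7 := by rw [Nat.card_zpowers, hx]
  have hzp : IsPGroup 7 (zpowers x) := IsPGroup.of_card (n := 1) (by rw [hzc]; norm_num)
  obtain ⟨P, hzP⟩ := hzp.exists_le_sylow
  have hPc := card_sylow7 hG P
  have hPz : zpowers x = (P : Subgroup G) := Subgroup.eq_of_le_of_card_ge hzP (by rw [hPc, hzc])
  have hxP : x ∈ (P : Subgroup G) := hzP (mem_zpowers x)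
  set C : Subgroup G := centralizer ({x} : Set G) with hC
  have hmemC : ∀ g : G, g ∈ C ↔ x * g = g * x := by
    intro g
    rw [hC, Subgroup.mem_centralizer_iff]
    simp
  have hCN : C ≤ normalizer ((P : Subgroup G) : Set G) := by
    intro c hc'
    apply mem_normalizer_of_comm
    intro q hq
    rw [← hPz] at hq
    obtain ⟨k, rfl⟩ := hq
    exact ((show Commute c x from ((hmemC c).mp hc').symm).zpow_right k).eq
  have htC : t ∈ C := (hmemC t).mpr hc.symm
  have hxC : x ∈ C := (hmemC x).mpr rfl
  have h7C : 7 ∣ Nat.card C := by rw [← hx]; exact Subgroup.orderOf_dvd_natCard _ hxC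
  have h2C : 2 ∣ Nat.card C := by rw [← ht]; exact Subgroup.orderOf_dvd_natCard _ htC
  set N := normalizer ((P : Subgroup G) : Set G) with hN
  have hCN' : Nat.card C ∣ Nat.card N := Subgroup.card_dvd_of_le hCN
  have hn : Nat.card (Sylow 7 G) = N.index := P.card_eq_index_normalizer
  have hmod : Nat.card (Sylow 7 G) % 7 = 1 := card_sylow_modEq_one 7 G
  have hNc := Subgroup.card_mul_index N
  rw [hG] at hNc
  have hNtop : N ≠ ⊤ := normalizer_ne_top hG _ (by rw [hPc]; norm_num) (by rw [hPc]; norm_num)
  have hNi : N.index ≠ 1 := fun h => hNtop (Subgroup.index_eq_one.mp h)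
  have h14N : 14 ∣ Nat.card N := by
    have : 14 ∣ Nat.card C := by omega
    exact this.trans hCN'
  have hNcard : Nat.card N = 14 := by
    obtain ⟨k, hk⟩ := h14N
    rw [hk] at hNc
    have h36 : k * N.index = 36 := by nlinarith
    have hile : N.index ≤ 36 := Nat.le_of_dvd (by norm_num) ⟨k, by rw [← h36]; ring⟩
    have key : ∀ i ≤ 36, (i ∣ 36 ∧ i % 7 = 1 ∧ i ≠ 1) → i = 36 := by decide
    have := key _ hile ⟨⟨k, by rw [← h36]; ring⟩, by rw [← hn]; exact hmod, hNi⟩
    rw [this] at h36
    rw [hk]; omega
  have hCcard : Nat.card C = 14 := by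
    have h1 : Nat.card C ≤ 14 := hNcard ▸ Nat.le_of_dvd Nat.card_pos hCN'
    have h2 : 0 < Nat.card C := Nat.card_pos
    omega
  have hCeqN : C = N := Subgroup.eq_of_le_of_card_ge hCN (by rw [hNcard, hCcard])
  have hcyc : IsCyclic (P : Subgroup G) := isCyclic_of_prime_card (p := 7) hPc
  have hcomm : IsMulCommutative (P : Subgroup G) := hcyc.isMulCommutative
  have hP' : (P : Subgroup G) ≠ ⊤ := by
    intro h
    rw [h, Subgroup.card_top, hG] at hPc
    omega
  have hx1 := transfer_central P hP' hxP (fun n hn' => ((hmemC n).mp (hCeqN ▸ hn')).symm)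
  rw [hx1, orderOf_one] at hx
  omega

/-- No element of order 3 commutes with an involution. -/
theorem no_comm_three (hG : Nat.card G = 504) {y t : G} (hy : orderOf y = 3) (ht : orderOf t = 2)
    (hc : t * y = y * t) : False := by
  have hzc : Nat.card (zpowers y) = 3 := by rw [Nat.card_zpowers, hy]
  have hzp : IsPGroup 3 (zpowers y) := IsPGroup.of_card (n := 1) (by rw [hzc]; norm_num)
  obtain ⟨P, hzP⟩ := hzp.exists_le_sylow
  have hPc := card_sylow3' hG P
  have hyP : y ∈ (P : Subgroup G) := hzP (mem_zpowers y)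
  have hcomm : IsMulCommutative (P : Subgroup G) :=
    IsPGroup.isMulCommutative_of_card_eq_prime_sq (p := 3) (by rw [hPc]; norm_num)
  set C : Subgroup G := centralizer ({y} : Set G) with hC
  have hmemC : ∀ g : G, g ∈ C ↔ y * g = g * y := by
    intro g
    rw [hC, Subgroup.mem_centralizer_iff]
    simp
  have hPC : (P : Subgroup G) ≤ C := by
    intro x hx
    rw [hmemC]
    exact congrArg Subtype.val (hcomm.is_comm.comm (⟨y, hyP⟩ : (P : Subgroup G)) ⟨x, hx⟩)
  have htC : t ∈ C := (hmemC t).mpr hc.symm
  have hyC : y ∈ C := hPC hyP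
  have hCtop : C ≠ ⊤ := by
    intro htop
    have hzcen : y ∈ Subgroup.center G := by
      rw [Subgroup.mem_center_iff]
      intro g
      have : g ∈ C := htop ▸ Subgroup.mem_top g
      exact ((hmemC g).mp this).symm
    rw [simple_center_bot (by rw [hG]; norm_num), Subgroup.mem_bot] at hzcen
    rw [hzcen, orderOf_one] at hy
    omega
  have h9C : 9 ∣ Nat.card C := hPc ▸ Subgroup.card_dvd_of_le hPC
  have h2C : 2 ∣ Nat.card C := by rw [← ht]; exact Subgroup.orderOf_dvd_natCard _ htC
  have hidx := index_ge_eight hG C hCtop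
  have hCc := Subgroup.card_mul_index C
  rw [hG] at hCc
  have hP' : (P : Subgroup G) ≠ ⊤ := by
    intro h
    rw [h, Subgroup.card_top, hG] at hPc
    omega
  have hcard : Nat.card C = 18 ∨ Nat.card C = 36 := by
    obtain ⟨k, hk⟩ : 18 ∣ Nat.card C := by omega
    rw [hk] at hCc
    have h28 : k * C.index = 28 := by nlinarith
    have hkle : k ≤ 28 := Nat.le_of_dvd (by norm_num) ⟨_, h28.symm⟩
    have hile : C.index ≤ 28 := Nat.le_of_dvd (by norm_num) ⟨k, by rw [← h28]; ring⟩
    have key : ∀ k ≤ 28, ∀ i ≤ 28, (k * i = 28 ∧ 8 ≤ i) → k = 1 ∨ k = 2 := by decide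
    rcases key _ hkle _ hile ⟨h28, hidx⟩ with h | h
    · left; rw [hk, h]
    · right; rw [hk, h]
  rcases hcard with h18 | h36
  · have hrel : ((P : Subgroup G).subgroupOf C).index = 2 := by
      have h1 := Subgroup.card_mul_index ((P : Subgroup G).subgroupOf C)
      rw [Nat.card_congr (Subgroup.subgroupOfEquivOfLe hPC).toEquiv, hPc, h18] at h1
      omega
    have : ((P : Subgroup G).subgroupOf C).Normal := Subgroup.normal_of_index_eq_two hrel
    have hCN : C ≤ normalizer ((P : Subgroup G) : Set G) :=
      Subgroup.le_normalizer_of_normal_subgroupOf hPC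
    set N := normalizer ((P : Subgroup G) : Set G) with hN
    have hn : Nat.card (Sylow 3 G) = N.index := P.card_eq_index_normalizer
    have hmod : Nat.card (Sylow 3 G) % 3 = 1 := card_sylow_modEq_one 3 G
    have hNc := Subgroup.card_mul_index N
    rw [hG] at hNc
    have h18N : 18 ∣ Nat.card N := h18 ▸ Subgroup.card_dvd_of_le hCN
    have hNtop : N ≠ ⊤ := normalizer_ne_top hG _ (by rw [hPc]; norm_num) (by rw [hPc]; norm_num)
    have hNi := index_ge_eight hG N hNtop
    have hNcard : Nat.card N = 18 := by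
      obtain ⟨k, hk⟩ := h18N
      rw [hk] at hNc
      have h28 : k * N.index = 28 := by nlinarith
      have hkle : k ≤ 28 := Nat.le_of_dvd (by norm_num) ⟨_, h28.symm⟩
      have hile : N.index ≤ 28 := Nat.le_of_dvd (by norm_num) ⟨k, by rw [← h28]; ring⟩
      have key : ∀ k ≤ 28, ∀ i ≤ 28, (k * i = 28 ∧ 8 ≤ i ∧ i % 3 = 1) → k = 1 := by decide
      have := key _ hkle _ hile ⟨h28, hNi, by rw [← hn]; exact hmod⟩
      rw [hk, this]
    have hCeqN : C = N := Subgroup.eq_of_le_of_card_ge hCN (by rw [hNcard, h18])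
    have hy1 := transfer_central P hP' hyP (fun n hn' => ((hmemC n).mp (hCeqN ▸ hn')).symm)
    rw [hy1, orderOf_one] at hy
    omega
  · have hzcC : (⟨y, hyC⟩ : C) ∈ Subgroup.center C := by
      rw [Subgroup.mem_center_iff]
      rintro ⟨g, hg⟩
      apply Subtype.ext
      exact ((hmemC g).mp hg).symm
    have hzoC : orderOf (⟨y, hyC⟩ : C) = 3 := by
      rw [← hy, ← Subgroup.orderOf_coe]
    rcases order36_normal h36 ⟨y, hyC⟩ hzoC hzcC with ⟨V, hVn, hV4⟩ | ⟨K, hKn, hK9⟩
    · set V' : Subgroup G := V.map C.subtype with hV'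
      have hV'c : Nat.card V' = 4 := by
        rw [hV', Subgroup.card_map_of_injective C.subtype_injective, hV4]
      have hCN : C ≤ normalizer (V' : Set G) := le_normalizer_map_subtype C V hVn
      obtain ⟨K8, hK8, hVK⟩ := Sylow.exists_subgroup_card_pow_succ (p := 2) (n := 2)
        (by rw [hG]; norm_num) (H := V') (by rw [hV'c]; norm_num)
      have hrel : (V'.subgroupOf K8).index = 2 := by
        have h1 := Subgroup.card_mul_index (V'.subgroupOf K8)
        rw [Nat.card_congr (Subgroup.subgroupOfEquivOfLe hVK).toEquiv, hV'c, hK8] at h1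
        omega
      have : (V'.subgroupOf K8).Normal := Subgroup.normal_of_index_eq_two hrel
      have hKN : K8 ≤ normalizer (V' : Set G) := Subgroup.le_normalizer_of_normal_subgroupOf hVK
      have h36N : 36 ∣ Nat.card (normalizer (V' : Set G)) := h36 ▸ Subgroup.card_dvd_of_le hCN
      have h8 : 8 ∣ Nat.card (normalizer (V' : Set G)) := by
        have := Subgroup.card_dvd_of_le hKN
        rw [hK8] at this
        exact this
      have hNc := Subgroup.card_mul_index (normalizer (V' : Set G))
      rw [hG] at hNc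
      have h72 : 72 ∣ Nat.card (normalizer (V' : Set G)) := by omega
      have hNtop : normalizer (V' : Set G) ≠ ⊤ :=
        normalizer_ne_top hG _ (by rw [hV'c]; norm_num) (by rw [hV'c]; norm_num)
      have h8' := index_ge_eight hG _ hNtop
      obtain ⟨c, hc⟩ := h72
      rw [hc] at hNc
      have h7 : c * (normalizer (V' : Set G)).index = 7 := by nlinarith
      have h7' : (normalizer (V' : Set G)).index ∣ 7 := ⟨c, by rw [← h7]; ring⟩
      have := Nat.le_of_dvd (by norm_num) h7'
      omega
    · set K' : Subgroup G := K.map C.subtype with hK'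
      have hK'c : Nat.card K' = 9 := by
        rw [hK', Subgroup.card_map_of_injective C.subtype_injective, hK9]
      have hCN : C ≤ normalizer (K' : Set G) := le_normalizer_map_subtype C K hKn
      have hKp : IsPGroup 3 K' := IsPGroup.of_card (n := 2) (by rw [hK'c]; norm_num)
      obtain ⟨S, hKS⟩ := hKp.exists_le_sylow
      have hSc := card_sylow3' hG S
      have hKS' : K' = (S : Subgroup G) := Subgroup.eq_of_le_of_card_ge hKS (by rw [hSc, hK'c])
      set N := normalizer ((S : Subgroup G) : Set G) with hN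
      have hCN' : C ≤ N := by rw [hN, ← hKS']; exact hCN
      have hn : Nat.card (Sylow 3 G) = N.index := S.card_eq_index_normalizer
      have hmod : Nat.card (Sylow 3 G) % 3 = 1 := card_sylow_modEq_one 3 G
      have hNc := Subgroup.card_mul_index N
      rw [hG] at hNc
      have h36N : 36 ∣ Nat.card N := h36 ▸ Subgroup.card_dvd_of_le hCN'
      have hNtop : N ≠ ⊤ := normalizer_ne_top hG _ (by rw [hSc]; norm_num) (by rw [hSc]; norm_num)
      have hNi := index_ge_eight hG N hNtop
      obtain ⟨k, hk⟩ := h36N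
      rw [hk] at hNc
      have h14 : k * N.index = 14 := by nlinarith
      have hkle : k ≤ 14 := Nat.le_of_dvd (by norm_num) ⟨_, h14.symm⟩
      have hile : N.index ≤ 14 := Nat.le_of_dvd (by norm_num) ⟨k, by rw [← h14]; ring⟩
      have key : ∀ k ≤ 14, ∀ i ≤ 14, (k * i = 14 ∧ 8 ≤ i ∧ i % 3 = 1) → False := by decide
      exact key _ hkle _ hile ⟨h14, hNi, by rw [← hn]; exact hmod⟩

end Cfsg.Agent.H51.PSL8
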