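import Mathlib
import Cfsg.Agent.H51.PSL8Inv
import Cfsg.Agent.H70.Frob

/-! General lemmas for the analysis of a simple group of order 4080: Sylow subgroups of prime order,
transport of commutation along Sylow conjugacy, Frobenius counting (helper51). -/

set_option autoImplicit false

namespace Cfsg.Agent.H51.PSL16

open Subgroup PSL9 PSL8

section General

variable {G : Type*} [Group G]

theorem orderOf_conj_eq (g w : G) : orderOf (g * w * g⁻¹) = orderOf w :=
  (MulAut.conj g).orderOf_eq w

theorem sylow_mem_smul {p : ℕ} (g : G) (P : Sylow p G) (x : G) (hx : x ∈ (P : Subgroup G)) :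
    g * x * g⁻¹ ∈ ((g • P : Sylow p G) : Subgroup G) := by
  have h := Subgroup.smul_mem_pointwise_smul x (MulAut.conj g) (P : Subgroup G) hx
  rw [Sylow.smul_def, Sylow.pointwise_smul_def]
  simpa [MulAut.smul_def] using h

theorem mem_normalizer_zpowers_of_conj {n z : G} (h1 : n * z * n⁻¹ ∈ zpowers z)
    (h2 : n⁻¹ * z * n ∈ zpowers z) : n ∈ normalizer (zpowers z : Set G) := by
  rw [Subgroup.mem_normalizer_iff]
  intro q
  constructor
  · rintro ⟨k, rfl⟩
    have : n * z ^ k * n⁻¹ = (n * z * n⁻¹) ^ k := conj_zpow.symm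
    rw [this]
    exact zpow_mem h1 k
  · intro hq
    have e : q = n⁻¹ * (n * q * n⁻¹) * n := by group
    rw [e]
    obtain ⟨k, hk⟩ := hq
    rw [← hk]
    have : n⁻¹ * z ^ k * n = (n⁻¹ * z * n) ^ k := by
      have := conj_zpow (a := n⁻¹) (b := z) (i := k)
      rw [inv_inv] at this
      exact this.symm
    rw [this]
    exact zpow_mem h2 k

/-- The nontrivial solutions of `v ^ n = 1`. -/
def Lset (G : Type*) [Group G] (n : ℕ) : Set G := {v | v ≠ 1 ∧ v ^ n = 1}

theorem Lset_conj (n : ℕ) (x v : G) (hv : v ∈ Lset G n) : x * v * x⁻¹ ∈ Lset G n := by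
  obtain ⟨h1, h8⟩ := hv
  refine ⟨fun h => h1 (conj_eq_one_iff.mp h), ?_⟩
  rw [conj_pow, h8]
  group

theorem Lset_mono {m n : ℕ} (h : m ∣ n) : Lset G m ⊆ Lset G n := by
  rintro v ⟨h1, hv⟩
  obtain ⟨k, rfl⟩ := h
  exact ⟨h1, by rw [pow_mul, hv, one_pow]⟩

/-- Frobenius' theorem for the sets `Lset`. -/
theorem frob_Lset [Finite G] (n : ℕ) (hn : n ∣ Nat.card G) :
    n ∣ (Lset G n).ncard + 1 ∧ (Lset G n).ncard + 1 ≤ Nat.card G := by
  have h8 := Cfsg.Agent.H70.frobenius_dvd (G := G) n hn
  have e1 : Nat.card {g : G // g ^ n = 1} = ({g : G | g ^ n = 1}).ncard :=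
    Nat.card_coe_set_eq _
  have e2 : {g : G | g ^ n = 1} = insert 1 (Lset G n) := by
    ext g
    simp only [Set.mem_ofPred_eq, Set.mem_insert_iff, Lset]
    constructor
    · intro h
      by_cases hg : g = 1
      · exact Or.inl hg
      · exact Or.inr ⟨hg, h⟩
    · rintro (rfl | ⟨-, h⟩)
      · exact one_pow _
      · exact h
  have e3 : (insert 1 (Lset G n)).ncard = (Lset G n).ncard + 1 :=
    Set.ncard_insert_of_notMem (fun h => h.1 rfl) (Set.toFinite _)
  have e4 : (insert 1 (Lset G n)).ncard ≤ Nat.card G := Set.ncard_le_card _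
  rw [e1, e2, e3] at h8
  rw [e3] at e4
  exact ⟨h8, e4⟩

variable [Finite G]

theorem exists_sylow_eq_zpowers {p : ℕ} [Fact p.Prime]
    (hc : ∀ P : Sylow p G, Nat.card (P : Subgroup G) = p) {v : G} (hv : orderOf v = p) :
    ∃ P : Sylow p G, (P : Subgroup G) = zpowers v := by
  have hzc : Nat.card (zpowers v) = p := by rw [Nat.card_zpowers, hv]
  have hz : IsPGroup p (zpowers v) := IsPGroup.of_card (n := 1) (by rw [hzc, pow_one])
  obtain ⟨P, hP⟩ := hz.exists_le_sylow
  exact ⟨P, (Subgroup.eq_of_le_of_card_ge hP (by rw [hc P, hzc])).symm⟩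

/-- If `w` commutes with an element of order `p` (Sylow subgroups of order `p`), a conjugate of `w`
commutes with any given element of order `p`. -/
theorem exists_conj_comm {p : ℕ} [Fact p.Prime]
    (hc : ∀ P : Sylow p G, Nat.card (P : Subgroup G) = p) {u u' w : G} (hu : orderOf u = p)
    (hu' : orderOf u' = p) (hw : w * u = u * w) :
    ∃ g : G, (g * w * g⁻¹) * u' = u' * (g * w * g⁻¹) := by
  obtain ⟨P, hP⟩ := exists_sylow_eq_zpowers hc hu
  obtain ⟨P', hP'⟩ := exists_sylow_eq_zpowers hc hu'
  obtain ⟨g, hg⟩ := MulAction.exists_smul_eq G P P'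
  refine ⟨g, ?_⟩
  have h1 : g * u * g⁻¹ ∈ (P' : Subgroup G) := by
    rw [← hg]
    exact sylow_mem_smul g P u (hP ▸ mem_zpowers u)
  have h2 : zpowers (g * u * g⁻¹) = zpowers u' := by
    apply Subgroup.eq_of_le_of_card_ge
    · rw [zpowers_le, ← hP']
      exact h1
    · rw [Nat.card_zpowers, Nat.card_zpowers, orderOf_conj_eq, hu, hu']
  have h3 : u' ∈ zpowers (g * u * g⁻¹) := h2 ▸ mem_zpowers u'
  obtain ⟨k, hk⟩ := h3
  rw [← hk]
  have h4 : Commute (g * w * g⁻¹) (g * u * g⁻¹) := by
    show g * w * g⁻¹ * (g * u * g⁻¹) = g * u * g⁻¹ * (g * w * g⁻¹)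
    calc g * w * g⁻¹ * (g * u * g⁻¹) = g * (w * u) * g⁻¹ := by group
      _ = g * (u * w) * g⁻¹ := by rw [hw]
      _ = g * u * g⁻¹ * (g * w * g⁻¹) := by group
  exact (h4.zpow_right k).eq

/-- In a simple group whose Sylow `p`-subgroups have order `p`: the centraliser of an element of
order `p` is a proper subgroup of the normaliser of the subgroup it generates. -/
theorem prime_sylow_data [IsSimpleGroup G] {p : ℕ} [Fact p.Prime]
    (hc : ∀ P : Sylow p G, Nat.card (P : Subgroup G) = p) (hpG : p < Nat.card G) {x : G}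
    (hx : orderOf x = p) :
    centralizer ({x} : Set G) ≤ normalizer (zpowers x : Set G) ∧
    (normalizer (zpowers x : Set G)).index = Nat.card (Sylow p G) ∧
    normalizer (zpowers x : Set G) ≠ ⊤ ∧
    p ∣ Nat.card (centralizer ({x} : Set G)) ∧
    centralizer ({x} : Set G) ≠ normalizer (zpowers x : Set G) := by
  have hp : p.Prime := Fact.out
  have hzc : Nat.card (zpowers x) = p := by rw [Nat.card_zpowers, hx]
  obtain ⟨P, hPz⟩ := exists_sylow_eq_zpowers hc hx
  have hPc := hc P
  have hmemC : ∀ g : G, g ∈ centralizer ({x} : Set G) ↔ x * g = g * x := by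
    intro g
    rw [Subgroup.mem_centralizer_iff]
    simp
  have hCN : centralizer ({x} : Set G) ≤ normalizer (zpowers x : Set G) := by
    intro c hc'
    apply mem_normalizer_of_comm
    rintro q ⟨k, rfl⟩
    exact ((show Commute c x from ((hmemC c).mp hc').symm).zpow_right k).eq
  have hidx : (normalizer (zpowers x : Set G)).index = Nat.card (Sylow p G) := by
    have e : normalizer ((P : Subgroup G) : Set G) = normalizer (zpowers x : Set G) := by rw [hPz]
    rw [P.card_eq_index_normalizer]
    exact congrArg Subgroup.index e.symm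
  have hNtop : normalizer (zpowers x : Set G) ≠ ⊤ := by
    intro h
    have hn : (zpowers x).Normal := normalizer_eq_top_iff.mp h
    rcases simple_normal_card (zpowers x) with h1 | h1
    · rw [hzc] at h1
      exact hp.one_lt.ne' h1
    · rw [hzc] at h1
      omega
  have hxC : x ∈ centralizer ({x} : Set G) := (hmemC x).mpr rfl
  have hpC : p ∣ Nat.card (centralizer ({x} : Set G)) := by
    have := Subgroup.orderOf_dvd_natCard _ hxC
    rwa [hx] at this
  refine ⟨hCN, hidx, hNtop, hpC, ?_⟩
  intro hCeq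
  have hcyc : IsCyclic (P : Subgroup G) := isCyclic_of_prime_card (p := p) hPc
  have hcomm : IsMulCommutative (P : Subgroup G) := hcyc.isMulCommutative
  have hP' : (P : Subgroup G) ≠ ⊤ := by
    intro h
    rw [h, Subgroup.card_top] at hPc
    omega
  have hxP : x ∈ (P : Subgroup G) := hPz ▸ mem_zpowers x
  have hx1 := transfer_central P hP' hxP (fun n hn' => by
    have : n ∈ centralizer ({x} : Set G) := by
      rw [hCeq, ← hPz]
      exact hn'
    exact ((hmemC n).mp this).symm)
  rw [hx1, orderOf_one] at hx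
  exact hp.ne_one hx.symm

omit [Finite G] in
/-- A Sylow subgroup normalised by the whole group: cardinality form. -/
theorem normalizer_ne_top_of_card [IsSimpleGroup G] (P : Subgroup G) (h1 : Nat.card P ≠ 1)
    (h2 : Nat.card P ≠ Nat.card G) : normalizer (P : Set G) ≠ ⊤ := by
  intro h
  have hPn : P.Normal := normalizer_eq_top_iff.mp h
  rcases simple_normal_card P with h | h
  · exact h1 h
  · exact h2 h

end General

end Cfsg.Agent.H51.PSL16
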