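import Mathlib
import Cfsg.Agent.H51.PSL16Basic

/-! In a simple group of order 4080, no element of order 3, 5 or 17 commutes with an involution
(helper51). -/

set_option autoImplicit false

namespace Cfsg.Agent.H51.PSL16

open Subgroup PSL9 PSL8

variable {G : Type*} [Group G] [Finite G] [IsSimpleGroup G]

/-- A proper subgroup of a simple group of order 4080 has index at least 17. -/
theorem index_ge (hG : Nat.card G = 4080) (H : Subgroup G) (hH : H ≠ ⊤) : 17 ≤ H.index := by
  have h1 := simple_card_dvd_factorial H hH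
  rw [hG] at h1
  by_contra hlt
  push Not at hlt
  have key : ∀ n < 17, ¬ 4080 ∣ n.factorial := by decide
  exact key _ hlt h1

omit [IsSimpleGroup G] in
theorem card_sylow17 (hG : Nat.card G = 4080) [Fact (Nat.Prime 17)] (P : Sylow 17 G) :
    Nat.card (P : Subgroup G) = 17 := by
  have := sylow_card_pow (p := 17) (k := 1) (m := 240) (by rw [hG]; norm_num) (by norm_num) P
  simpa using this

omit [IsSimpleGroup G] in
theorem card_sylow5 (hG : Nat.card G = 4080) [Fact (Nat.Prime 5)] (P : Sylow 5 G) :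
    Nat.card (P : Subgroup G) = 5 := by
  have := sylow_card_pow (p := 5) (k := 1) (m := 816) (by rw [hG]; norm_num) (by norm_num) P
  simpa using this

omit [IsSimpleGroup G] in
theorem card_sylow3 (hG : Nat.card G = 4080) (P : Sylow 3 G) :
    Nat.card (P : Subgroup G) = 3 := by
  have := sylow_card_pow (p := 3) (k := 1) (m := 1360) (by rw [hG]; norm_num) (by norm_num) P
  simpa using this

omit [IsSimpleGroup G] in
theorem card_sylow2 (hG : Nat.card G = 4080) (P : Sylow 2 G) :
    Nat.card (P : Subgroup G) = 16 := by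
  have := sylow_card_pow (p := 2) (k := 4) (m := 255) (by rw [hG]; norm_num) (by norm_num) P
  simpa using this

/-- The centraliser of an element of order 17 has order 17. -/
theorem card_centralizer_17 (hG : Nat.card G = 4080) {x : G} (hx : orderOf x = 17) :
    Nat.card (centralizer ({x} : Set G)) = 17 := by
  have : Fact (Nat.Prime 17) := ⟨by norm_num⟩
  obtain ⟨hCN, hidx, hNtop, hpC, hCne⟩ :=
    prime_sylow_data (p := 17) (fun P => card_sylow17 hG P) (by rw [hG]; norm_num) hx
  have hCN' := Subgroup.card_dvd_of_le hCN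
  have hmod : Nat.card (Sylow 17 G) % 17 = 1 := card_sylow_modEq_one 17 G
  have hNc := Subgroup.card_mul_index (normalizer (zpowers x : Set G))
  have hNi := index_ge hG _ hNtop
  rw [hG, hidx] at hNc
  rw [hidx] at hNi
  have h17N : 17 ∣ Nat.card (normalizer (zpowers x : Set G)) := hpC.trans hCN'
  have hNcard : Nat.card (normalizer (zpowers x : Set G)) = 34 := by
    obtain ⟨k, hk⟩ := h17N
    rw [hk] at hNc
    have h240 : k * Nat.card (Sylow 17 G) = 240 := by nlinarith
    have hile : Nat.card (Sylow 17 G) ≤ 240 :=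
      Nat.le_of_dvd (by norm_num) ⟨k, by rw [← h240]; ring⟩
    have key : ∀ i ≤ 240, (i ∣ 240 ∧ i % 17 = 1 ∧ 17 ≤ i) → i = 120 := by decide +kernel
    have := key _ hile ⟨⟨k, by rw [← h240]; ring⟩, hmod, hNi⟩
    rw [this] at h240
    rw [hk]; omega
  have hle : Nat.card (centralizer ({x} : Set G)) ≤ 34 :=
    hNcard ▸ Nat.le_of_dvd Nat.card_pos hCN'
  have hne : Nat.card (centralizer ({x} : Set G)) ≠ 34 :=
    fun h => hCne (Subgroup.eq_of_le_of_card_ge hCN (by rw [hNcard, h]))
  rw [hNcard] at hCN'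
  have key : ∀ c ≤ 34, (c ∣ 34 ∧ 17 ∣ c ∧ c ≠ 34) → c = 17 := by decide
  exact key _ hle ⟨hCN', hpC, hne⟩

/-- The number of nontrivial solutions of `v ^ n = 1` is divisible by 17 when `n` is prime to
17. -/
theorem Lset_dvd17 (hG : Nat.card G = 4080) {n : ℕ} (hn : Nat.Coprime n 17) :
    17 ∣ (Lset G n).ncard := by
  have : Fact (Nat.Prime 17) := ⟨by norm_num⟩
  obtain ⟨x, hx⟩ := exists_prime_orderOf_dvd_card' (G := G) 17 (by rw [hG]; norm_num)
  have hfree : ∀ w ∈ zpowers x, ∀ v ∈ Lset G n, w * v * w⁻¹ = v → w = 1 := by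
    intro w hw v hv h
    by_contra hw1
    have hw17 : w ^ 17 = 1 := by
      obtain ⟨k, rfl⟩ := hw
      rw [← zpow_natCast, ← zpow_mul, mul_comm, zpow_mul, zpow_natCast, ← hx,
        pow_orderOf_eq_one, one_zpow]
    have hwo : orderOf w = 17 := orderOf_eq_prime hw17 hw1
    have hCw := card_centralizer_17 hG hwo
    have hvC : v ∈ centralizer ({w} : Set G) := by
      rw [Subgroup.mem_centralizer_iff]
      intro h' hh
      rw [Set.mem_singleton_iff] at hh
      rw [hh]
      calc w * v = (w * v * w⁻¹) * w := by group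
        _ = v * w := by rw [h]
    have hv17 : v ^ 17 = 1 := by
      have h := pow_card_eq_one' (G := centralizer ({w} : Set G)) (x := ⟨v, hvC⟩)
      rw [hCw] at h
      have := congrArg Subtype.val h
      simp only [Subgroup.coe_pow, Subgroup.coe_one] at this
      exact this
    have := pow_gcd_eq_one.mpr ⟨hv.2, hv17⟩
    rw [Nat.Coprime.gcd_eq_one hn, pow_one] at this
    exact hv.1 this
  have := card_dvd_of_free (zpowers x) (Lset G n) (fun w _ v hv => Lset_conj n w v hv) hfree
  rwa [Nat.card_zpowers, hx, Nat.card_coe_set_eq] at this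

/-- There are commuting elements of orders 3 and 5. -/
theorem exists_comm_3_5 (hG : Nat.card G = 4080) :
    ∃ z y : G, orderOf z = 3 ∧ orderOf y = 5 ∧ z * y = y * z := by
  by_contra hcon
  push Not at hcon
  have : Fact (Nat.Prime 5) := ⟨by norm_num⟩
  obtain ⟨z0, hz0⟩ := exists_prime_orderOf_dvd_card' (G := G) 3 (by rw [hG]; norm_num)
  obtain ⟨y0, hy0⟩ := exists_prime_orderOf_dvd_card' (G := G) 5 (by rw [hG]; norm_num)
  have hU : Lset G 240 ⊆ Lset G 48 ∪ Lset G 80 := by
    rintro v ⟨hv1, hv⟩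
    by_cases h80 : v ^ 80 = 1
    · exact Or.inr ⟨hv1, h80⟩
    · by_cases h48 : v ^ 48 = 1
      · exact Or.inl ⟨hv1, h48⟩
      · exfalso
        have hz : orderOf (v ^ 80) = 3 := orderOf_eq_prime (by rw [← pow_mul]; exact hv) h80
        have hy : orderOf (v ^ 48) = 5 := orderOf_eq_prime (by rw [← pow_mul]; exact hv) h48
        exact hcon _ _ hz hy ((Commute.refl v).pow_pow 80 48).eq
  have hU' : Lset G 48 ∪ Lset G 80 ⊆ Lset G 240 :=
    Set.union_subset (Lset_mono (by norm_num)) (Lset_mono (by norm_num))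
  have hI : Lset G 48 ∩ Lset G 80 ⊆ Lset G 16 := by
    rintro v ⟨⟨hv1, h48⟩, -, h80⟩
    exact ⟨hv1, pow_gcd_eq_one.mpr ⟨h48, h80⟩⟩
  have h16_48 : Lset G 16 ⊆ Lset G 48 := Lset_mono (by norm_num)
  have h16_80 : Lset G 16 ⊆ Lset G 80 := Lset_mono (by norm_num)
  have hz1 : z0 ≠ 1 := by
    rintro rfl
    rw [orderOf_one] at hz0
    omega
  have hy1 : y0 ≠ 1 := by
    rintro rfl
    rw [orderOf_one] at hy0
    omega
  have hz48 : z0 ∈ Lset G 48 :=
    ⟨hz1, orderOf_dvd_iff_pow_eq_one.mp (by rw [hz0]; norm_num)⟩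
  have hz16 : z0 ∉ Lset G 16 := by
    rintro ⟨-, h⟩
    have := orderOf_dvd_of_pow_eq_one h
    rw [hz0] at this
    omega
  have hy80 : y0 ∈ Lset G 80 :=
    ⟨hy1, orderOf_dvd_iff_pow_eq_one.mp (by rw [hy0]; norm_num)⟩
  have hy16 : y0 ∉ Lset G 16 := by
    rintro ⟨-, h⟩
    have := orderOf_dvd_of_pow_eq_one h
    rw [hy0] at this
    omega
  obtain ⟨A1, A2⟩ := frob_Lset (G := G) 240 (by rw [hG]; norm_num)
  obtain ⟨B1, -⟩ := frob_Lset (G := G) 48 (by rw [hG]; norm_num)
  obtain ⟨C1, -⟩ := frob_Lset (G := G) 80 (by rw [hG]; norm_num)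
  obtain ⟨D1, -⟩ := frob_Lset (G := G) 16 (by rw [hG]; norm_num)
  have A17 := Lset_dvd17 hG (n := 240) (by decide)
  have B17 := Lset_dvd17 hG (n := 48) (by decide)
  have C17 := Lset_dvd17 hG (n := 80) (by decide)
  have D17 := Lset_dvd17 hG (n := 16) (by decide)
  have hfin : ∀ s : Set G, s.Finite := fun s => Set.toFinite s
  have e1 : (Lset G 240).ncard ≤ (Lset G 48 ∪ Lset G 80).ncard := Set.ncard_le_ncard hU (hfin _)
  have e1' : (Lset G 48 ∪ Lset G 80).ncard ≤ (Lset G 240).ncard := Set.ncard_le_ncard hU' (hfin _)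
  have e2 : (Lset G 48 ∪ Lset G 80).ncard + (Lset G 48 ∩ Lset G 80).ncard
      = (Lset G 48).ncard + (Lset G 80).ncard :=
    Set.ncard_union_add_ncard_inter _ _ (hfin _) (hfin _)
  have e3 : (Lset G 48 ∩ Lset G 80).ncard ≤ (Lset G 16).ncard := Set.ncard_le_ncard hI (hfin _)
  have e4 : (Lset G 16).ncard < (Lset G 48).ncard :=
    Set.ncard_lt_ncard ⟨h16_48, fun h => hz16 (h hz48)⟩ (hfin _)
  have e5 : (Lset G 16).ncard < (Lset G 80).ncard :=
    Set.ncard_lt_ncard ⟨h16_80, fun h => hy16 (h hy80)⟩ (hfin _)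
  rw [hG] at A2
  omega

/-- The Sylow 5-structure: centraliser of order 15, normaliser of order 30. -/
theorem data_five (hG : Nat.card G = 4080) {z y : G} (hz : orderOf z = 3) (hy : orderOf y = 5)
    (hzy : z * y = y * z) :
    Nat.card (centralizer ({y} : Set G)) = 15 ∧
      Nat.card (normalizer (zpowers y : Set G)) = 30 := by
  have : Fact (Nat.Prime 5) := ⟨by norm_num⟩
  obtain ⟨hCN, hidx, hNtop, hpC, hCne⟩ :=
    prime_sylow_data (p := 5) (fun P => card_sylow5 hG P) (by rw [hG]; norm_num) hy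
  have hzC : z ∈ centralizer ({y} : Set G) := by
    rw [Subgroup.mem_centralizer_iff]
    intro h hh
    rw [Set.mem_singleton_iff] at hh
    rw [hh]
    exact hzy.symm
  have h3C : 3 ∣ Nat.card (centralizer ({y} : Set G)) := by
    have := Subgroup.orderOf_dvd_natCard _ hzC
    rwa [hz] at this
  have hCN' := Subgroup.card_dvd_of_le hCN
  have hmod : Nat.card (Sylow 5 G) % 5 = 1 := card_sylow_modEq_one 5 G
  have hNc := Subgroup.card_mul_index (normalizer (zpowers y : Set G))
  have hNi := index_ge hG _ hNtop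
  rw [hG, hidx] at hNc
  rw [hidx] at hNi
  have h15C : 15 ∣ Nat.card (centralizer ({y} : Set G)) := by omega
  have h15N : 15 ∣ Nat.card (normalizer (zpowers y : Set G)) := h15C.trans hCN'
  have hNcard : Nat.card (normalizer (zpowers y : Set G)) = 30 := by
    obtain ⟨k, hk⟩ := h15N
    rw [hk] at hNc
    have h272 : k * Nat.card (Sylow 5 G) = 272 := by nlinarith
    have hile : Nat.card (Sylow 5 G) ≤ 272 :=
      Nat.le_of_dvd (by norm_num) ⟨k, by rw [← h272]; ring⟩
    have key : ∀ i ≤ 272, (i ∣ 272 ∧ i % 5 = 1 ∧ 17 ≤ i) → i = 136 := by decide +kernel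
    have := key _ hile ⟨⟨k, by rw [← h272]; ring⟩, hmod, hNi⟩
    rw [this] at h272
    rw [hk]; omega
  have hle : Nat.card (centralizer ({y} : Set G)) ≤ 30 :=
    hNcard ▸ Nat.le_of_dvd Nat.card_pos hCN'
  have hne : Nat.card (centralizer ({y} : Set G)) ≠ 30 :=
    fun h => hCne (Subgroup.eq_of_le_of_card_ge hCN (by rw [hNcard, h]))
  rw [hNcard] at hCN'
  have key : ∀ c ≤ 30, (c ∣ 30 ∧ 15 ∣ c ∧ c ≠ 30) → c = 15 := by decide
  exact ⟨key _ hle ⟨hCN', h15C, hne⟩, hNcard⟩

/-- The centraliser of an element of order 3 has order 15. -/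
theorem data_three (hG : Nat.card G = 4080) {z y : G} (hz : orderOf z = 3) (hy : orderOf y = 5)
    (hzy : z * y = y * z) : Nat.card (centralizer ({z} : Set G)) = 15 := by
  have : Fact (Nat.Prime 5) := ⟨by norm_num⟩
  obtain ⟨hC5, hN5⟩ := data_five hG hz hy hzy
  obtain ⟨hCN, hidx, hNtop, hpC, hCne⟩ :=
    prime_sylow_data (p := 3) (fun P => card_sylow3 hG P) (by rw [hG]; norm_num) hz
  have hz3 : z ^ 3 = 1 := by rw [← hz]; exact pow_orderOf_eq_one z
  have hy5 : y ^ 5 = 1 := by rw [← hy]; exact pow_orderOf_eq_one y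
  have hu : orderOf (y * z) = 15 := by
    have := (show Commute y z from hzy.symm).orderOf_mul_eq_mul_orderOf_of_coprime
      (by rw [hy, hz]; decide)
    rw [this, hy, hz]
  have hCy : centralizer ({y} : Set G) = zpowers (y * z) := by
    symm
    apply Subgroup.eq_of_le_of_card_ge
    · rw [zpowers_le, Subgroup.mem_centralizer_iff]
      intro h hh
      rw [Set.mem_singleton_iff] at hh
      rw [hh, mul_assoc, hzy]
    · rw [hC5, Nat.card_zpowers, hu]
  have key : ∀ n ∈ normalizer (zpowers y : Set G), n * z * n⁻¹ ∈ zpowers z := by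
    intro n hn
    have h1 : n * y * n⁻¹ ∈ zpowers y := (Subgroup.mem_normalizer_iff.mp hn y).mp (mem_zpowers y)
    have h2 : zpowers (n * y * n⁻¹) = zpowers y :=
      Subgroup.eq_of_le_of_card_ge (zpowers_le.mpr h1)
        (by rw [Nat.card_zpowers, Nat.card_zpowers, orderOf_conj_eq])
    obtain ⟨k, hk0⟩ : y ∈ zpowers (n * y * n⁻¹) := h2 ▸ mem_zpowers y
    have hk : (n * y * n⁻¹) ^ k = y := hk0
    clear hk0
    have h3 : Commute (n * z * n⁻¹) (n * y * n⁻¹) := by
      show n * z * n⁻¹ * (n * y * n⁻¹) = n * y * n⁻¹ * (n * z * n⁻¹)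
      calc n * z * n⁻¹ * (n * y * n⁻¹) = n * (z * y) * n⁻¹ := by group
        _ = n * (y * z) * n⁻¹ := by rw [hzy]
        _ = n * y * n⁻¹ * (n * z * n⁻¹) := by group
    have h4 : Commute (n * z * n⁻¹) y := by
      rw [← hk]
      exact h3.zpow_right k
    have h5 : n * z * n⁻¹ ∈ zpowers (y * z) := by
      rw [← hCy, Subgroup.mem_centralizer_iff]
      intro h hh
      rw [Set.mem_singleton_iff] at hh
      rw [hh]
      exact h4.eq.symm
    obtain ⟨m, hm0⟩ := h5
    have hm : (y * z) ^ m = n * z * n⁻¹ := hm0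
    clear hm0
    have h6 : (n * z * n⁻¹) ^ 3 = 1 := by
      rw [conj_pow, hz3]
      group
    have h7 : (y * z) ^ (m * 3) = 1 := by
      rw [zpow_mul, hm]
      exact_mod_cast h6
    have h8 : (15 : ℤ) ∣ m * 3 := by
      have := orderOf_dvd_iff_zpow_eq_one.mpr h7
      rw [hu] at this
      exact_mod_cast this
    have h9 : (5 : ℤ) ∣ m := by omega
    obtain ⟨m', rfl⟩ := h9
    have h10 : (y * z) ^ (5 : ℤ) = z ^ 2 := by
      have e1 : (y * z) ^ 5 = y ^ 5 * z ^ 5 := (show Commute y z from hzy.symm).mul_pow 5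
      have e2 : z ^ 5 = z ^ 2 := by
        calc z ^ 5 = z ^ 3 * z ^ 2 := by rw [← pow_add]
          _ = z ^ 2 := by rw [hz3, one_mul]
      have e3 : (y * z) ^ 5 = z ^ 2 := by rw [e1, hy5, one_mul, e2]
      exact_mod_cast e3
    rw [← hm, zpow_mul, h10]
    exact zpow_mem (pow_mem (mem_zpowers z) 2) m'
  have hN5N : normalizer (zpowers y : Set G) ≤ normalizer (zpowers z : Set G) := by
    intro n hn
    refine mem_normalizer_zpowers_of_conj (key n hn) ?_
    have := key n⁻¹ (inv_mem hn)
    rwa [inv_inv] at this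
  have h30N : 30 ∣ Nat.card (normalizer (zpowers z : Set G)) :=
    hN5 ▸ Subgroup.card_dvd_of_le hN5N
  have hmod : Nat.card (Sylow 3 G) % 3 = 1 := card_sylow_modEq_one 3 G
  have hNc := Subgroup.card_mul_index (normalizer (zpowers z : Set G))
  have hNi := index_ge hG _ hNtop
  rw [hG, hidx] at hNc
  rw [hidx] at hNi
  have hNcard : Nat.card (normalizer (zpowers z : Set G)) = 30 ∨
      Nat.card (normalizer (zpowers z : Set G)) = 120 := by
    obtain ⟨k, hk⟩ := h30N
    rw [hk] at hNc
    have h136 : k * Nat.card (Sylow 3 G) = 136 := by nlinarith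
    have hile : Nat.card (Sylow 3 G) ≤ 136 :=
      Nat.le_of_dvd (by norm_num) ⟨k, by rw [← h136]; ring⟩
    have key : ∀ i ≤ 136, (i ∣ 136 ∧ i % 3 = 1 ∧ 17 ≤ i) → i = 136 ∨ i = 34 := by decide +kernel
    rcases key _ hile ⟨⟨k, by rw [← h136]; ring⟩, hmod, hNi⟩ with h | h
    · left
      rw [h] at h136
      rw [hk]; omega
    · right
      rw [h] at h136
      rw [hk]; omega
  have hN30 : Nat.card (normalizer (zpowers z : Set G)) = 30 := by
    rcases hNcard with h | h
    · exact h
    · exfalso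
      obtain ⟨P, hP⟩ := exists_sylow_eq_zpowers (p := 5) (fun P => card_sylow5 hG P) hy
      have hPN : (P : Subgroup G) ≤ normalizer (zpowers z : Set G) := by
        rw [hP]
        exact le_normalizer.trans hN5N
      have h1 : Nat.card (Sylow 5 (normalizer (zpowers z : Set G))) =
          (normalizer (((P.subtype hPN : Sylow 5 (normalizer (zpowers z : Set G))) :
            Subgroup (normalizer (zpowers z : Set G))) : Set (normalizer (zpowers z : Set G)))).index :=
        (P.subtype hPN).card_eq_index_normalizer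
      have h2 : Nat.card (Sylow 5 (normalizer (zpowers z : Set G))) % 5 = 1 :=
        card_sylow_modEq_one 5 _
      have h3 : normalizer (((P.subtype hPN : Sylow 5 (normalizer (zpowers z : Set G))) :
            Subgroup (normalizer (zpowers z : Set G))) : Set (normalizer (zpowers z : Set G)))
          = (normalizer (zpowers y : Set G)).subgroupOf (normalizer (zpowers z : Set G)) := by
        rw [Sylow.coe_subtype, hP]
        exact (Subgroup.subgroupOf_normalizer_eq (hP ▸ hPN)).symm
      have h4 : Nat.card ((normalizer (zpowers y : Set G)).subgroupOf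
          (normalizer (zpowers z : Set G))) = 30 := by
        rw [Nat.card_congr (Subgroup.subgroupOfEquivOfLe hN5N).toEquiv]
        exact hN5
      have h5 := Subgroup.card_mul_index ((normalizer (zpowers y : Set G)).subgroupOf
          (normalizer (zpowers z : Set G)))
      rw [h4, h] at h5
      rw [h3] at h1
      omega
  have hyC : y ∈ centralizer ({z} : Set G) := by
    rw [Subgroup.mem_centralizer_iff]
    intro h hh
    rw [Set.mem_singleton_iff] at hh
    rw [hh]
    exact hzy
  have h5C : 5 ∣ Nat.card (centralizer ({z} : Set G)) := by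
    have := Subgroup.orderOf_dvd_natCard _ hyC
    rwa [hy] at this
  have hCN' := Subgroup.card_dvd_of_le hCN
  have hle : Nat.card (centralizer ({z} : Set G)) ≤ 30 :=
    hN30 ▸ Nat.le_of_dvd Nat.card_pos hCN'
  have hne : Nat.card (centralizer ({z} : Set G)) ≠ 30 :=
    fun h => hCne (Subgroup.eq_of_le_of_card_ge hCN (by rw [hN30, h]))
  rw [hN30] at hCN'
  have key2 : ∀ c ≤ 30, (c ∣ 30 ∧ 15 ∣ c ∧ c ≠ 30) → c = 15 := by decide
  exact key2 _ hle ⟨hCN', by omega, hne⟩

/-- No element of order 3, 5 or 17 commutes with an involution. -/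
theorem no_comm_inv (hG : Nat.card G = 4080) {w t : G}
    (hw : orderOf w = 3 ∨ orderOf w = 5 ∨ orderOf w = 17) (ht : orderOf t = 2)
    (hc : t * w = w * t) : False := by
  have : Fact (Nat.Prime 5) := ⟨by norm_num⟩
  obtain ⟨z, y, hz, hy, hzy⟩ := exists_comm_3_5 hG
  have hkey : ∀ (v : G) (c : ℕ), Nat.card (centralizer ({v} : Set G)) = c → ¬ 2 ∣ c →
      ∀ s : G, orderOf s = 2 → s * v = v * s → False := by
    intro v c hcard hodd s hs hsv
    have hsC : s ∈ centralizer ({v} : Set G) := by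
      rw [Subgroup.mem_centralizer_iff]
      intro h hh
      rw [Set.mem_singleton_iff] at hh
      rw [hh]
      exact hsv.symm
    have := Subgroup.orderOf_dvd_natCard _ hsC
    rw [hs, hcard] at this
    exact hodd this
  rcases hw with hw | hw | hw
  · obtain ⟨g, hg⟩ := exists_conj_comm (p := 3) (fun P => card_sylow3 hG P) hw hz hc
    exact hkey z 15 (data_three hG hz hy hzy) (by norm_num) (g * t * g⁻¹)
      (by rw [orderOf_conj_eq, ht]) hg
  · obtain ⟨g, hg⟩ := exists_conj_comm (p := 5) (fun P => card_sylow5 hG P) hw hy hc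
    exact hkey y 15 (data_five hG hz hy hzy).1 (by norm_num) (g * t * g⁻¹)
      (by rw [orderOf_conj_eq, ht]) hg
  · exact hkey w 17 (card_centralizer_17 hG hw) (by norm_num) t ht hc

end Cfsg.Agent.H51.PSL16
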