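import Mathlib
import Cfsg.Agent.H51.PSL16Inv

/-! The 2-elements of a simple group of order 4080: the Sylow 2-subgroups are elementary abelian,
self-centralising at each nontrivial element, and there are seventeen of them (helper51). -/

set_option autoImplicit false

namespace Cfsg.Agent.H51.PSL16

open Subgroup PSL9 PSL8

theorem exists_pow_order2 {G : Type*} [Group G] {v : G} (hv1 : v ≠ 1) (hv : v ^ 16 = 1) :
    ∃ k : ℕ, orderOf (v ^ k) = 2 := by
  by_cases h2 : v ^ 2 = 1
  · exact ⟨1, by rw [pow_one]; exact orderOf_eq_prime h2 hv1⟩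
  · by_cases h4 : v ^ 4 = 1
    · exact ⟨2, orderOf_eq_prime (by rw [← pow_mul]; exact h4) h2⟩
    · by_cases h8 : v ^ 8 = 1
      · exact ⟨4, orderOf_eq_prime (by rw [← pow_mul]; exact h8) h4⟩
      · exact ⟨8, orderOf_eq_prime (by rw [← pow_mul]; exact hv) h8⟩

/-- If distinct Sylow `p`-subgroups intersect trivially, their number is congruent to 1 modulo the
order of a Sylow `p`-subgroup. -/
theorem card_sylow_sub_one_dvd {G : Type*} [Group G] [Finite G] {p : ℕ} [Fact p.Prime]
    (P : Sylow p G)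
    (hTI : ∀ Q : Sylow p G, Q ≠ P → ∀ x ∈ (P : Subgroup G), x ∈ (Q : Subgroup G) → x = 1) :
    Nat.card (P : Subgroup G) ∣ Nat.card (Sylow p G) - 1 := by
  have hstab : ∀ (x : (P : Subgroup G)) (Q : Sylow p G), Q ∈ ({P}ᶜ : Set (Sylow p G)) →
      (x : G) • Q ∈ ({P}ᶜ : Set (Sylow p G)) := by
    intro x Q hQ h
    apply hQ
    have h' : (x : G) • Q = P := h
    have h2 : Q = (x : G)⁻¹ • P := eq_inv_smul_iff.mpr h'
    show Q = P
    rw [h2]
    exact inv_smul_eq_iff.mpr (Sylow.smul_eq_iff_mem_normalizer.mpr (le_normalizer x.2)).symm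
  let _ : MulAction (P : Subgroup G) (({P}ᶜ : Set (Sylow p G))) :=
    { smul := fun x Q => ⟨(x : G) • Q.1, hstab x Q.1 Q.2⟩
      one_smul := fun Q => Subtype.ext (one_smul G Q.1)
      mul_smul := fun x y Q => Subtype.ext (mul_smul (x : G) (y : G) Q.1) }
  have hfree : ∀ Q : (({P}ᶜ : Set (Sylow p G))),
      MulAction.stabilizer (P : Subgroup G) Q = ⊥ := by
    intro Q
    rw [Subgroup.eq_bot_iff_forall]
    intro x hx
    have h1 : x • Q = Q := hx
    have h2 : (x : G) • Q.1 = Q.1 := congrArg Subtype.val h1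
    have hN : (x : G) ∈ normalizer ((Q.1 : Subgroup G) : Set G) :=
      Sylow.smul_eq_iff_mem_normalizer.mp h2
    have h3 := IsPGroup.inf_normalizer_sylow P.2 Q.1
    have h4 : (x : G) ∈ (P : Subgroup G) ⊓ (Q.1 : Subgroup G) := by
      rw [← h3]
      exact ⟨x.2, hN⟩
    exact Subtype.ext (hTI Q.1 Q.2 x x.2 h4.2)
  have e := MulAction.selfEquivOrbitsQuotientProd hfree
  have h1 : Nat.card (({P}ᶜ : Set (Sylow p G))) = Nat.card (Sylow p G) - 1 := by
    rw [Nat.card_coe_set_eq, Set.ncard_compl, Set.ncard_singleton]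
  rw [← h1, Nat.card_congr e, Nat.card_prod]
  exact dvd_mul_left _ _

variable {G : Type*} [Group G] [Finite G] [IsSimpleGroup G]

/-- A Sylow subgroup of order 3, 5 or 17 acts freely on the nontrivial 2-elements. -/
theorem free_odd (hG : Nat.card G = 4080) {p : ℕ} [Fact p.Prime] (hp : p = 3 ∨ p = 5 ∨ p = 17)
    (hc : ∀ P : Sylow p G, Nat.card (P : Subgroup G) = p) (P : Sylow p G) {x v : G}
    (hx : x ∈ (P : Subgroup G)) (hv : v ∈ Lset G 16) (h : x * v * x⁻¹ = v) : x = 1 := by
  by_contra hx1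
  have hxp : x ^ p = 1 := by
    have h := pow_card_eq_one' (G := (P : Subgroup G)) (x := ⟨x, hx⟩)
    rw [hc P] at h
    have := congrArg (fun z : (P : Subgroup G) => (z : G)) h
    simp only [Subgroup.coe_pow, Subgroup.coe_one] at this
    exact this
  have hxo : orderOf x = p := orderOf_eq_prime hxp hx1
  obtain ⟨k, hk⟩ := exists_pow_order2 hv.1 hv.2
  have hcm : x * v = v * x := by
    calc x * v = (x * v * x⁻¹) * x := by group
      _ = v * x := by rw [h]
  refine no_comm_inv hG (w := x) ?_ hk ((show Commute x v from hcm).pow_right k).eq.symm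
  rcases hp with rfl | rfl | rfl
  · exact Or.inl hxo
  · exact Or.inr (Or.inl hxo)
  · exact Or.inr (Or.inr hxo)

/-- There are exactly 255 nontrivial 2-elements. -/
theorem card_T16 (hG : Nat.card G = 4080) : (Lset G 16).ncard = 255 := by
  have : Fact (Nat.Prime 5) := ⟨by norm_num⟩
  have : Fact (Nat.Prime 17) := ⟨by norm_num⟩
  obtain ⟨P17⟩ : Nonempty (Sylow 17 G) := inferInstance
  obtain ⟨P5⟩ : Nonempty (Sylow 5 G) := inferInstance
  obtain ⟨P3⟩ : Nonempty (Sylow 3 G) := inferInstance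
  have h17 : 17 ∣ (Lset G 16).ncard := by
    have := card_dvd_of_free (P17 : Subgroup G) (Lset G 16) (fun x _ v hv => Lset_conj 16 x v hv)
      (fun x hx v hv h => free_odd hG (Or.inr (Or.inr rfl)) (fun P => card_sylow17 hG P) P17 hx hv h)
    rwa [card_sylow17 hG P17, Nat.card_coe_set_eq] at this
  have h5 : 5 ∣ (Lset G 16).ncard := by
    have := card_dvd_of_free (P5 : Subgroup G) (Lset G 16) (fun x _ v hv => Lset_conj 16 x v hv)
      (fun x hx v hv h => free_odd hG (Or.inr (Or.inl rfl)) (fun P => card_sylow5 hG P) P5 hx hv h)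
    rwa [card_sylow5 hG P5, Nat.card_coe_set_eq] at this
  have h3 : 3 ∣ (Lset G 16).ncard := by
    have := card_dvd_of_free (P3 : Subgroup G) (Lset G 16) (fun x _ v hv => Lset_conj 16 x v hv)
      (fun x hx v hv h => free_odd hG (Or.inl rfl) (fun P => card_sylow3 hG P) P3 hx hv h)
    rwa [card_sylow3 hG P3, Nat.card_coe_set_eq] at this
  obtain ⟨h16, hle⟩ := frob_Lset (G := G) 16 (by rw [hG]; norm_num)
  rw [hG] at hle
  generalize (Lset G 16).ncard = n at h17 h5 h3 h16 hle ⊢
  clear hG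
  omega

/-- The centraliser of an involution is a 2-group. -/
theorem card_centralizer_dvd (hG : Nat.card G = 4080) {t : G} (ht : orderOf t = 2) :
    Nat.card (centralizer ({t} : Set G)) ∣ 16 := by
  have : Fact (Nat.Prime 5) := ⟨by norm_num⟩
  have : Fact (Nat.Prime 17) := ⟨by norm_num⟩
  set C := centralizer ({t} : Set G) with hC
  have hC4080 : Nat.card C ∣ 4080 := hG ▸ Subgroup.card_subgroup_dvd_card C
  have hcm : ∀ y : C, t * (y : G) = (y : G) * t := by
    intro y
    exact (Subgroup.mem_centralizer_iff.mp y.2) t rfl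
  have h3 : ¬ 3 ∣ Nat.card C := by
    intro h
    obtain ⟨y, hy⟩ := exists_prime_orderOf_dvd_card' (G := C) 3 h
    have hyo : orderOf (y : G) = 3 := by rw [Subgroup.orderOf_coe]; exact hy
    exact no_comm_inv hG (Or.inl hyo) ht (hcm y)
  have h5 : ¬ 5 ∣ Nat.card C := by
    intro h
    obtain ⟨y, hy⟩ := exists_prime_orderOf_dvd_card' (G := C) 5 h
    have hyo : orderOf (y : G) = 5 := by rw [Subgroup.orderOf_coe]; exact hy
    exact no_comm_inv hG (Or.inr (Or.inl hyo)) ht (hcm y)
  have h17 : ¬ 17 ∣ Nat.card C := by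
    intro h
    obtain ⟨y, hy⟩ := exists_prime_orderOf_dvd_card' (G := C) 17 h
    have hyo : orderOf (y : G) = 17 := by rw [Subgroup.orderOf_coe]; exact hy
    exact no_comm_inv hG (Or.inr (Or.inr hyo)) ht (hcm y)
  have c3 : Nat.Coprime (Nat.card C) 3 :=
    ((Nat.Prime.coprime_iff_not_dvd (by norm_num)).mpr h3).symm
  have c5 : Nat.Coprime (Nat.card C) 5 :=
    ((Nat.Prime.coprime_iff_not_dvd (by norm_num)).mpr h5).symm
  have c17 : Nat.Coprime (Nat.card C) 17 :=
    ((Nat.Prime.coprime_iff_not_dvd (by norm_num)).mpr h17).symm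
  have c255 : Nat.Coprime (Nat.card C) (3 * 5 * 17) := (c3.mul_right c5).mul_right c17
  have e : (4080 : ℕ) = 16 * (3 * 5 * 17) := by norm_num
  rw [e] at hC4080
  exact c255.dvd_of_dvd_mul_right hC4080

omit [IsSimpleGroup G] in
theorem exists_central_inv (hG : Nat.card G = 4080) (S : Sylow 2 G) :
    ∃ z ∈ (S : Subgroup G), orderOf z = 2 ∧ ∀ s ∈ (S : Subgroup G), z * s = s * z := by
  have hS := card_sylow2 hG S
  have hnt : Nontrivial (S : Subgroup G) :=
    Finite.one_lt_card_iff_nontrivial.mp (by rw [hS]; norm_num)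
  have hc := IsPGroup.center_nontrivial S.2
  obtain ⟨z', hz'⟩ := exists_ne (1 : Subgroup.center (S : Subgroup G))
  have hz1 : ((z' : (S : Subgroup G)) : G) ≠ 1 := by
    intro h
    apply hz'
    exact Subtype.ext (Subtype.ext h)
  have hz8 : ((z' : (S : Subgroup G)) : G) ^ 16 = 1 := by
    have h := pow_card_eq_one' (G := (S : Subgroup G)) (x := (z' : (S : Subgroup G)))
    rw [hS] at h
    have := congrArg (fun w : (S : Subgroup G) => (w : G)) h
    simp only [Subgroup.coe_pow, Subgroup.coe_one] at this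
    exact this
  obtain ⟨k, hk⟩ := exists_pow_order2 hz1 hz8
  refine ⟨((z' : (S : Subgroup G)) : G) ^ k, pow_mem (z' : (S : Subgroup G)).2 k, hk,
    fun s hs => ?_⟩
  have h1 : (z' : (S : Subgroup G)) * ⟨s, hs⟩ = ⟨s, hs⟩ * (z' : (S : Subgroup G)) :=
    (Subgroup.mem_center_iff.mp z'.2 ⟨s, hs⟩).symm
  have h2 : ((z' : (S : Subgroup G)) : G) * s = s * ((z' : (S : Subgroup G)) : G) :=
    congrArg Subtype.val h1
  exact ((show Commute ((z' : (S : Subgroup G)) : G) s from h2).pow_left k).eq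

/-- Every 2-element is an involution. -/
theorem sq_eq_one_of_pow16 (hG : Nat.card G = 4080) {v : G} (hv : v ^ 16 = 1) : v ^ 2 = 1 := by
  by_cases hv1 : v = 1
  · rw [hv1, one_pow]
  obtain ⟨S⟩ : Nonempty (Sylow 2 G) := inferInstance
  have hS := card_sylow2 hG S
  obtain ⟨z, hzS, hzo, hzc⟩ := exists_central_inv hG S
  set C := centralizer ({z} : Set G) with hC
  have hSC : (S : Subgroup G) ≤ C := by
    intro s hs
    rw [hC, Subgroup.mem_centralizer_iff]
    intro h hh
    rw [Set.mem_singleton_iff] at hh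
    rw [hh]
    exact hzc s hs
  have h1 : Nat.card C ∣ 16 := card_centralizer_dvd hG hzo
  have h2 : 16 ∣ Nat.card C := hS ▸ Subgroup.card_dvd_of_le hSC
  have hCc : Nat.card C = 16 := Nat.dvd_antisymm h1 h2
  have hidx : C.index = 255 := by
    have := Subgroup.card_mul_index C
    rw [hCc, hG] at this
    omega
  have hcl : (conjugatesOf z).ncard = 255 := by
    rw [← Cfsg.Agent.H70.frob_class_card, hidx]
  have hz2 : z ^ 2 = 1 := by rw [← hzo]; exact pow_orderOf_eq_one z
  have hz1 : z ≠ 1 := by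
    rintro rfl
    rw [orderOf_one] at hzo
    omega
  have hsub : conjugatesOf z ⊆ Lset G 16 := by
    intro w hw
    have hw' : IsConj z w := hw
    rw [isConj_iff] at hw'
    obtain ⟨c, rfl⟩ := hw'
    apply Lset_conj
    refine ⟨hz1, ?_⟩
    calc z ^ 16 = (z ^ 2) ^ 8 := by rw [← pow_mul]
      _ = 1 := by rw [hz2, one_pow]
  have heq : conjugatesOf z = Lset G 16 :=
    Set.eq_of_subset_of_ncard_le hsub (by rw [hcl, card_T16 hG]) (Set.toFinite _)
  have hvT : v ∈ conjugatesOf z := by rw [heq]; exact ⟨hv1, hv⟩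
  have hvT' : IsConj z v := hvT
  rw [isConj_iff] at hvT'
  obtain ⟨c, rfl⟩ := hvT'
  rw [conj_pow, hz2]
  group

theorem sylow2_sq (hG : Nat.card G = 4080) (Q : Sylow 2 G) {a : G} (ha : a ∈ (Q : Subgroup G)) :
    a ^ 2 = 1 := by
  apply sq_eq_one_of_pow16 hG
  have h := pow_card_eq_one' (G := (Q : Subgroup G)) (x := ⟨a, ha⟩)
  rw [card_sylow2 hG Q] at h
  have := congrArg (fun w : (Q : Subgroup G) => (w : G)) h
  simp only [Subgroup.coe_pow, Subgroup.coe_one] at this
  exact this

theorem sylow2_comm (hG : Nat.card G = 4080) (Q : Sylow 2 G) {a b : G}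
    (ha : a ∈ (Q : Subgroup G)) (hb : b ∈ (Q : Subgroup G)) : a * b = b * a := by
  have h1 := sylow2_sq hG Q ha
  have h2 := sylow2_sq hG Q hb
  have h3 := sylow2_sq hG Q (mul_mem ha hb)
  have ha' : a⁻¹ = a := by rw [inv_eq_iff_mul_eq_one, ← sq]; exact h1
  have hb' : b⁻¹ = b := by rw [inv_eq_iff_mul_eq_one, ← sq]; exact h2
  have hab : (a * b)⁻¹ = a * b := by rw [inv_eq_iff_mul_eq_one, ← sq]; exact h3
  calc a * b = (a * b)⁻¹ := hab.symm
    _ = b⁻¹ * a⁻¹ := mul_inv_rev a b
    _ = b * a := by rw [ha', hb']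

/-- A Sylow 2-subgroup is the centraliser of each of its nontrivial elements. -/
theorem sylow2_centralizer (hG : Nat.card G = 4080) (Q : Sylow 2 G) {a : G}
    (ha : a ∈ (Q : Subgroup G)) (ha1 : a ≠ 1) : centralizer ({a} : Set G) = (Q : Subgroup G) := by
  have hao : orderOf a = 2 := orderOf_eq_prime (sylow2_sq hG Q ha) ha1
  have hQC : (Q : Subgroup G) ≤ centralizer ({a} : Set G) := by
    intro s hs
    rw [Subgroup.mem_centralizer_iff]
    intro h hh
    rw [Set.mem_singleton_iff] at hh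
    rw [hh]
    exact sylow2_comm hG Q ha hs
  have h1 : Nat.card (centralizer ({a} : Set G)) ∣ 16 := card_centralizer_dvd hG hao
  have h2 : Nat.card (centralizer ({a} : Set G)) ≤ 16 := Nat.le_of_dvd (by norm_num) h1
  exact (Subgroup.eq_of_le_of_card_ge hQC (by rw [card_sylow2 hG Q]; exact h2)).symm

/-- Distinct Sylow 2-subgroups intersect trivially. -/
theorem sylow2_inter (hG : Nat.card G = 4080) (Q Q' : Sylow 2 G) (hne : Q ≠ Q') {a : G}
    (ha : a ∈ (Q : Subgroup G)) (ha' : a ∈ (Q' : Subgroup G)) : a = 1 := by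
  by_contra ha1
  apply hne
  apply Sylow.ext
  rw [← sylow2_centralizer hG Q ha ha1, ← sylow2_centralizer hG Q' ha' ha1]

/-- There are exactly seventeen Sylow 2-subgroups. -/
theorem card_sylow2_eq (hG : Nat.card G = 4080) : Nat.card (Sylow 2 G) = 17 := by
  obtain ⟨S⟩ : Nonempty (Sylow 2 G) := inferInstance
  have hS := card_sylow2 hG S
  have h1 := card_sylow_sub_one_dvd S (fun Q hQ x hx hx' => sylow2_inter hG S Q (Ne.symm hQ) hx hx')
  rw [hS] at h1
  have hidx : (S : Subgroup G).index = 255 := by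
    have := Subgroup.card_mul_index (S : Subgroup G)
    rw [hS, hG] at this
    omega
  have h2 : Nat.card (Sylow 2 G) ∣ 255 := hidx ▸ S.card_dvd_index
  have h3 : Nat.card (Sylow 2 G) ≠ 1 := by
    intro h
    have hsub : Subsingleton (Sylow 2 G) := (Nat.card_eq_one_iff_unique.mp h).1
    have hn : (S : Subgroup G).Normal := S.normal_of_subsingleton
    rcases simple_normal_card (S : Subgroup G) with h1 | h1 <;> omega
  have hle : Nat.card (Sylow 2 G) ≤ 255 := Nat.le_of_dvd (by norm_num) h2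
  have key : ∀ n ≤ 255, (n ∣ 255 ∧ 16 ∣ n - 1 ∧ n ≠ 1) → n = 17 := by decide +kernel
  exact key _ hle ⟨h2, h1, h3⟩

end Cfsg.Agent.H51.PSL16
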