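import Mathlib
import Cfsg.Agent.H51.PSL8Inv
import Cfsg.Agent.H70.Frob

/-! The 2-elements of a simple group of order 504: the Sylow 2-subgroups are elementary abelian,
self-centralising at each nontrivial element, and there are nine of them (helper51). -/

set_option autoImplicit false

namespace Cfsg.Agent.H51.PSL8

open Subgroup PSL9

/-- The nontrivial 2-elements of a group of order 504. -/
def Tset (G : Type*) [Group G] : Set G := {v | v ≠ 1 ∧ v ^ 8 = 1}

theorem exists_pow_order2 {G : Type*} [Group G] {v : G} (hv1 : v ≠ 1) (hv : v ^ 8 = 1) :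
    ∃ k : ℕ, orderOf (v ^ k) = 2 := by
  by_cases h2 : v ^ 2 = 1
  · exact ⟨1, by rw [pow_one]; exact orderOf_eq_prime h2 hv1⟩
  · by_cases h4 : v ^ 4 = 1
    · exact ⟨2, orderOf_eq_prime (by rw [← pow_mul]; exact h4) h2⟩
    · exact ⟨4, orderOf_eq_prime (by rw [← pow_mul]; exact hv) h4⟩

theorem Tset_conj {G : Type*} [Group G] (x v : G) (hv : v ∈ Tset G) : x * v * x⁻¹ ∈ Tset G := by
  obtain ⟨h1, h8⟩ := hv
  refine ⟨fun h => h1 (conj_eq_one_iff.mp h), ?_⟩
  rw [conj_pow, h8]
  group

variable {G : Type*} [Group G] [Finite G] [IsSimpleGroup G]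

theorem free7 (hG : Nat.card G = 504) [Fact (Nat.Prime 7)] (P : Sylow 7 G) {x v : G}
    (hx : x ∈ (P : Subgroup G)) (hv : v ∈ Tset G) (h : x * v * x⁻¹ = v) : x = 1 := by
  by_contra hx1
  have hx7 : x ^ 7 = 1 := by
    have h := pow_card_eq_one' (G := (P : Subgroup G)) (x := ⟨x, hx⟩)
    rw [card_sylow7 hG P] at h
    have := congrArg (fun z : (P : Subgroup G) => (z : G)) h
    simp only [Subgroup.coe_pow, Subgroup.coe_one] at this
    exact this
  have hxo : orderOf x = 7 := orderOf_eq_prime hx7 hx1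
  obtain ⟨k, hk⟩ := exists_pow_order2 hv.1 hv.2
  have hc : x * v = v * x := by
    calc x * v = (x * v * x⁻¹) * x := by group
      _ = v * x := by rw [h]
  exact no_comm_seven hG hxo hk ((show Commute x v from hc).pow_right k).eq.symm

theorem free3 (hG : Nat.card G = 504) (P : Sylow 3 G) {x v : G}
    (hx : x ∈ (P : Subgroup G)) (hv : v ∈ Tset G) (h : x * v * x⁻¹ = v) : x = 1 := by
  by_contra hx1
  have hx9 : x ^ 9 = 1 := by
    have h := pow_card_eq_one' (G := (P : Subgroup G)) (x := ⟨x, hx⟩)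
    rw [card_sylow3' hG P] at h
    have := congrArg (fun z : (P : Subgroup G) => (z : G)) h
    simp only [Subgroup.coe_pow, Subgroup.coe_one] at this
    exact this
  obtain ⟨k, hk⟩ := exists_pow_order2 hv.1 hv.2
  have hc : x * v = v * x := by
    calc x * v = (x * v * x⁻¹) * x := by group
      _ = v * x := by rw [h]
  have hc' : Commute x (v ^ k) := (show Commute x v from hc).pow_right k
  by_cases h3 : x ^ 3 = 1
  · exact no_comm_three hG (orderOf_eq_prime h3 hx1) hk hc'.eq.symm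
  · have hy : orderOf (x ^ 3) = 3 := orderOf_eq_prime (by rw [← pow_mul]; exact hx9) h3
    exact no_comm_three hG hy hk (hc'.pow_left 3).eq.symm

/-- There are exactly 63 nontrivial 2-elements. -/
theorem card_Tset (hG : Nat.card G = 504) : (Tset G).ncard = 63 := by
  have : Fact (Nat.Prime 7) := ⟨by norm_num⟩
  obtain ⟨P7⟩ : Nonempty (Sylow 7 G) := inferInstance
  obtain ⟨P3⟩ : Nonempty (Sylow 3 G) := inferInstance
  have h7 : 7 ∣ (Tset G).ncard := by
    have := card_dvd_of_free (P7 : Subgroup G) (Tset G) (fun x _ v hv => Tset_conj x v hv)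
      (fun x hx v hv h => free7 hG P7 hx hv h)
    rwa [card_sylow7 hG P7, Nat.card_coe_set_eq] at this
  have h9 : 9 ∣ (Tset G).ncard := by
    have := card_dvd_of_free (P3 : Subgroup G) (Tset G) (fun x _ v hv => Tset_conj x v hv)
      (fun x hx v hv h => free3 hG P3 hx hv h)
    rwa [card_sylow3' hG P3, Nat.card_coe_set_eq] at this
  have h8 := Cfsg.Agent.H70.frobenius_dvd (G := G) 8 (by rw [hG]; norm_num)
  have e1 : Nat.card {g : G // g ^ 8 = 1} = ({g : G | g ^ 8 = 1}).ncard :=
    Nat.card_coe_set_eq _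
  have e2 : {g : G | g ^ 8 = 1} = insert 1 (Tset G) := by
    ext g
    simp only [Set.mem_ofPred_eq, Set.mem_insert_iff, Tset]
    constructor
    · intro h
      by_cases hg : g = 1
      · exact Or.inl hg
      · exact Or.inr ⟨hg, h⟩
    · rintro (rfl | ⟨-, h⟩)
      · exact one_pow _
      · exact h
  have e3 : (insert 1 (Tset G)).ncard = (Tset G).ncard + 1 :=
    Set.ncard_insert_of_notMem (fun h => h.1 rfl) (Set.toFinite _)
  have e4 : (insert 1 (Tset G)).ncard ≤ Nat.card G := Set.ncard_le_card _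
  rw [e1, e2, e3] at h8
  rw [e3, hG] at e4
  omega

/-- The centraliser of an involution is a 2-group. -/
theorem card_centralizer_dvd (hG : Nat.card G = 504) {t : G} (ht : orderOf t = 2) :
    Nat.card (centralizer ({t} : Set G)) ∣ 8 := by
  have : Fact (Nat.Prime 7) := ⟨by norm_num⟩
  set C := centralizer ({t} : Set G) with hC
  have hC504 : Nat.card C ∣ 504 := hG ▸ Subgroup.card_subgroup_dvd_card C
  have hcm : ∀ y : C, t * (y : G) = (y : G) * t := by
    intro y
    exact (Subgroup.mem_centralizer_iff.mp y.2) t rfl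
  have h3 : ¬ 3 ∣ Nat.card C := by
    intro h
    obtain ⟨y, hy⟩ := exists_prime_orderOf_dvd_card' (G := C) 3 h
    have hyo : orderOf (y : G) = 3 := by rw [Subgroup.orderOf_coe]; exact hy
    exact no_comm_three hG hyo ht (hcm y)
  have h7 : ¬ 7 ∣ Nat.card C := by
    intro h
    obtain ⟨y, hy⟩ := exists_prime_orderOf_dvd_card' (G := C) 7 h
    have hyo : orderOf (y : G) = 7 := by rw [Subgroup.orderOf_coe]; exact hy
    exact no_comm_seven hG hyo ht (hcm y)
  have hle : Nat.card C ≤ 504 := Nat.le_of_dvd (by norm_num) hC504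
  have key : ∀ n ≤ 504, (n ∣ 504 ∧ ¬ 3 ∣ n ∧ ¬ 7 ∣ n) → n ∣ 8 := by decide +kernel
  exact key _ hle ⟨hC504, h3, h7⟩

omit [IsSimpleGroup G] in
theorem exists_central_inv (hG : Nat.card G = 504) (S : Sylow 2 G) :
    ∃ z ∈ (S : Subgroup G), orderOf z = 2 ∧ ∀ s ∈ (S : Subgroup G), z * s = s * z := by
  have hS := card_sylow2 hG S
  have hnt : Nontrivial (S : Subgroup G) :=
    Finite.one_lt_card_iff_nontrivial.mp (by rw [hS]; norm_num)
  have hc := IsPGroup.center_nontrivial S.2
  obtain ⟨z', hz'⟩ := exists_ne (1 : Subgroup.center (S : Subgroup G))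
  have hz1 : ((z' : (S : Subgroup G)) : G) ≠ 1 := by
    intro h
    apply hz'
    exact Subtype.ext (Subtype.ext h)
  have hz8 : ((z' : (S : Subgroup G)) : G) ^ 8 = 1 := by
    have h := pow_card_eq_one' (G := (S : Subgroup G)) (x := (z' : (S : Subgroup G)))
    rw [hS] at h
    have := congrArg (fun w : (S : Subgroup G) => (w : G)) h
    simp only [Subgroup.coe_pow, Subgroup.coe_one] at this
    exact this
  obtain ⟨k, hk⟩ := exists_pow_order2 hz1 hz8
  refine ⟨((z' : (S : Subgroup G)) : G) ^ k, pow_mem (z' : (S : Subgroup G)).2 k, hk,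
    fun s hs => ?_⟩
  have h1 : (z' : (S : Subgroup G)) * ⟨s, hs⟩ = ⟨s, hs⟩ * (z' : (S : Subgroup G)) :=
    (Subgroup.mem_center_iff.mp z'.2 ⟨s, hs⟩).symm
  have h2 : ((z' : (S : Subgroup G)) : G) * s = s * ((z' : (S : Subgroup G)) : G) :=
    congrArg Subtype.val h1
  exact ((show Commute ((z' : (S : Subgroup G)) : G) s from h2).pow_left k).eq

/-- Every 2-element is an involution. -/
theorem sq_eq_one_of_pow8 (hG : Nat.card G = 504) {v : G} (hv : v ^ 8 = 1) : v ^ 2 = 1 := by
  by_cases hv1 : v = 1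
  · rw [hv1, one_pow]
  obtain ⟨S⟩ : Nonempty (Sylow 2 G) := inferInstance
  have hS := card_sylow2 hG S
  obtain ⟨z, hzS, hzo, hzc⟩ := exists_central_inv hG S
  set C := centralizer ({z} : Set G) with hC
  have hSC : (S : Subgroup G) ≤ C := by
    intro s hs
    rw [hC, Subgroup.mem_centralizer_iff]
    intro h hh
    rw [Set.mem_singleton_iff] at hh
    rw [hh]
    exact hzc s hs
  have h1 : Nat.card C ∣ 8 := card_centralizer_dvd hG hzo
  have h2 : 8 ∣ Nat.card C := hS ▸ Subgroup.card_dvd_of_le hSC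
  have hCc : Nat.card C = 8 := Nat.dvd_antisymm h1 h2
  have hidx : C.index = 63 := by
    have := Subgroup.card_mul_index C
    rw [hCc, hG] at this
    omega
  have hcl : (conjugatesOf z).ncard = 63 := by
    rw [← Cfsg.Agent.H70.frob_class_card, hidx]
  have hz2 : z ^ 2 = 1 := by rw [← hzo]; exact pow_orderOf_eq_one z
  have hz1 : z ≠ 1 := by
    rintro rfl
    rw [orderOf_one] at hzo
    omega
  have hsub : conjugatesOf z ⊆ Tset G := by
    intro w hw
    have hw' : IsConj z w := hw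
    rw [isConj_iff] at hw'
    obtain ⟨c, rfl⟩ := hw'
    apply Tset_conj
    refine ⟨hz1, ?_⟩
    calc z ^ 8 = (z ^ 2) ^ 4 := by rw [← pow_mul]
      _ = 1 := by rw [hz2, one_pow]
  have heq : conjugatesOf z = Tset G :=
    Set.eq_of_subset_of_ncard_le hsub (by rw [hcl, card_Tset hG]) (Set.toFinite _)
  have hvT : v ∈ conjugatesOf z := by rw [heq]; exact ⟨hv1, hv⟩
  have hvT' : IsConj z v := hvT
  rw [isConj_iff] at hvT'
  obtain ⟨c, rfl⟩ := hvT'
  rw [conj_pow, hz2]
  group

theorem sylow2_sq (hG : Nat.card G = 504) (Q : Sylow 2 G) {a : G} (ha : a ∈ (Q : Subgroup G)) :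
    a ^ 2 = 1 := by
  apply sq_eq_one_of_pow8 hG
  have h := pow_card_eq_one' (G := (Q : Subgroup G)) (x := ⟨a, ha⟩)
  rw [card_sylow2 hG Q] at h
  have := congrArg (fun w : (Q : Subgroup G) => (w : G)) h
  simp only [Subgroup.coe_pow, Subgroup.coe_one] at this
  exact this

theorem sylow2_comm (hG : Nat.card G = 504) (Q : Sylow 2 G) {a b : G}
    (ha : a ∈ (Q : Subgroup G)) (hb : b ∈ (Q : Subgroup G)) : a * b = b * a := by
  have h1 := sylow2_sq hG Q ha
  have h2 := sylow2_sq hG Q hb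
  have h3 := sylow2_sq hG Q (mul_mem ha hb)
  have ha' : a⁻¹ = a := by rw [inv_eq_iff_mul_eq_one, ← sq]; exact h1
  have hb' : b⁻¹ = b := by rw [inv_eq_iff_mul_eq_one, ← sq]; exact h2
  have hab : (a * b)⁻¹ = a * b := by rw [inv_eq_iff_mul_eq_one, ← sq]; exact h3
  calc a * b = (a * b)⁻¹ := hab.symm
    _ = b⁻¹ * a⁻¹ := mul_inv_rev a b
    _ = b * a := by rw [ha', hb']

/-- A Sylow 2-subgroup is the centraliser of each of its nontrivial elements. -/
theorem sylow2_centralizer (hG : Nat.card G = 504) (Q : Sylow 2 G) {a : G}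
    (ha : a ∈ (Q : Subgroup G)) (ha1 : a ≠ 1) : centralizer ({a} : Set G) = (Q : Subgroup G) := by
  have hao : orderOf a = 2 := orderOf_eq_prime (sylow2_sq hG Q ha) ha1
  have hQC : (Q : Subgroup G) ≤ centralizer ({a} : Set G) := by
    intro s hs
    rw [Subgroup.mem_centralizer_iff]
    intro h hh
    rw [Set.mem_singleton_iff] at hh
    rw [hh]
    exact sylow2_comm hG Q ha hs
  have h1 : Nat.card (centralizer ({a} : Set G)) ∣ 8 := card_centralizer_dvd hG hao
  have h2 : Nat.card (centralizer ({a} : Set G)) ≤ 8 := Nat.le_of_dvd (by norm_num) h1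
  exact (Subgroup.eq_of_le_of_card_ge hQC (by rw [card_sylow2 hG Q]; exact h2)).symm

/-- Distinct Sylow 2-subgroups intersect trivially. -/
theorem sylow2_inter (hG : Nat.card G = 504) (Q Q' : Sylow 2 G) (hne : Q ≠ Q') {a : G}
    (ha : a ∈ (Q : Subgroup G)) (ha' : a ∈ (Q' : Subgroup G)) : a = 1 := by
  by_contra ha1
  apply hne
  apply Sylow.ext
  rw [← sylow2_centralizer hG Q ha ha1, ← sylow2_centralizer hG Q' ha' ha1]

/-- There are exactly nine Sylow 2-subgroups. -/
theorem card_sylow2_eq (hG : Nat.card G = 504) : Nat.card (Sylow 2 G) = 9 := by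
  obtain ⟨S⟩ : Nonempty (Sylow 2 G) := inferInstance
  have hS := card_sylow2 hG S
  set N := normalizer ((S : Subgroup G) : Set G) with hN
  have hn : Nat.card (Sylow 2 G) = N.index := S.card_eq_index_normalizer
  have hNc := Subgroup.card_mul_index N
  rw [hG] at hNc
  have hNtop : N ≠ ⊤ := normalizer_ne_top hG _ (by rw [hS]; norm_num) (by rw [hS]; norm_num)
  have hNi := index_ge_eight hG N hNtop
  have h8N : 8 ∣ Nat.card N := hS ▸ Subgroup.card_dvd_of_le le_normalizer
  obtain ⟨k, hk⟩ := h8N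
  rw [hk] at hNc
  have h63 : k * N.index = 63 := by nlinarith
  have hkle : k ≤ 63 := Nat.le_of_dvd (by norm_num) ⟨_, h63.symm⟩
  have hile : N.index ≤ 63 := Nat.le_of_dvd (by norm_num) ⟨k, by rw [← h63]; ring⟩
  have key : ∀ i ≤ 63, (i ∣ 63 ∧ 8 ≤ i) → i = 9 ∨ i = 21 ∨ i = 63 := by decide
  have key2 : (k = 7 ∧ N.index = 9) ∨ (k = 3 ∧ N.index = 21) ∨ (k = 1 ∧ N.index = 63) := by
    rcases key _ hile ⟨⟨k, by rw [← h63]; ring⟩, hNi⟩ with h | h | h
    · rw [h] at h63; exact Or.inl ⟨by omega, h⟩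
    · rw [h] at h63; exact Or.inr (Or.inl ⟨by omega, h⟩)
    · rw [h] at h63; exact Or.inr (Or.inr ⟨by omega, h⟩)
  rcases key2 with ⟨h1, h2⟩ | ⟨h1, h2⟩ | ⟨h1, h2⟩
  · rw [hn, h2]
  · exfalso
    have hNcard : Nat.card N = 24 := by rw [hk, h1]
    obtain ⟨y, hy⟩ := exists_prime_orderOf_dvd_card' (G := N) 3 (by rw [hNcard]; norm_num)
    have hyo : orderOf (y : G) = 3 := by rw [Subgroup.orderOf_coe]; exact hy
    have hzp : IsPGroup 3 (zpowers (y : G)) :=
      IsPGroup.of_card (n := 1) (by rw [Nat.card_zpowers, hyo]; norm_num)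
    have hTc : Nat.card ((((S : Subgroup G) : Set G) \ {1} : Set G)) = 7 := by
      rw [Nat.card_coe_set_eq, Set.ncard_sdiff_singleton_of_mem (S : Subgroup G).one_mem,
        ← Nat.card_coe_set_eq]
      have : Nat.card ((S : Subgroup G) : Set G) = 8 := hS
      rw [this]
    have hstab : ∀ x ∈ zpowers (y : G), ∀ v ∈ (((S : Subgroup G) : Set G) \ {1} : Set G),
        x * v * x⁻¹ ∈ (((S : Subgroup G) : Set G) \ {1} : Set G) := by
      rintro x hx v ⟨hv, hv1⟩
      have hxN : x ∈ N := (zpowers_le.mpr y.2) hx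
      exact ⟨(Subgroup.mem_normalizer_iff.mp hxN v).mp hv, fun h => hv1 (conj_eq_one_iff.mp h)⟩
    obtain ⟨v, ⟨hvS, hv1⟩, hfix⟩ := exists_fixed_of_not_dvd 3 (zpowers (y : G)) hzp _ hstab
      (by rw [hTc]; norm_num)
    have h1 := hfix y (mem_zpowers _)
    have hvo : orderOf v = 2 := orderOf_eq_prime (sylow2_sq hG S hvS) (fun h => hv1 h)
    refine no_comm_three hG hyo hvo ?_
    calc v * (y : G) = ((y : G) * v * (y : G)⁻¹) * y := by rw [h1]
      _ = y * v := by group
  · exfalso
    have hNcard : Nat.card N = 8 := by rw [hk, h1]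
    have hNS : N = S := (Subgroup.eq_of_le_of_card_ge le_normalizer (by rw [hNcard, hS])).symm
    have hP : N ≤ centralizer ((S : Subgroup G) : Set G) := by
      rw [hNS]
      intro x hx y hy
      exact sylow2_comm hG S hy hx
    have hcompl := MonoidHom.ker_transferSylow_isComplement' S hP
    have hmul := hcompl.card_mul_card
    rw [hS, hG] at hmul
    rcases simple_normal_card (MonoidHom.transferSylow S hP).ker with h1 | h1 <;> omega

end Cfsg.Agent.H51.PSL8
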