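import Mathlib
import Cfsg.Agent.H51.PSL8Two

/-! The action of a simple group of order 504 on its nine Sylow 2-subgroups: a Sylow 2-subgroup is
regular on the other eight, the two-point stabiliser contains an element of order 7, and this
element acts on the Sylow 2-subgroup as a Singer cycle (helper51). -/

set_option autoImplicit false

namespace Cfsg.Agent.H51.PSL8

open Subgroup PSL9

variable {G : Type*} [Group G] [Finite G] [IsSimpleGroup G]

/-- A nontrivial element of a Sylow 2-subgroup normalises no other Sylow 2-subgroup. -/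
theorem sylow2_free (hG : Nat.card G = 504) (Q Q' : Sylow 2 G) (hne : Q' ≠ Q) {q : G}
    (hq : q ∈ (Q : Subgroup G)) (hfix : q • Q' = Q') : q = 1 := by
  have hN : q ∈ normalizer ((Q' : Subgroup G) : Set G) := Sylow.smul_eq_iff_mem_normalizer.mp hfix
  have h1 := IsPGroup.inf_normalizer_sylow Q.2 Q'
  have h2 : q ∈ (Q : Subgroup G) ⊓ (Q' : Subgroup G) := by
    rw [← h1]; exact ⟨hq, hN⟩
  exact sylow2_inter hG Q Q' (Ne.symm hne) h2.1 h2.2

omit [Finite G] [IsSimpleGroup G] in
theorem smul_self_of_mem2 (Q : Sylow 2 G) {q : G} (hq : q ∈ (Q : Subgroup G)) : q • Q = Q :=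
  Sylow.smul_eq_iff_mem_normalizer.mpr (le_normalizer hq)

/-- The action on the Sylow 2-subgroups is faithful. -/
theorem eq_one_of_forall_smul2 (hG : Nat.card G = 504) {g : G}
    (h : ∀ Q' : Sylow 2 G, g • Q' = Q') : g = 1 := by
  have hker : (MulAction.toPermHom G (Sylow 2 G)).ker = ⊥ := by
    rcases (MonoidHom.normal_ker (MulAction.toPermHom G (Sylow 2 G))).eq_bot_or_eq_top with h1 | h1
    · exact h1
    · exfalso
      have h10 := card_sylow2_eq hG
      obtain ⟨Q⟩ : Nonempty (Sylow 2 G) := inferInstance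
      have hall : ∀ Q' : Sylow 2 G, Q' = Q := by
        intro Q'
        obtain ⟨x, hx⟩ := MulAction.exists_smul_eq G Q Q'
        have hxk : x ∈ (MulAction.toPermHom G (Sylow 2 G)).ker := h1 ▸ Subgroup.mem_top x
        rw [MonoidHom.mem_ker] at hxk
        have h2 := congrArg (fun f : Equiv.Perm (Sylow 2 G) => f Q) hxk
        have h3 : x • Q = Q := h2
        rw [← hx, h3]
      have hsub : Subsingleton (Sylow 2 G) := ⟨fun a b => (hall a).trans (hall b).symm⟩
      have := Finite.card_le_one_iff_subsingleton.mpr hsub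
      omega
  have hg : g ∈ (MulAction.toPermHom G (Sylow 2 G)).ker := by
    rw [MonoidHom.mem_ker]
    refine Equiv.ext fun Q' => ?_
    exact h Q'
  rw [hker] at hg
  exact Subgroup.mem_bot.mp hg

/-- A Sylow 2-subgroup is transitive on the other eight. -/
theorem exists_smul_of_ne2 (hG : Nat.card G = 504) (Q Q0 : Sylow 2 G) (hne : Q0 ≠ Q)
    (Q' : Sylow 2 G) (hQ' : Q' ≠ Q) : ∃ q ∈ (Q : Subgroup G), q • Q0 = Q' := by
  let e : Option (Q : Subgroup G) → Sylow 2 G := fun x =>
    match x with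
    | none => Q
    | some q => (q : G) • Q0
  have he_inj : Function.Injective e := by
    rintro (_ | i) (_ | j) h
    · rfl
    · exfalso; apply hne
      have h' : Q = (j : G) • Q0 := h
      have h2 : Q0 = (j : G)⁻¹ • Q := eq_inv_smul_iff.mpr h'.symm
      exact h2.trans (inv_smul_eq_iff.mpr (smul_self_of_mem2 Q j.2).symm)
    · exfalso; apply hne
      have h' : (i : G) • Q0 = Q := h
      have h2 : Q0 = (i : G)⁻¹ • Q := eq_inv_smul_iff.mpr h'
      exact h2.trans (inv_smul_eq_iff.mpr (smul_self_of_mem2 Q i.2).symm)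
    · have h' : (i : G) • Q0 = (j : G) • Q0 := h
      have h1 : ((j : G)⁻¹ * i) • Q0 = Q0 := by rw [mul_smul, h', inv_smul_smul]
      have h2 := sylow2_free hG Q Q0 hne (mul_mem (inv_mem j.2) i.2) h1
      have h3 : (i : G) = j := by
        rw [inv_mul_eq_one] at h2; exact h2.symm
      exact congrArg some (Subtype.ext h3)
  have hcard : Nat.card (Option (Q : Subgroup G)) = Nat.card (Sylow 2 G) := by
    rw [card_sylow2_eq hG, Finite.card_option, card_sylow2 hG Q]
  have he_bij := (Nat.bijective_iff_injective_and_card e).mpr ⟨he_inj, hcard⟩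
  obtain ⟨x, hx⟩ := he_bij.2 Q'
  rcases x with _ | q
  · exact absurd hx.symm hQ'
  · exact ⟨q, q.2, hx⟩

/-- The two-point stabiliser contains an element of order seven. -/
theorem exists_order7 (hG : Nat.card G = 504) (Q Q0 : Sylow 2 G) (hne : Q0 ≠ Q) :
    ∃ g : G, g • Q = Q ∧ g • Q0 = Q0 ∧ orderOf g = 7 := by
  have : Fact (Nat.Prime 7) := ⟨by norm_num⟩
  set N : Subgroup G := MulAction.stabilizer G Q with hN
  have hNc : Nat.card N = 56 := by
    have h1 := MulAction.index_stabilizer_of_transitive G Q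
    have h2 := Subgroup.card_mul_index N
    rw [h1, card_sylow2_eq hG, hG] at h2
    omega
  set T : Subgroup N := MulAction.stabilizer N Q0 with hT
  have hTc : Nat.card T = 7 := by
    have h1 := MulAction.index_stabilizer N Q0
    have h2 := Subgroup.card_mul_index T
    have h3 : MulAction.orbit N Q0 = {Q}ᶜ := by
      ext Q'
      constructor
      · rintro ⟨n, rfl⟩ hQ
        apply hne
        have hn : (n : G) • Q = Q := n.2
        have h' : (n : G) • Q0 = Q := hQ
        have h2 : Q0 = (n : G)⁻¹ • Q := eq_inv_smul_iff.mpr h'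
        exact h2.trans (inv_smul_eq_iff.mpr hn.symm)
      · intro hQ'
        obtain ⟨q, hq, rfl⟩ := exists_smul_of_ne2 hG Q Q0 hne Q' hQ'
        exact ⟨⟨q, smul_self_of_mem2 Q hq⟩, rfl⟩
    rw [h1, h3, Set.ncard_compl, Set.ncard_singleton, card_sylow2_eq hG, hNc] at h2
    omega
  obtain ⟨s, hs⟩ := exists_prime_orderOf_dvd_card' (G := T) 7 (by rw [hTc])
  refine ⟨((s : N) : G), (s : N).2, s.2, ?_⟩
  rw [Subgroup.orderOf_coe, Subgroup.orderOf_coe]
  exact hs

omit [Finite G] [IsSimpleGroup G] in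
theorem comm_of_conj_eq {x y a : G} (h : x * a * x⁻¹ = x * y * a * (x * y)⁻¹) : y * a = a * y := by
  have h1 : a = y * a * y⁻¹ := by
    calc a = x⁻¹ * (x * a * x⁻¹) * x := by group
      _ = x⁻¹ * (x * y * a * (x * y)⁻¹) * x := by rw [h]
      _ = y * a * y⁻¹ := by group
  calc y * a = (y * a * y⁻¹) * y := by group
    _ = a * y := by rw [← h1]

/-- The conjugates of an involution under the powers of an element of order 7 are distinct. -/
theorem conj_inj (hG : Nat.card G = 504) {g a : G} (hg : orderOf g = 7) (ha : orderOf a = 2)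
    {i j : ℕ} (hij : i ≤ j) (h : g ^ i * a * (g ^ i)⁻¹ = g ^ j * a * (g ^ j)⁻¹) : 7 ∣ j - i := by
  have : Fact (Nat.Prime 7) := ⟨by norm_num⟩
  obtain ⟨d, rfl⟩ := Nat.exists_eq_add_of_le hij
  have hd : i + d - i = d := by omega
  rw [hd]
  rw [pow_add] at h
  have hc : g ^ d * a = a * g ^ d := comm_of_conj_eq h
  by_contra hnd
  have hgd1 : g ^ d ≠ 1 := by
    intro h1
    exact hnd (hg ▸ orderOf_dvd_of_pow_eq_one h1)
  have hgd7 : (g ^ d) ^ 7 = 1 := by
    rw [← pow_mul, mul_comm, pow_mul, ← hg, pow_orderOf_eq_one, one_pow]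
  have hgdo : orderOf (g ^ d) = 7 := orderOf_eq_prime hgd7 hgd1
  exact no_comm_seven hG hgdo ha hc.symm

omit [IsSimpleGroup G] in
theorem card_sylow2_diff (hG : Nat.card G = 504) (Q : Sylow 2 G) :
    Nat.card ((((Q : Subgroup G) : Set G) \ {1} : Set G)) = 7 := by
  rw [Nat.card_coe_set_eq, Set.ncard_sdiff_singleton_of_mem (Q : Subgroup G).one_mem,
    ← Nat.card_coe_set_eq]
  have : Nat.card ((Q : Subgroup G) : Set G) = 8 := card_sylow2 hG Q
  rw [this]

/-- The element of order 7, or its inverse, acts on the Sylow 2-subgroup as multiplication by a root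
of `X³ + X + 1`. -/
theorem exists_fano (hG : Nat.card G = 504) (Q : Sylow 2 G) {g a : G} (hgQ : g • Q = Q)
    (hg : orderOf g = 7) (haQ : a ∈ (Q : Subgroup G)) (ha1 : a ≠ 1) :
    g ^ 3 * a * (g ^ 3)⁻¹ = a * (g * a * g⁻¹) ∨
      g⁻¹ ^ 3 * a * (g⁻¹ ^ 3)⁻¹ = a * (g⁻¹ * a * g⁻¹⁻¹) := by
  have hao : orderOf a = 2 := orderOf_eq_prime (sylow2_sq hG Q haQ) ha1
  have hg7 : g ^ 7 = 1 := by rw [← hg]; exact pow_orderOf_eq_one g
  have hgN : g ∈ normalizer ((Q : Subgroup G) : Set G) := Sylow.smul_eq_iff_mem_normalizer.mp hgQ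
  obtain ⟨c, hc_def⟩ : ∃ c : ℕ → G, ∀ i, c i = g ^ i * a * (g ^ i)⁻¹ := ⟨_, fun i => rfl⟩
  have hcQ : ∀ i, c i ∈ (Q : Subgroup G) := by
    intro i
    have : g ^ i ∈ normalizer ((Q : Subgroup G) : Set G) := pow_mem hgN i
    rw [hc_def]
    exact (Subgroup.mem_normalizer_iff.mp this a).mp haQ
  have hc1 : ∀ i, c i ≠ 1 := fun i h => ha1 (conj_eq_one_iff.mp ((hc_def i).symm.trans h))
  have hcsq : ∀ i, c i * c i = 1 := by
    intro i
    rw [← sq]
    exact sylow2_sq hG Q (hcQ i)
  have hcinv : ∀ i, (c i)⁻¹ = c i := fun i => inv_eq_of_mul_eq_one_right (hcsq i)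
  have hcomm : ∀ i j, c i * c j = c j * c i := fun i j => sylow2_comm hG Q (hcQ i) (hcQ j)
  have hper : ∀ i, c (i + 7) = c i := by
    intro i
    rw [hc_def, hc_def, pow_add, hg7, mul_one]
  have hinj : ∀ i j, i ≤ j → c i = c j → 7 ∣ j - i := by
    intro i j hij h
    rw [hc_def, hc_def] at h
    exact conj_inj hG hg hao hij h
  have hshiftc : ∀ i j, g ^ i * c j * (g ^ i)⁻¹ = c (i + j) := by
    intro i j
    rw [hc_def, hc_def, pow_add]
    group
  have hsurj : ∀ b ∈ (Q : Subgroup G), b ≠ 1 → ∃ k < 7, b = c k := by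
    intro b hb hb1
    let f : Fin 7 → ((((Q : Subgroup G) : Set G) \ {1} : Set G)) := fun i => ⟨c i, hcQ i, hc1 i⟩
    have hf : Function.Injective f := by
      intro i j hij
      have h : c i = c j := congrArg Subtype.val hij
      rcases le_total (i : ℕ) (j : ℕ) with hle | hle
      · have := hinj _ _ hle h
        apply Fin.ext; omega
      · have := hinj _ _ hle h.symm
        apply Fin.ext; omega
    have hcard : Nat.card (Fin 7) = Nat.card ((((Q : Subgroup G) : Set G) \ {1} : Set G)) := by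
      rw [Nat.card_fin, card_sylow2_diff hG Q]
    have hbij := (Nat.bijective_iff_injective_and_card f).mpr ⟨hf, hcard⟩
    obtain ⟨k, hk⟩ := hbij.2 ⟨b, hb, hb1⟩
    exact ⟨k, k.2, (congrArg Subtype.val hk).symm⟩
  have h01 : c 0 * c 1 ≠ 1 := by
    intro h
    have h2 : c 0 = c 1 := by
      have := eq_inv_of_mul_eq_one_left h
      rw [hcinv] at this
      exact this
    have := hinj 0 1 (by norm_num) h2
    omega
  obtain ⟨k, hk, hk01⟩ := hsurj _ (mul_mem (hcQ 0) (hcQ 1)) h01
  have hshift : ∀ i, c i * c (i + 1) = c (i + k) := by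
    intro i
    have e0 : g ^ i * c 0 * (g ^ i)⁻¹ = c i := hshiftc i 0
    calc c i * c (i + 1) = (g ^ i * c 0 * (g ^ i)⁻¹) * (g ^ i * c 1 * (g ^ i)⁻¹) := by
          rw [e0, hshiftc i 1]
      _ = g ^ i * (c 0 * c 1) * (g ^ i)⁻¹ := by group
      _ = g ^ i * c k * (g ^ i)⁻¹ := by rw [hk01]
      _ = c (i + k) := hshiftc i k
  have e0 : c 0 = a := by rw [hc_def]; simp
  have e1 : c 1 = g * a * g⁻¹ := by rw [hc_def]; simp
  interval_cases k
  · exfalso
    exact hc1 1 (mul_left_cancel (hk01.trans (mul_one _).symm))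
  · exfalso
    exact hc1 0 (mul_right_cancel (hk01.trans (one_mul _).symm))
  · exfalso
    have h1 : c 1 * c 2 = c 3 := hshift 1
    have h3 : c 3 = c 0 := by
      calc c 3 = c 1 * c 2 := h1.symm
        _ = c 1 * (c 0 * c 1) := by rw [hk01]
        _ = c 1 * (c 1 * c 0) := by rw [hcomm 0 1]
        _ = (c 1 * c 1) * c 0 := (mul_assoc _ _ _).symm
        _ = c 0 := by rw [hcsq, one_mul]
    have := hinj 0 3 (by norm_num) h3.symm
    omega
  · left
    rw [← hc_def, ← e1, ← hk01, e0]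
  · exfalso
    have h3 : c 3 * c 4 = c 7 := hshift 3
    have h7 : c 7 = c 0 := hper 0
    have h4 : c 0 * (c 3 * c 1) = c 0 * 1 := by
      calc c 0 * (c 3 * c 1) = c 3 * (c 0 * c 1) := by rw [← mul_assoc, hcomm 0 3, mul_assoc]
        _ = c 3 * c 4 := by rw [hk01]
        _ = c 7 := h3
        _ = c 0 := h7
        _ = c 0 * 1 := (mul_one _).symm
    have h5 : c 3 * c 1 = 1 := mul_left_cancel h4
    have h6 : c 3 = c 1 := by
      have := eq_inv_of_mul_eq_one_left h5
      rw [hcinv] at this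
      exact this
    have := hinj 1 3 (by norm_num) h6.symm
    omega
  · right
    have h6 : c 6 * c 7 = c 11 := hshift 6
    have h7 : c 7 = c 0 := hper 0
    have h11 : c 11 = c 4 := hper 4
    have e3 : g⁻¹ ^ 3 = g ^ 4 := by
      rw [inv_pow, inv_eq_iff_mul_eq_one, ← pow_add]
      exact hg7
    have e6 : g⁻¹ = g ^ 6 := by
      rw [inv_eq_iff_mul_eq_one, ← pow_succ']
      exact hg7
    rw [e3, e6, ← hc_def, ← hc_def, ← e0, ← h11, ← h6, h7]
    exact hcomm 6 0
  · exfalso
    have h1 : c 1 * c 2 = c 7 := hshift 1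
    have h7 : c 7 = c 0 := hper 0
    have h2 : c 2 = c 6 := by
      calc c 2 = (c 1 * c 1) * c 2 := by rw [hcsq, one_mul]
        _ = c 1 * (c 1 * c 2) := mul_assoc _ _ _
        _ = c 1 * c 0 := by rw [h1, h7]
        _ = c 0 * c 1 := hcomm 1 0
        _ = c 6 := hk01
    have := hinj 2 6 (by norm_num) h2
    omega

end Cfsg.Agent.H51.PSL8
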