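import Mathlib
import Cfsg.Agent.H51.PSL16Two
import Cfsg.Agent.H51.PSL8Act

/-! The action of a simple group of order 4080 on its seventeen Sylow 2-subgroups: a Sylow
2-subgroup is regular on the other sixteen, the two-point stabiliser contains an element of order
15, and this element acts on the Sylow 2-subgroup as a Singer cycle (helper51). -/

set_option autoImplicit false

namespace Cfsg.Agent.H51.PSL16

open Subgroup PSL9 PSL8

/-- A group of order 15 has an element of order 15. -/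
theorem exists_orderOf_fifteen {H : Type*} [Group H] [Finite H] (h : Nat.card H = 15) :
    ∃ g : H, orderOf g = 15 := by
  have : Fact (Nat.Prime 5) := ⟨by norm_num⟩
  obtain ⟨P5⟩ : Nonempty (Sylow 5 H) := inferInstance
  obtain ⟨P3⟩ : Nonempty (Sylow 3 H) := inferInstance
  have h5c : Nat.card (P5 : Subgroup H) = 5 := by
    have := sylow_card_pow (p := 5) (k := 1) (m := 3) (by rw [h]; norm_num) (by norm_num) P5
    simpa using this
  have h3c : Nat.card (P3 : Subgroup H) = 3 := by
    have := sylow_card_pow (p := 3) (k := 1) (m := 5) (by rw [h]; norm_num) (by norm_num) P3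
    simpa using this
  have n5 : Nat.card (Sylow 5 H) = 1 := by
    have h1 : Nat.card (Sylow 5 H) ∣ (P5 : Subgroup H).index := P5.card_dvd_index
    have h2 : Nat.card (Sylow 5 H) % 5 = 1 := card_sylow_modEq_one 5 H
    have hidx : (P5 : Subgroup H).index = 3 := by
      have := Subgroup.card_mul_index (P5 : Subgroup H)
      rw [h5c, h] at this
      omega
    rw [hidx] at h1
    have hle := Nat.le_of_dvd (by norm_num) h1
    have key : ∀ n ≤ 3, (n ∣ 3 ∧ n % 5 = 1) → n = 1 := by decide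
    exact key _ hle ⟨h1, h2⟩
  have n3 : Nat.card (Sylow 3 H) = 1 := by
    have h1 : Nat.card (Sylow 3 H) ∣ (P3 : Subgroup H).index := P3.card_dvd_index
    have h2 : Nat.card (Sylow 3 H) % 3 = 1 := card_sylow_modEq_one 3 H
    have hidx : (P3 : Subgroup H).index = 5 := by
      have := Subgroup.card_mul_index (P3 : Subgroup H)
      rw [h3c, h] at this
      omega
    rw [hidx] at h1
    have hle := Nat.le_of_dvd (by norm_num) h1
    have key : ∀ n ≤ 5, (n ∣ 5 ∧ n % 3 = 1) → n = 1 := by decide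
    exact key _ hle ⟨h1, h2⟩
  have s5 : Subsingleton (Sylow 5 H) := (Nat.card_eq_one_iff_unique.mp n5).1
  have s3 : Subsingleton (Sylow 3 H) := (Nat.card_eq_one_iff_unique.mp n3).1
  have hP5n : (P5 : Subgroup H).Normal := P5.normal_of_subsingleton
  have hP3n : (P3 : Subgroup H).Normal := P3.normal_of_subsingleton
  obtain ⟨y, hy⟩ := exists_prime_orderOf_dvd_card' (G := H) 5 (by rw [h]; norm_num)
  obtain ⟨z, hz⟩ := exists_prime_orderOf_dvd_card' (G := H) 3 (by rw [h]; norm_num)
  have hyP : y ∈ (P5 : Subgroup H) := by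
    have hz5 : IsPGroup 5 (zpowers y) :=
      IsPGroup.of_card (n := 1) (by rw [Nat.card_zpowers, hy]; norm_num)
    obtain ⟨P, hP⟩ := hz5.exists_le_sylow
    rw [Subsingleton.elim P5 P]
    exact hP (mem_zpowers y)
  have hzP : z ∈ (P3 : Subgroup H) := by
    have hz3 : IsPGroup 3 (zpowers z) :=
      IsPGroup.of_card (n := 1) (by rw [Nat.card_zpowers, hz]; norm_num)
    obtain ⟨P, hP⟩ := hz3.exists_le_sylow
    rw [Subsingleton.elim P3 P]
    exact hP (mem_zpowers z)
  have hdisj : Disjoint (P5 : Subgroup H) (P3 : Subgroup H) := by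
    rw [Subgroup.disjoint_def]
    intro x hx5 hx3
    have o5 : orderOf x ∣ 5 := by
      have := Subgroup.orderOf_dvd_natCard _ hx5
      rwa [h5c] at this
    have o3 : orderOf x ∣ 3 := by
      have := Subgroup.orderOf_dvd_natCard _ hx3
      rwa [h3c] at this
    have h1 : orderOf x ∣ Nat.gcd 5 3 := Nat.dvd_gcd o5 o3
    have h2 : Nat.gcd 5 3 = 1 := by decide
    rw [h2] at h1
    exact orderOf_eq_one_iff.mp (Nat.dvd_one.mp h1)
  have hcomm : Commute y z :=
    Subgroup.commute_of_normal_of_disjoint (P5 : Subgroup H) (P3 : Subgroup H) hP5n hP3n hdisj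
      y z hyP hzP
  refine ⟨y * z, ?_⟩
  rw [hcomm.orderOf_mul_eq_mul_orderOf_of_coprime (by rw [hy, hz]; decide), hy, hz]

/-- The entries of the table of derived relations `c 0 * c x = c y`. -/
def fanoX (k a : ℕ) : ℕ :=
  match a with
  | 0 => 1
  | 1 => k
  | 2 => 14
  | 3 => k + 14
  | 4 => 2
  | 5 => 2 * k
  | 6 => 13
  | 7 => 2 * k + 13
  | 8 => 4
  | 9 => 4 * k
  | 10 => 11
  | _ => 4 * k + 11

/-- The entries of the table of derived relations `c 0 * c x = c y`. -/
def fanoY (k a : ℕ) : ℕ :=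
  match a with
  | 0 => k
  | 1 => 1
  | 2 => k + 14
  | 3 => 14
  | 4 => 2 * k
  | 5 => 2
  | 6 => 2 * k + 13
  | 7 => 13
  | 8 => 4 * k
  | 9 => 4
  | 10 => 4 * k + 11
  | _ => 11

theorem fano_arith : ∀ k < 15, (k ≠ 4 ∧ k ≠ 12) →
    ∃ a < 12, ∃ b < 12, fanoX k a % 15 = fanoX k b % 15 ∧ fanoY k a % 15 ≠ fanoY k b % 15 := by
  decide

variable {G : Type*} [Group G] [Finite G] [IsSimpleGroup G]

/-- A nontrivial element of a Sylow 2-subgroup normalises no other Sylow 2-subgroup. -/
theorem sylow2_free (hG : Nat.card G = 4080) (Q Q' : Sylow 2 G) (hne : Q' ≠ Q) {q : G}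
    (hq : q ∈ (Q : Subgroup G)) (hfix : q • Q' = Q') : q = 1 := by
  have hN : q ∈ normalizer ((Q' : Subgroup G) : Set G) := Sylow.smul_eq_iff_mem_normalizer.mp hfix
  have h1 := IsPGroup.inf_normalizer_sylow Q.2 Q'
  have h2 : q ∈ (Q : Subgroup G) ⊓ (Q' : Subgroup G) := by
    rw [← h1]; exact ⟨hq, hN⟩
  exact sylow2_inter hG Q Q' (Ne.symm hne) h2.1 h2.2

/-- A Sylow 2-subgroup is transitive on the other sixteen. -/
theorem exists_smul_of_ne2 (hG : Nat.card G = 4080) (Q Q0 : Sylow 2 G) (hne : Q0 ≠ Q)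
    (Q' : Sylow 2 G) (hQ' : Q' ≠ Q) : ∃ q ∈ (Q : Subgroup G), q • Q0 = Q' := by
  let e : Option (Q : Subgroup G) → Sylow 2 G := fun x =>
    match x with
    | none => Q
    | some q => (q : G) • Q0
  have he_inj : Function.Injective e := by
    rintro (_ | i) (_ | j) h
    · rfl
    · exfalso; apply hne
      have h' : Q = (j : G) • Q0 := h
      have h2 : Q0 = (j : G)⁻¹ • Q := eq_inv_smul_iff.mpr h'.symm
      exact h2.trans (inv_smul_eq_iff.mpr (smul_self_of_mem2 Q j.2).symm)
    · exfalso; apply hne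
      have h' : (i : G) • Q0 = Q := h
      have h2 : Q0 = (i : G)⁻¹ • Q := eq_inv_smul_iff.mpr h'
      exact h2.trans (inv_smul_eq_iff.mpr (smul_self_of_mem2 Q i.2).symm)
    · have h' : (i : G) • Q0 = (j : G) • Q0 := h
      have h1 : ((j : G)⁻¹ * i) • Q0 = Q0 := by rw [mul_smul, h', inv_smul_smul]
      have h2 := sylow2_free hG Q Q0 hne (mul_mem (inv_mem j.2) i.2) h1
      have h3 : (i : G) = j := by
        rw [inv_mul_eq_one] at h2; exact h2.symm
      exact congrArg some (Subtype.ext h3)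
  have hcard : Nat.card (Option (Q : Subgroup G)) = Nat.card (Sylow 2 G) := by
    rw [card_sylow2_eq hG, Finite.card_option, card_sylow2 hG Q]
  have he_bij := (Nat.bijective_iff_injective_and_card e).mpr ⟨he_inj, hcard⟩
  obtain ⟨x, hx⟩ := he_bij.2 Q'
  rcases x with _ | q
  · exact absurd hx.symm hQ'
  · exact ⟨q, q.2, hx⟩

/-- The two-point stabiliser contains an element of order fifteen. -/
theorem exists_order15 (hG : Nat.card G = 4080) (Q Q0 : Sylow 2 G) (hne : Q0 ≠ Q) :
    ∃ g : G, g • Q = Q ∧ g • Q0 = Q0 ∧ orderOf g = 15 := by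
  set N : Subgroup G := MulAction.stabilizer G Q with hN
  have hNc : Nat.card N = 240 := by
    have h1 := MulAction.index_stabilizer_of_transitive G Q
    have h2 := Subgroup.card_mul_index N
    rw [h1, card_sylow2_eq hG, hG] at h2
    omega
  set T : Subgroup N := MulAction.stabilizer N Q0 with hT
  have hTc : Nat.card T = 15 := by
    have h1 := MulAction.index_stabilizer N Q0
    have h2 := Subgroup.card_mul_index T
    have h3 : MulAction.orbit N Q0 = {Q}ᶜ := by
      ext Q'
      constructor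
      · rintro ⟨n, rfl⟩ hQ
        apply hne
        have hn : (n : G) • Q = Q := n.2
        have h' : (n : G) • Q0 = Q := hQ
        have h2 : Q0 = (n : G)⁻¹ • Q := eq_inv_smul_iff.mpr h'
        exact h2.trans (inv_smul_eq_iff.mpr hn.symm)
      · intro hQ'
        obtain ⟨q, hq, rfl⟩ := exists_smul_of_ne2 hG Q Q0 hne Q' hQ'
        exact ⟨⟨q, smul_self_of_mem2 Q hq⟩, rfl⟩
    rw [h1, h3, Set.ncard_compl, Set.ncard_singleton, card_sylow2_eq hG, hNc] at h2
    omega
  obtain ⟨s, hs⟩ := exists_orderOf_fifteen hTc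
  refine ⟨((s : N) : G), (s : N).2, s.2, ?_⟩
  rw [Subgroup.orderOf_coe, Subgroup.orderOf_coe]
  exact hs

/-- The conjugates of an involution under the powers of an element of order 15 are distinct. -/
theorem conj_inj (hG : Nat.card G = 4080) {g a : G} (hg : orderOf g = 15) (ha : orderOf a = 2)
    {i j : ℕ} (hij : i ≤ j) (h : g ^ i * a * (g ^ i)⁻¹ = g ^ j * a * (g ^ j)⁻¹) : 15 ∣ j - i := by
  have : Fact (Nat.Prime 5) := ⟨by norm_num⟩
  obtain ⟨d, rfl⟩ := Nat.exists_eq_add_of_le hij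
  have hd : i + d - i = d := by omega
  rw [hd]
  rw [pow_add] at h
  have hc : g ^ d * a = a * g ^ d := comm_of_conj_eq h
  by_contra hnd
  have hgd1 : g ^ d ≠ 1 := by
    intro h1
    exact hnd (hg ▸ orderOf_dvd_of_pow_eq_one h1)
  have hgd15 : (g ^ d) ^ 15 = 1 := by
    rw [← pow_mul, mul_comm, pow_mul, ← hg, pow_orderOf_eq_one, one_pow]
  have hcw : Commute (g ^ d) a := hc
  by_cases h3 : (g ^ d) ^ 3 = 1
  · exact no_comm_inv hG (Or.inl (orderOf_eq_prime h3 hgd1)) ha hcw.eq.symm
  · by_cases h5 : (g ^ d) ^ 5 = 1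
    · exact no_comm_inv hG (Or.inr (Or.inl (orderOf_eq_prime h5 hgd1))) ha hcw.eq.symm
    · have h53 : orderOf ((g ^ d) ^ 5) = 3 :=
        orderOf_eq_prime (by rw [← pow_mul]; exact hgd15) h5
      exact no_comm_inv hG (Or.inl h53) ha (hcw.pow_left 5).eq.symm

omit [IsSimpleGroup G] in
theorem card_sylow2_diff (hG : Nat.card G = 4080) (Q : Sylow 2 G) :
    Nat.card ((((Q : Subgroup G) : Set G) \ {1} : Set G)) = 15 := by
  rw [Nat.card_coe_set_eq, Set.ncard_sdiff_singleton_of_mem (Q : Subgroup G).one_mem,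
    ← Nat.card_coe_set_eq]
  have : Nat.card ((Q : Subgroup G) : Set G) = 16 := card_sylow2 hG Q
  rw [this]

/-- The element of order 15, or its inverse, acts on the Sylow 2-subgroup as multiplication by a
root of `X⁴ + X + 1`. -/
theorem exists_fano (hG : Nat.card G = 4080) (Q : Sylow 2 G) {g a : G} (hgQ : g • Q = Q)
    (hg : orderOf g = 15) (haQ : a ∈ (Q : Subgroup G)) (ha1 : a ≠ 1) :
    g ^ 4 * a * (g ^ 4)⁻¹ = a * (g * a * g⁻¹) ∨
      g⁻¹ ^ 4 * a * (g⁻¹ ^ 4)⁻¹ = a * (g⁻¹ * a * g⁻¹⁻¹) := by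
  have hao : orderOf a = 2 := orderOf_eq_prime (sylow2_sq hG Q haQ) ha1
  have hg15 : g ^ 15 = 1 := by rw [← hg]; exact pow_orderOf_eq_one g
  have hgN : g ∈ normalizer ((Q : Subgroup G) : Set G) := Sylow.smul_eq_iff_mem_normalizer.mp hgQ
  obtain ⟨c, hc_def⟩ : ∃ c : ℕ → G, ∀ i, c i = g ^ i * a * (g ^ i)⁻¹ := ⟨_, fun i => rfl⟩
  have hcQ : ∀ i, c i ∈ (Q : Subgroup G) := by
    intro i
    have : g ^ i ∈ normalizer ((Q : Subgroup G) : Set G) := pow_mem hgN i
    rw [hc_def]
    exact (Subgroup.mem_normalizer_iff.mp this a).mp haQ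
  have hc1 : ∀ i, c i ≠ 1 := fun i h => ha1 (conj_eq_one_iff.mp ((hc_def i).symm.trans h))
  have hcsq : ∀ i, c i * c i = 1 := by
    intro i
    rw [← sq]
    exact sylow2_sq hG Q (hcQ i)
  have hcinv : ∀ i, (c i)⁻¹ = c i := fun i => inv_eq_of_mul_eq_one_right (hcsq i)
  have hcomm : ∀ i j, c i * c j = c j * c i := fun i j => sylow2_comm hG Q (hcQ i) (hcQ j)
  have hper : ∀ i, c (i + 15) = c i := by
    intro i
    rw [hc_def, hc_def, pow_add, hg15, mul_one]
  have hinj : ∀ i j, i ≤ j → c i = c j → 15 ∣ j - i := by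
    intro i j hij h
    rw [hc_def, hc_def] at h
    exact conj_inj hG hg hao hij h
  have hinjmod : ∀ i j, c i = c j → i % 15 = j % 15 := by
    intro i j h
    rcases le_total i j with hle | hle
    · have := hinj i j hle h
      omega
    · have := hinj j i hle h.symm
      omega
  have hperq : ∀ q r, c (r + 15 * q) = c r := by
    intro q
    induction q with
    | zero => intro r; rfl
    | succ q ih =>
      intro r
      have e : r + 15 * (q + 1) = (r + 15 * q) + 15 := by ring
      rw [e, hper, ih]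
  have hmod : ∀ i, c (i % 15) = c i := by
    intro i
    have := hperq (i / 15) (i % 15)
    rw [Nat.mod_add_div] at this
    exact this.symm
  have hshiftc : ∀ i j, g ^ i * c j * (g ^ i)⁻¹ = c (i + j) := by
    intro i j
    rw [hc_def, hc_def, pow_add]
    group
  have hsurj : ∀ b ∈ (Q : Subgroup G), b ≠ 1 → ∃ k < 15, b = c k := by
    intro b hb hb1
    let f : Fin 15 → ((((Q : Subgroup G) : Set G) \ {1} : Set G)) := fun i => ⟨c i, hcQ i, hc1 i⟩
    have hf : Function.Injective f := by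
      intro i j hij
      have h : c i = c j := congrArg Subtype.val hij
      have := hinjmod _ _ h
      apply Fin.ext
      omega
    have hcard : Nat.card (Fin 15) = Nat.card ((((Q : Subgroup G) : Set G) \ {1} : Set G)) := by
      rw [Nat.card_fin, card_sylow2_diff hG Q]
    have hbij := (Nat.bijective_iff_injective_and_card f).mpr ⟨hf, hcard⟩
    obtain ⟨k, hk⟩ := hbij.2 ⟨b, hb, hb1⟩
    exact ⟨k, k.2, (congrArg Subtype.val hk).symm⟩
  have h01 : c 0 * c 1 ≠ 1 := by
    intro h
    have h2 : c 0 = c 1 := by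
      have := eq_inv_of_mul_eq_one_left h
      rw [hcinv] at this
      exact this
    have := hinjmod 0 1 h2
    omega
  obtain ⟨k, hk, hk01⟩ := hsurj _ (mul_mem (hcQ 0) (hcQ 1)) h01
  have hshift : ∀ i, c i * c (i + 1) = c (i + k) := by
    intro i
    have e0 : g ^ i * c 0 * (g ^ i)⁻¹ = c i := hshiftc i 0
    calc c i * c (i + 1) = (g ^ i * c 0 * (g ^ i)⁻¹) * (g ^ i * c 1 * (g ^ i)⁻¹) := by
          rw [e0, hshiftc i 1]
      _ = g ^ i * (c 0 * c 1) * (g ^ i)⁻¹ := by group
      _ = g ^ i * c k * (g ^ i)⁻¹ := by rw [hk01]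
      _ = c (i + k) := hshiftc i k
  have hdouble : ∀ s m s2 m2 : ℕ, s2 = 2 * s → m2 = 2 * m →
      (∀ i, c i * c (i + s) = c (i + m)) → ∀ i, c i * c (i + s2) = c (i + m2) := by
    intro s m s2 m2 hs2 hm2 hs i
    have h1 := hs (i + m)
    have h2 := hs (i + s)
    have h3 := hs i
    have e1 : i + m + s = i + s + m := by ring
    have e2 : i + m + m = i + m2 := by rw [hm2]; ring
    have e4 : i + s + s = i + s2 := by rw [hs2]; ring
    rw [e1, ← h2, ← h3, e2, e4] at h1
    rw [← h1]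
    have e3 : c i * c (i + s) * (c (i + s) * c (i + s2))
        = c i * ((c (i + s) * c (i + s)) * c (i + s2)) := by simp only [mul_assoc]
    rw [e3, hcsq, one_mul]
  have hshift2 : ∀ i, c i * c (i + 2) = c (i + 2 * k) := hdouble 1 k 2 (2 * k) rfl rfl hshift
  have hshift4 : ∀ i, c i * c (i + 4) = c (i + 4 * k) :=
    hdouble 2 (2 * k) 4 (4 * k) rfl (by ring) hshift2
  have hpos : ∀ s m : ℕ, (∀ i, c i * c (i + s) = c (i + m)) → c 0 * c s = c m := by
    intro s m hs
    have := hs 0
    rwa [Nat.zero_add, Nat.zero_add] at this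
  have hneg : ∀ s m r : ℕ, r + s = 15 → (∀ i, c i * c (i + s) = c (i + m)) →
      c 0 * c r = c (m + r) := by
    intro s m r hr hs
    have h1 := hs r
    have h15 : c 15 = c 0 := hper 0
    rw [hr, h15, Nat.add_comm r m] at h1
    rw [hcomm 0 r]
    exact h1
  have hinvr : ∀ x y : ℕ, c 0 * c x = c y → c 0 * c y = c x := by
    intro x y h
    rw [← h, ← mul_assoc, hcsq, one_mul]
  have X0 : c 0 * c 1 = c k := hk01
  have X2 : c 0 * c 14 = c (k + 14) := hneg 1 k 14 rfl hshift
  have X4 : c 0 * c 2 = c (2 * k) := hpos 2 (2 * k) hshift2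
  have X6 : c 0 * c 13 = c (2 * k + 13) := hneg 2 (2 * k) 13 rfl hshift2
  have X8 : c 0 * c 4 = c (4 * k) := hpos 4 (4 * k) hshift4
  have X10 : c 0 * c 11 = c (4 * k + 11) := hneg 4 (4 * k) 11 rfl hshift4
  have hsem : ∀ a < 12, c 0 * c (fanoX k a) = c (fanoY k a) := by
    intro a ha
    interval_cases a
    · exact X0
    · exact hinvr _ _ X0
    · exact X2
    · exact hinvr _ _ X2
    · exact X4
    · exact hinvr _ _ X4
    · exact X6
    · exact hinvr _ _ X6
    · exact X8
    · exact hinvr _ _ X8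
    · exact X10
    · exact hinvr _ _ X10
  have e0 : c 0 = a := by rw [hc_def]; simp
  have e1 : c 1 = g * a * g⁻¹ := by rw [hc_def]; simp
  by_cases hk4 : k = 4
  · subst hk4
    left
    rw [← hc_def, ← e1, ← hk01, e0]
  by_cases hk12 : k = 12
  · subst hk12
    right
    have h11 : c 26 = c 11 := hper 11
    have e3 : g⁻¹ ^ 4 = g ^ 11 := by
      rw [inv_pow, inv_eq_iff_mul_eq_one, ← pow_add]
      exact hg15
    have e6 : g⁻¹ = g ^ 14 := by
      rw [inv_eq_iff_mul_eq_one, ← pow_succ']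
      exact hg15
    rw [e3, e6, ← hc_def, ← hc_def, ← e0, ← h11]
    exact X2.symm
  exfalso
  obtain ⟨a', ha', b', hb', hx, hy⟩ := fano_arith k hk ⟨hk4, hk12⟩
  apply hy
  have h1 := hsem a' ha'
  have h2 := hsem b' hb'
  have h3 : c (fanoX k a') = c (fanoX k b') := by
    rw [← hmod (fanoX k a'), ← hmod (fanoX k b'), hx]
  have h4 : c (fanoY k a') = c (fanoY k b') := by rw [← h1, ← h2, h3]
  exact hinjmod _ _ h4

end Cfsg.Agent.H51.PSL16
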