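import Mathlib
import Cfsg.Agent.H51.PSLQAff

/-! Recognition of `PSL₂(q)` on the projective line over a finite field `K` whose multiplicative
group is generated by `k₀` (used for `q` even): a permutation group of order `(q + 1) q (q - 1)`
containing the translations and the multiplication by `k₀`, and moving infinity, is a fixed
subgroup (helper51). -/

set_option autoImplicit false

namespace Cfsg.Agent.H51.PSLE

open MulAction PSLQ

variable {K : Type*} [Field K]

/-- The candidate for an element swapping `0` and infinity and normalising `x ↦ k₀ x`. -/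
def candE [DecidableEq K] (j : ℕ) (a : K) : Option K → Option K
  | none => some 0
  | some x => if x = 0 then none else some (a * x ^ j)

/-- The square of `f` is a multiplication. -/
def IsLin (f : Option K → Option K) : Prop :=
  ∀ x : K, f (f (some x)) = some ((f (f (some 1))).getD 0 * x)

/-- The main finite check. -/
def Check3E (K : Type*) [Field K] [DecidableEq K] (e m : ℕ) (k0 : K) : Prop :=
  ∀ j < m, ∀ a : K,
    ((∀ i : K, i ≠ 0 → IsAffAt m (candE j a) i) ∧ IsLin (candE j a)) →
      IsGood e m k0 (candE j a)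

/-- The small arithmetic checks. -/
def Check1E (K : Type*) [Field K] [Fintype K] (e m : ℕ) (k0 : K) : Prop :=
  e + 2 = Fintype.card K ∧ m + 1 = Fintype.card K ∧ 1 < m ∧ k0 ^ m = 1 ∧ k0 ≠ 1 ∧
    (∀ x : K, x ≠ 0 → ∃ l < m, x = k0 ^ l) ∧
    (∀ l < m, ∀ l' < m, k0 ^ l = k0 ^ l' → l = l')

section Dec

variable [Fintype K] [DecidableEq K]

instance (f : Option K → Option K) : Decidable (IsLin f) := by
  unfold IsLin; infer_instance

instance (e m : ℕ) (k0 : K) : Decidable (Check3E K e m k0) := by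
  unfold Check3E; infer_instance

instance (e m : ℕ) (k0 : K) : Decidable (Check1E K e m k0) := by
  unfold Check1E; infer_instance

end Dec

variable [Fintype K] [DecidableEq K]

/-- The hypotheses of the concrete recognition theorem. -/
structure SetupE (K : Type*) [Field K] [Fintype K] [DecidableEq K] (e m : ℕ) (k0u : Kˣ)
    (H : Subgroup (Equiv.Perm (Option K))) : Prop where
  h1 : Check1E K e m (k0u : K)
  h3 : Check3E K e m (k0u : K)
  card : Nat.card H = (Fintype.card K + 1) * Fintype.card K * m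
  htr : ∀ w : K, affP 1 w ∈ H
  hd : affP k0u 0 ∈ H
  hT : ∃ h ∈ H, h none = some 0

variable {e m : ℕ} {k0u : Kˣ} {H : Subgroup (Equiv.Perm (Option K))}

theorem SetupE.card_stab (S : SetupE K e m k0u H) :
    Nat.card (stabilizer H (none : Option K)) = Fintype.card K * m := by
  have : IsPretransitive H (Option K) := by
    obtain ⟨h, hh, hh0⟩ := S.hT
    have key : ∀ x : Option K, ∃ g : H, g • (none : Option K) = x := by
      rintro (_ | i)
      · exact ⟨1, one_smul _ _⟩
      · refine ⟨⟨affP 1 i * h, H.mul_mem (S.htr i) hh⟩, ?_⟩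
        change (affP 1 i * h) none = some i
        rw [Equiv.Perm.mul_apply, hh0, affP_some]; simp
    refine ⟨fun x y => ?_⟩
    obtain ⟨gx, hgx⟩ := key x
    obtain ⟨gy, hgy⟩ := key y
    exact ⟨gy * gx⁻¹, by rw [mul_smul, ← hgx, inv_smul_smul, hgy]⟩
  have h1 := index_stabilizer_of_transitive H (none : Option K)
  have h2 := Subgroup.card_mul_index (stabilizer H (none : Option K))
  rw [h1, S.card] at h2
  have h3 : Nat.card (Option K) = Fintype.card K + 1 := by
    rw [Nat.card_eq_fintype_card, Fintype.card_option]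
  rw [h3] at h2
  have h4 : 0 < Fintype.card K + 1 := Nat.succ_pos _
  have h5 : Nat.card (stabilizer H (none : Option K)) * (Fintype.card K + 1)
      = (Fintype.card K * m) * (Fintype.card K + 1) := by
    rw [h2]; ring
  exact Nat.eq_of_mul_eq_mul_right h4 h5

theorem SetupE.affP_mem (S : SetupE K e m k0u H) (l : ℕ) (i : K) : affP (k0u ^ l) i ∈ H := by
  have : affP (k0u ^ l) i = affP 1 i * affP k0u 0 ^ l := by
    rw [affP_pow_zero, affP_mul]; simp
  rw [this]
  exact H.mul_mem (S.htr i) (H.pow_mem S.hd _)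

theorem SetupE.aff_of_fix (S : SetupE K e m k0u H) {w : Equiv.Perm (Option K)} (hw : w ∈ H)
    (hw0 : w none = none) : ∃ l < m, ∃ i, w = affP (k0u ^ l) i := by
  obtain ⟨-, -, -, -, -, -, hinjk⟩ := S.h1
  let F : Fin m × K → stabilizer H (none : Option K) := fun li =>
    ⟨⟨affP (k0u ^ (li.1 : ℕ)) li.2, S.affP_mem _ _⟩, by
      change affP (k0u ^ (li.1 : ℕ)) li.2 none = none
      rfl⟩
  have hinj : Function.Injective F := by
    rintro ⟨l, i⟩ ⟨l', i'⟩ h
    have h1 : affP (k0u ^ (l : ℕ)) i = affP (k0u ^ (l' : ℕ)) i' :=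
      congrArg (fun z : stabilizer H (none : Option K) => ((z : H) : Equiv.Perm (Option K))) h
    obtain ⟨h2, h3⟩ := affP_inj h1
    have h4 : (k0u : K) ^ (l : ℕ) = (k0u : K) ^ (l' : ℕ) := by
      have := congrArg (fun u : Kˣ => (u : K)) h2
      simpa [Units.val_pow_eq_pow_val] using this
    have h5 := hinjk l l.2 l' l'.2 h4
    exact Prod.ext (Fin.ext h5) h3
  have hcard : Nat.card (Fin m × K) = Nat.card (stabilizer H (none : Option K)) := by
    rw [S.card_stab, Nat.card_prod, Nat.card_fin, Nat.card_eq_fintype_card, mul_comm]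
  have hbij := (Nat.bijective_iff_injective_and_card F).mpr ⟨hinj, hcard⟩
  obtain ⟨⟨l, i⟩, hli⟩ := hbij.2 ⟨⟨w, hw⟩, hw0⟩
  refine ⟨l, l.2, i, ?_⟩
  have := congrArg (fun z : stabilizer H (none : Option K) => ((z : H) : Equiv.Perm (Option K))) hli
  exact this.symm

theorem SetupE.mem_closure (S : SetupE K e m k0u H) {s : Equiv.Perm (Option K)} (hs : s ∈ H)
    (hs0 : s none = some 0) {h : Equiv.Perm (Option K)} (hh : h ∈ H) :
    h ∈ Subgroup.closure (Set.range (affP (1 : Kˣ)) ∪ {affP k0u 0, s}) := by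
  set C := Subgroup.closure (Set.range (affP (1 : Kˣ)) ∪ {affP k0u 0, s}) with hC
  have hcC : ∀ i : K, affP 1 i ∈ C := fun i => Subgroup.subset_closure (Or.inl ⟨i, rfl⟩)
  have hdC : affP k0u 0 ∈ C := Subgroup.subset_closure (Or.inr (by simp))
  have hsC : s ∈ C := Subgroup.subset_closure (Or.inr (by simp))
  have claim : ∀ w ∈ H, w none = none → w ∈ C := by
    intro w hw hw0
    obtain ⟨l, -, i, rfl⟩ := S.aff_of_fix hw hw0
    have : affP (k0u ^ l) i = affP 1 i * affP k0u 0 ^ l := by
      rw [affP_pow_zero, affP_mul]; simp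
    rw [this]
    exact C.mul_mem (hcC i) (C.pow_mem hdC _)
  rcases h0 : h none with _ | y
  · exact claim h hh h0
  · have h' : s⁻¹ * (affP 1 y)⁻¹ * h ∈ C := by
      apply claim
      · exact H.mul_mem (H.mul_mem (H.inv_mem hs) (H.inv_mem (S.htr y))) hh
      · rw [Equiv.Perm.mul_apply, Equiv.Perm.mul_apply, h0, affP_one_inv, affP_some]
        simp only [Units.val_one, one_mul, add_neg_cancel]
        rw [Equiv.Perm.inv_eq_iff_eq]; exact hs0.symm
    have : h = affP 1 y * s * (s⁻¹ * (affP 1 y)⁻¹ * h) := by group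
    rw [this]
    exact C.mul_mem (C.mul_mem (hcC y) hsC) h'

theorem SetupE.exists_swap (S : SetupE K e m k0u H) :
    ∃ t ∈ H, t none = some 0 ∧ t (some 0) = none := by
  obtain ⟨h, hh, hh0⟩ := S.hT
  have h1 : h⁻¹ (some 0) = none := by rw [Equiv.Perm.inv_eq_iff_eq]; exact hh0.symm
  rcases h2 : h⁻¹ none with _ | y
  · exfalso
    have h3 : h none = none := ((Equiv.Perm.inv_eq_iff_eq).mp h2).symm
    rw [hh0] at h3; simp at h3
  · refine ⟨(affP 1 y)⁻¹ * h⁻¹, H.mul_mem (H.inv_mem (S.htr y)) (H.inv_mem hh), ?_, ?_⟩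
    · rw [Equiv.Perm.mul_apply, h2, affP_one_inv, affP_some]; simp
    · rw [Equiv.Perm.mul_apply, h1, affP_one_inv, affP_none]

theorem SetupE.eq_cand (S : SetupE K e m k0u H) {t : Equiv.Perm (Option K)} (ht : t ∈ H)
    (ht1 : t none = some 0) (ht2 : t (some 0) = none) :
    ∃ j < m, ∃ a : K, ⇑t = candE j a := by
  obtain ⟨he, hpm, hm1, hk0m, hk01, hC4, -⟩ := S.h1
  have hd := S.hd
  have hti1 : t⁻¹ none = some 0 := by rw [Equiv.Perm.inv_eq_iff_eq]; exact ht2.symm
  have hti2 : t⁻¹ (some 0) = none := by rw [Equiv.Perm.inv_eq_iff_eq]; exact ht1.symm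
  have hU : t * affP k0u 0 * t⁻¹ ∈ H := H.mul_mem (H.mul_mem ht hd) (H.inv_mem ht)
  have hU0 : (t * affP k0u 0 * t⁻¹) none = none := by
    simp only [Equiv.Perm.mul_apply, hti1, affP_some, mul_zero, zero_add, ht2]
  obtain ⟨j, hj, i, hUa⟩ := S.aff_of_fix hU hU0
  have hi : i = 0 := by
    have := congrArg (fun f : Equiv.Perm (Option K) => f (some 0)) hUa
    simp only [Equiv.Perm.mul_apply, hti2, affP_none, ht1, affP_some, mul_zero, zero_add,
      Option.some.injEq] at this
    exact this.symm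
  subst hi
  have hrel : ∀ z, t (affP k0u 0 z) = affP (k0u ^ j) 0 (t z) := by
    intro z
    have : t * affP k0u 0 = affP (k0u ^ j) 0 * t := by rw [← hUa]; group
    exact congrArg (fun f : Equiv.Perm (Option K) => f z) this
  have hsome : ∀ x : K, x ≠ 0 → ∃ y, t (some x) = some y := by
    intro x hx
    rcases h : t (some x) with _ | y
    · exact absurd (Option.some.inj (t.injective (h.trans ht2.symm))) hx
    · exact ⟨y, rfl⟩
  let τ : K → K := fun x => (t (some x)).getD 0
  have hτ : ∀ x, x ≠ 0 → t (some x) = some (τ x) := by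
    intro x hx; obtain ⟨y, hy⟩ := hsome x hx; simp [τ, hy]
  have hk0ne : (k0u : K) ≠ 0 := k0u.ne_zero
  have hτk : ∀ x, x ≠ 0 → τ (k0u * x) = (k0u : K) ^ j * τ x := by
    intro x hx
    have := hrel (some x)
    rw [affP_some, add_zero, hτ _ (mul_ne_zero hk0ne hx), hτ x hx, affP_some, add_zero] at this
    simpa [Units.val_pow_eq_pow_val] using this
  have hres : ∀ l : ℕ, τ ((k0u : K) ^ l) = ((k0u : K) ^ j) ^ l * τ 1 := by
    intro l
    induction l with
    | zero => simp
    | succ l ih => rw [pow_succ', hτk _ (pow_ne_zero _ hk0ne), ih, pow_succ']; ring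
  refine ⟨j, hj, τ 1, ?_⟩
  funext x
  rcases x with _ | x
  · exact ht1
  · by_cases hx : x = 0
    · subst hx; rw [ht2]; simp [candE]
    · rw [hτ x hx]
      obtain ⟨l, -, rfl⟩ := hC4 x hx
      rw [hres]
      simp only [candE, if_neg hx]
      exact congrArg some (by ring)

theorem SetupE.isAffAt (S : SetupE K e m k0u H) {t : Equiv.Perm (Option K)} (ht : t ∈ H)
    (ht1 : t none = some 0) (ht2 : t (some 0) = none) (i : K) (hi : i ≠ 0) :
    IsAffAt m ⇑t i := by
  obtain ⟨he, hpm, hm1, hk0m, hk01, hC4, -⟩ := S.h1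
  obtain ⟨y, hy⟩ : ∃ y, t (some i) = some y := by
    rcases h : t (some i) with _ | y
    · exact absurd (Option.some.inj (t.injective (h.trans ht2.symm))) hi
    · exact ⟨y, rfl⟩
  set W := t * (affP 1 y)⁻¹ * t * affP 1 i * t with hW
  have hWH : W ∈ H :=
    H.mul_mem (H.mul_mem (H.mul_mem (H.mul_mem ht (H.inv_mem (S.htr y))) ht) (S.htr i)) ht
  have hWf : ∀ x, wF ⇑t i x = W x := by
    intro x
    simp only [wF, hy, Option.getD_some, hW, Equiv.Perm.mul_apply, affP_one_inv, affP_coe,
      Units.val_one]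
  have hW0 : W none = none := by
    rw [← hWf]; simp [wF, ht1, hy, ht2]
  obtain ⟨l, hl, i', hWa⟩ := S.aff_of_fix hWH hW0
  have hg : ∀ x, gF ⇑t i x = (k0u : K) ^ l * x + i' := by
    intro x; simp [gF, hWf, hWa, Units.val_pow_eq_pow_val]
  have hkl : ((k0u : K) ^ l) ^ m = 1 := by rw [← pow_mul, mul_comm, pow_mul, hk0m, one_pow]
  constructor
  · rw [hg, hg]
    have : (k0u : K) ^ l * 1 + i' - ((k0u : K) ^ l * 0 + i') = (k0u : K) ^ l := by ring
    rw [this, hkl]
  · intro x
    rw [hWf, hWa, hg, hg, affP_some]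
    exact congrArg some (by simp [Units.val_pow_eq_pow_val])

theorem SetupE.isLin (S : SetupE K e m k0u H) {t : Equiv.Perm (Option K)} (ht : t ∈ H)
    (ht1 : t none = some 0) (ht2 : t (some 0) = none) : IsLin ⇑t := by
  have hWH : t * t ∈ H := H.mul_mem ht ht
  have hW0 : (t * t) none = none := by rw [Equiv.Perm.mul_apply, ht1, ht2]
  obtain ⟨l, hl, i', hWa⟩ := S.aff_of_fix hWH hW0
  have hi : i' = 0 := by
    have := congrArg (fun f : Equiv.Perm (Option K) => f (some 0)) hWa
    simp only [Equiv.Perm.mul_apply, ht2, ht1, affP_some, mul_zero, zero_add,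
      Option.some.injEq] at this
    exact this.symm
  subst hi
  have hf : ∀ x : K, t (t (some x)) = some ((k0u : K) ^ l * x) := by
    intro x
    have := congrArg (fun f : Equiv.Perm (Option K) => f (some x)) hWa
    simpa [Equiv.Perm.mul_apply, Units.val_pow_eq_pow_val] using this
  intro x
  rw [hf, hf]
  simp

theorem SetupE.tP_mem (S : SetupE K e m k0u H) : tP S.h1.1 ∈ H := by
  obtain ⟨t, ht, ht1, ht2⟩ := S.exists_swap
  obtain ⟨j, hj, a, hcand⟩ := S.eq_cand ht ht1 ht2
  have hprem : ∀ i : K, i ≠ 0 → IsAffAt m (candE j a) i := by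
    intro i hi; rw [← hcand]; exact S.isAffAt ht ht1 ht2 i hi
  have hlin : IsLin (candE j a) := by rw [← hcand]; exact S.isLin ht ht1 ht2
  obtain ⟨l, hl, hgl⟩ := S.h3 j hj a ⟨hprem, hlin⟩
  rw [← hcand] at hgl
  have h1 : t = tP S.h1.1 * affP k0u 0 ^ l := by
    refine Equiv.ext fun x => ?_
    rw [hgl, Equiv.Perm.mul_apply, affP_pow_zero, tP_coe, affP_coe, Units.val_pow_eq_pow_val]
  have h2 : tP S.h1.1 = t * (affP k0u 0 ^ l)⁻¹ := by rw [h1]; group
  rw [h2]
  exact H.mul_mem ht (H.inv_mem (H.pow_mem S.hd _))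

/-- The concrete recognition theorem. -/
theorem SetupE.eq_closure (S : SetupE K e m k0u H) :
    H = Subgroup.closure (Set.range (affP (1 : Kˣ)) ∪ {affP k0u 0, tP S.h1.1}) := by
  apply le_antisymm
  · intro h hh; exact S.mem_closure S.tP_mem (tP_none _) hh
  · rw [Subgroup.closure_le]
    rintro g (⟨j, rfl⟩ | hg)
    · exact S.htr j
    · simp only [Set.mem_insert_iff, Set.mem_singleton_iff] at hg
      rcases hg with rfl | rfl
      exacts [S.hd, S.tP_mem]

end Cfsg.Agent.H51.PSLE
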