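import Mathlib
import Cfsg.Agent.H51.F16
import Cfsg.Agent.H51.PSLE

/-! The finite checks for the recognition of `PSL₂(16)` (helper51). -/

set_option autoImplicit false

namespace Cfsg.Agent.H51

namespace PSLE

set_option maxRecDepth 100000 in
theorem check1_16 : Check1E F16 14 15 ⟨false, true, false, false⟩ := by decide +kernel

set_option maxRecDepth 100000 in
theorem check3_16 : Check3E F16 14 15 ⟨false, true, false, false⟩ := by decide +kernel

end PSLE

end Cfsg.Agent.H51
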