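import Mathlib
import Cfsg.Agent.H51.PSL16Act
import Cfsg.Agent.H51.PSL8Label
import Cfsg.Agent.H51.PSL16Check

/-! A simple group of order 4080 acts on its seventeen Sylow 2-subgroups as on the projective line
over the field with sixteen elements: the labelling (helper51). -/

set_option autoImplicit false

namespace Cfsg.Agent.H51.PSL16

open Subgroup PSLQ PSL8

section Pow

variable {G : Type*} [Group G]

/-- The labelling of the elementary abelian group generated by `a0`, `a1`, `a2`, `a3`. -/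
def P16 (a0 a1 a2 a3 : G) (u : F16) : G := bp a0 u.c0 * bp a1 u.c1 * bp a2 u.c2 * bp a3 u.c3

theorem P16_add {a0 a1 a2 a3 : G} (s0 : a0 * a0 = 1) (s1 : a1 * a1 = 1) (s2 : a2 * a2 = 1)
    (s3 : a3 * a3 = 1) (c01 : Commute a0 a1) (c02 : Commute a0 a2) (c03 : Commute a0 a3)
    (c12 : Commute a1 a2) (c13 : Commute a1 a3) (c23 : Commute a2 a3) (u v : F16) :
    P16 a0 a1 a2 a3 (u + v) = P16 a0 a1 a2 a3 u * P16 a0 a1 a2 a3 v := by
  show bp a0 (xor u.c0 v.c0) * bp a1 (xor u.c1 v.c1) * bp a2 (xor u.c2 v.c2)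
      * bp a3 (xor u.c3 v.c3)
    = (bp a0 u.c0 * bp a1 u.c1 * bp a2 u.c2 * bp a3 u.c3)
      * (bp a0 v.c0 * bp a1 v.c1 * bp a2 v.c2 * bp a3 v.c3)
  rw [bp_xor s0, bp_xor s1, bp_xor s2, bp_xor s3]
  have h1 : Commute (bp a0 v.c0) (bp a1 u.c1) := bp_commute c01 _ _
  have h2 : Commute (bp a0 v.c0 * bp a1 v.c1) (bp a2 u.c2) :=
    (bp_commute c02 _ _).mul_left (bp_commute c12 _ _)
  have h3 : Commute (bp a0 v.c0 * bp a1 v.c1 * bp a2 v.c2) (bp a3 u.c3) :=
    ((bp_commute c03 _ _).mul_left (bp_commute c13 _ _)).mul_left (bp_commute c23 _ _)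
  rw [h1.mul_mul_mul_comm, h2.mul_mul_mul_comm, h3.mul_mul_mul_comm]

theorem zeta_mul16 (u : F16) : (zeta16U : F16) * u = ⟨u.c3, xor u.c0 u.c3, u.c1, u.c2⟩ := by
  rcases u with ⟨_ | _, _ | _, _ | _, _ | _⟩ <;> rfl

theorem P16_conj {g a0 a1 a2 a3 : G} (hg0 : g * a0 * g⁻¹ = a1) (hg1 : g * a1 * g⁻¹ = a2)
    (hg2 : g * a2 * g⁻¹ = a3) (hg3 : g * a3 * g⁻¹ = a0 * a1) (c01 : Commute a0 a1)
    (c02 : Commute a0 a2) (c03 : Commute a0 a3) (c12 : Commute a1 a2) (c13 : Commute a1 a3)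
    (s1 : a1 * a1 = 1) (u : F16) :
    g * P16 a0 a1 a2 a3 u * g⁻¹ = P16 a0 a1 a2 a3 ((zeta16U : F16) * u) := by
  rw [zeta_mul16]
  show g * (bp a0 u.c0 * bp a1 u.c1 * bp a2 u.c2 * bp a3 u.c3) * g⁻¹
    = bp a0 u.c3 * bp a1 (xor u.c0 u.c3) * bp a2 u.c1 * bp a3 u.c2
  have e : g * (bp a0 u.c0 * bp a1 u.c1 * bp a2 u.c2 * bp a3 u.c3) * g⁻¹
      = (g * bp a0 u.c0 * g⁻¹) * (g * bp a1 u.c1 * g⁻¹) * (g * bp a2 u.c2 * g⁻¹)
        * (g * bp a3 u.c3 * g⁻¹) := by group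
  rw [e, conj_bp, conj_bp, conj_bp, conj_bp, hg0, hg1, hg2, hg3, bp_mul, bp_xor s1]
  have hX0 : Commute (bp a1 u.c0) (bp a0 u.c3) := bp_commute c01.symm _ _
  have hX1 : Commute (bp a1 u.c0) (bp a1 u.c3) := bp_commute (Commute.refl a1) _ _
  have hY0 : Commute (bp a2 u.c1) (bp a0 u.c3) := bp_commute c02.symm _ _
  have hY1 : Commute (bp a2 u.c1) (bp a1 u.c3) := bp_commute c12.symm _ _
  have hZ0 : Commute (bp a3 u.c2) (bp a0 u.c3) := bp_commute c03.symm _ _
  have hZ1 : Commute (bp a3 u.c2) (bp a1 u.c3) := bp_commute c13.symm _ _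
  have hall : Commute (bp a1 u.c0 * bp a2 u.c1 * bp a3 u.c2) (bp a0 u.c3 * bp a1 u.c3) :=
    (((hX0.mul_right hX1).mul_left (hY0.mul_right hY1))).mul_left (hZ0.mul_right hZ1)
  calc bp a1 u.c0 * bp a2 u.c1 * bp a3 u.c2 * (bp a0 u.c3 * bp a1 u.c3)
      = (bp a0 u.c3 * bp a1 u.c3) * (bp a1 u.c0 * bp a2 u.c1 * bp a3 u.c2) := hall.eq
    _ = bp a0 u.c3 * (bp a1 u.c3 * bp a1 u.c0) * bp a2 u.c1 * bp a3 u.c2 := by
        simp only [mul_assoc]
    _ = bp a0 u.c3 * (bp a1 u.c0 * bp a1 u.c3) * bp a2 u.c1 * bp a3 u.c2 := by rw [hX1.eq]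

theorem P16_pow {g a0 a1 a2 a3 : G}
    (hconj : ∀ u, g * P16 a0 a1 a2 a3 u * g⁻¹ = P16 a0 a1 a2 a3 ((zeta16U : F16) * u)) (l : ℕ) :
    P16 a0 a1 a2 a3 ((zeta16U : F16) ^ l) = g ^ l * a0 * (g ^ l)⁻¹ := by
  induction l with
  | zero =>
    rw [pow_zero, pow_zero, one_mul, inv_one, mul_one]
    show bp a0 true * bp a1 false * bp a2 false * bp a3 false = a0
    simp [bp]
  | succ l ih =>
    rw [pow_succ', ← hconj, ih, pow_succ']
    group

theorem P16_eq_one {g a0 a1 a2 a3 : G} (h0 : a0 ≠ 1)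
    (hconj : ∀ u, g * P16 a0 a1 a2 a3 u * g⁻¹ = P16 a0 a1 a2 a3 ((zeta16U : F16) * u)) (u : F16)
    (h : P16 a0 a1 a2 a3 u = 1) : u = 0 := by
  by_contra hu
  obtain ⟨l, -, hl⟩ := PSLE.check1_16.2.2.2.2.2.1 u hu
  have hl' : u = (zeta16U : F16) ^ l := hl
  rw [hl', P16_pow hconj] at h
  exact h0 (conj_eq_one_iff.mp h)

end Pow

variable {G : Type*} [Group G] [Finite G] [IsSimpleGroup G]

/-- The labelling of the seventeen Sylow 2-subgroups by the projective line over `F16`. -/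
theorem exists_labeling (hG : Nat.card G = 4080) (Q Q0 : Sylow 2 G) (hne : Q0 ≠ Q) (P : F16 → G)
    (hPQ : ∀ u, P u ∈ (Q : Subgroup G)) (hPadd : ∀ u v, P (u + v) = P u * P v)
    (hP1 : ∀ u, P u = 1 → u = 0) :
    ∃ φ : G →* Equiv.Perm (Option F16), Function.Injective φ ∧
      (∀ u : F16, φ (P u) = affP 1 u) ∧
      (∀ (t : G) (f : F16 → F16), t • Q = Q → t • Q0 = Q0 →
        (∀ u, t * P u * t⁻¹ = P (f u)) →
          φ t none = none ∧ ∀ u, φ t (some u) = some (f u)) ∧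
      ∃ h : G, φ h none = some 0 := by
  have hP0 : P 0 = 1 := by
    have := hPadd 0 0
    rw [add_zero] at this
    exact right_eq_mul.mp this
  have hPinj : ∀ u v, P u = P v → u = v := by
    intro u v h
    have h1 := hPadd (u - v) v
    rw [sub_add_cancel, h] at h1
    exact sub_eq_zero.mp (hP1 _ (right_eq_mul.mp h1))
  let e : Option F16 → Sylow 2 G := fun x =>
    match x with
    | none => Q
    | some u => P u • Q0
  have he_inj : Function.Injective e := by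
    rintro (_ | i) (_ | j) h
    · rfl
    · exfalso; apply hne
      have h' : Q = P j • Q0 := h
      have h2 : Q0 = (P j)⁻¹ • Q := eq_inv_smul_iff.mpr h'.symm
      exact h2.trans (inv_smul_eq_iff.mpr (smul_self_of_mem2 Q (hPQ j)).symm)
    · exfalso; apply hne
      have h' : P i • Q0 = Q := h
      have h2 : Q0 = (P i)⁻¹ • Q := eq_inv_smul_iff.mpr h'
      exact h2.trans (inv_smul_eq_iff.mpr (smul_self_of_mem2 Q (hPQ i)).symm)
    · have h' : P i • Q0 = P j • Q0 := h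
      have h1 : ((P j)⁻¹ * P i) • Q0 = Q0 := by rw [mul_smul, h', inv_smul_smul]
      have h2 := sylow2_free hG Q Q0 hne (mul_mem (inv_mem (hPQ j)) (hPQ i)) h1
      have h3 : P i = P j := by
        rw [inv_mul_eq_one] at h2; exact h2.symm
      exact congrArg some (hPinj _ _ h3)
  have hcard : Nat.card (Option F16) = Nat.card (Sylow 2 G) := by
    rw [card_sylow2_eq hG, Finite.card_option, Nat.card_eq_fintype_card, card_F16]
  have he_bij : Function.Bijective e := (Nat.bijective_iff_injective_and_card e).mpr ⟨he_inj, hcard⟩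
  let E : Option F16 ≃ Sylow 2 G := Equiv.ofBijective e he_bij
  have hE_none : E none = Q := rfl
  have hE_some : ∀ u : F16, E (some u) = P u • Q0 := fun u => rfl
  let φ : G →* Equiv.Perm (Option F16) :=
    (E.symm.permCongrHom).toMonoidHom.comp (MulAction.toPermHom G (Sylow 2 G))
  have hφ : ∀ g x, φ g x = E.symm (g • E x) := by
    intro g x; rfl
  have hφP : ∀ v : F16, φ (P v) = affP 1 v := by
    intro v
    refine Equiv.ext fun x => ?_
    rcases x with _ | u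
    · rw [hφ, hE_none, Equiv.symm_apply_eq, affP_none, hE_none]
      exact smul_self_of_mem2 Q (hPQ v)
    · rw [hφ, hE_some, Equiv.symm_apply_eq, affP_some, hE_some, ← mul_smul, ← hPadd,
        Units.val_one, one_mul, add_comm]
  refine ⟨φ, ?_, hφP, ?_, ?_⟩
  · rw [← MonoidHom.ker_eq_bot_iff]
    rcases (MonoidHom.normal_ker φ).eq_bot_or_eq_top with h | h
    · exact h
    · exfalso
      have h1 : P 1 ∈ φ.ker := by rw [h]; trivial
      rw [MonoidHom.mem_ker, hφP] at h1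
      have h2 := congrArg (fun f : Equiv.Perm (Option F16) => f (some 0)) h1
      simp at h2
  · intro t f htQ htQ0 hf
    refine ⟨?_, fun u => ?_⟩
    · rw [hφ, hE_none, Equiv.symm_apply_eq, hE_none]
      exact htQ
    · rw [hφ, hE_some, Equiv.symm_apply_eq, hE_some, ← mul_smul]
      have h1 : t * P u = P (f u) * t := by rw [← hf u]; group
      rw [h1, mul_smul, htQ0]
  · obtain ⟨g, hg⟩ := MulAction.exists_smul_eq G Q Q0
    refine ⟨g, ?_⟩
    rw [hφ, hE_none, hg, Equiv.symm_apply_eq, hE_some, hP0, one_smul]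

end Cfsg.Agent.H51.PSL16
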