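import Mathlib
import Cfsg.Agent.H51.PSL16Label

/-! A simple group of order 4080 is isomorphic to a fixed permutation group of degree seventeen
(helper51). -/

set_option autoImplicit false

namespace Cfsg.Agent.H51.PSL16

open Subgroup PSLQ PSLE PSL8

/-- The group `PSL₂(16)` as a permutation group of the projective line. -/
def K16 : Subgroup (Equiv.Perm (Option F16)) :=
  closure (Set.range (affP (1 : F16ˣ)) ∪ {affP zeta16U 0, tP check1_16.1})

variable {G : Type*} [Group G] [Finite G] [IsSimpleGroup G]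

/-- If the element of order 15 of the two-point stabiliser acts as a root of `X⁴ + X + 1`, the
group is `PSL₂(16)`. -/
theorem recog_of_fano (hG : Nat.card G = 4080) (Q Q0 : Sylow 2 G) (hne : Q0 ≠ Q) {g a : G}
    (hgQ : g • Q = Q) (hgQ0 : g • Q0 = Q0) (haQ : a ∈ (Q : Subgroup G))
    (ha1 : a ≠ 1) (hrel : g ^ 4 * a * (g ^ 4)⁻¹ = a * (g * a * g⁻¹)) : Nonempty (G ≃* K16) := by
  have hgN : g ∈ normalizer ((Q : Subgroup G) : Set G) := Sylow.smul_eq_iff_mem_normalizer.mp hgQ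
  obtain ⟨c, hc_def⟩ : ∃ c : ℕ → G, ∀ i, c i = g ^ i * a * (g ^ i)⁻¹ := ⟨_, fun i => rfl⟩
  have hcQ : ∀ i, c i ∈ (Q : Subgroup G) := by
    intro i
    have : g ^ i ∈ normalizer ((Q : Subgroup G) : Set G) := pow_mem hgN i
    rw [hc_def]
    exact (Subgroup.mem_normalizer_iff.mp this a).mp haQ
  have hc1 : ∀ i, c i ≠ 1 := fun i h => ha1 (conj_eq_one_iff.mp ((hc_def i).symm.trans h))
  have hcsq : ∀ i, c i * c i = 1 := by
    intro i
    rw [← sq]
    exact sylow2_sq hG Q (hcQ i)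
  have hcomm : ∀ i j, Commute (c i) (c j) := fun i j => sylow2_comm hG Q (hcQ i) (hcQ j)
  have hconj : ∀ i, g * c i * g⁻¹ = c (i + 1) := by
    intro i
    rw [hc_def, hc_def, pow_succ']
    group
  have e0 : c 0 = a := by rw [hc_def]; simp
  have e1 : c 1 = g * a * g⁻¹ := by rw [hc_def]; simp
  have h4 : c 4 = c 0 * c 1 := by rw [hc_def 4, hrel, e0, e1]
  have hg0 : g * c 0 * g⁻¹ = c 1 := hconj 0
  have hg1 : g * c 1 * g⁻¹ = c 2 := hconj 1
  have hg2 : g * c 2 * g⁻¹ = c 3 := hconj 2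
  have hg3 : g * c 3 * g⁻¹ = c 0 * c 1 := (hconj 3).trans h4
  have hbp : ∀ (b : G) (x : Bool), b ∈ (Q : Subgroup G) → bp b x ∈ (Q : Subgroup G) := by
    intro b x hb
    cases x
    exacts [one_mem _, hb]
  have hPQ : ∀ u, P16 (c 0) (c 1) (c 2) (c 3) u ∈ (Q : Subgroup G) := fun u =>
    mul_mem (mul_mem (mul_mem (hbp _ _ (hcQ 0)) (hbp _ _ (hcQ 1))) (hbp _ _ (hcQ 2)))
      (hbp _ _ (hcQ 3))
  have hPadd : ∀ u v, P16 (c 0) (c 1) (c 2) (c 3) (u + v)
      = P16 (c 0) (c 1) (c 2) (c 3) u * P16 (c 0) (c 1) (c 2) (c 3) v :=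
    P16_add (hcsq 0) (hcsq 1) (hcsq 2) (hcsq 3) (hcomm 0 1) (hcomm 0 2) (hcomm 0 3) (hcomm 1 2)
      (hcomm 1 3) (hcomm 2 3)
  have hconjP : ∀ u, g * P16 (c 0) (c 1) (c 2) (c 3) u * g⁻¹
      = P16 (c 0) (c 1) (c 2) (c 3) ((zeta16U : F16) * u) :=
    P16_conj hg0 hg1 hg2 hg3 (hcomm 0 1) (hcomm 0 2) (hcomm 0 3) (hcomm 1 2) (hcomm 1 3) (hcsq 1)
  have hP1 : ∀ u, P16 (c 0) (c 1) (c 2) (c 3) u = 1 → u = 0 := P16_eq_one (hc1 0) hconjP
  obtain ⟨φ, hinjφ, hφP, hφt, hT⟩ :=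
    exists_labeling hG Q Q0 hne (P16 (c 0) (c 1) (c 2) (c 3)) hPQ hPadd hP1
  obtain ⟨h1, h2⟩ := hφt g (fun u => (zeta16U : F16) * u) hgQ hgQ0 hconjP
  have hφg : φ g = affP zeta16U 0 := by
    refine Equiv.ext fun x => ?_
    rcases x with _ | u
    · rw [h1, affP_none]
    · rw [h2, affP_some, add_zero]
  have e : G ≃* φ.range := MonoidHom.ofInjective hinjφ
  have S : SetupE F16 14 15 zeta16U φ.range :=
    { h1 := check1_16
      h3 := check3_16
      card := by rw [← Nat.card_congr e.toEquiv, hG, card_F16]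
      htr := fun w => ⟨P16 (c 0) (c 1) (c 2) (c 3) w, hφP w⟩
      hd := ⟨g, hφg⟩
      hT := by
        obtain ⟨h, hh⟩ := hT
        exact ⟨φ h, ⟨h, rfl⟩, hh⟩ }
  exact ⟨e.trans (MulEquiv.subgroupCongr S.eq_closure)⟩

/-- A simple group of order 4080 is isomorphic to `K16`. -/
theorem iso_K16 (hG : Nat.card G = 4080) : Nonempty (G ≃* K16) := by
  obtain ⟨Q⟩ : Nonempty (Sylow 2 G) := inferInstance
  have hnt : Nontrivial (Sylow 2 G) :=
    Finite.one_lt_card_iff_nontrivial.mp (by rw [card_sylow2_eq hG]; norm_num)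
  obtain ⟨Q0, hne⟩ := exists_ne Q
  obtain ⟨a, haQ, ha1⟩ : ∃ a ∈ (Q : Subgroup G), a ≠ 1 := by
    by_contra hcon
    push Not at hcon
    have hbot : (Q : Subgroup G) = ⊥ := (Subgroup.eq_bot_iff_forall _).mpr hcon
    have h8 := card_sylow2 hG Q
    rw [hbot, Subgroup.card_bot] at h8
    omega
  obtain ⟨g, hgQ, hgQ0, hg⟩ := exists_order15 hG Q Q0 hne
  rcases exists_fano hG Q hgQ hg haQ ha1 with hrel | hrel
  · exact recog_of_fano hG Q Q0 hne hgQ hgQ0 haQ ha1 hrel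
  · refine recog_of_fano hG Q Q0 hne (g := g⁻¹) ?_ ?_ haQ ha1 hrel
    · exact inv_smul_eq_iff.mpr hgQ.symm
    · exact inv_smul_eq_iff.mpr hgQ0.symm

end Cfsg.Agent.H51.PSL16
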