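import Mathlib
import Cfsg.Agent.H51.F8
import Cfsg.Agent.H51.PSLE

/-! The finite checks for the recognition of `PSL₂(8)` (helper51). -/

set_option autoImplicit false

namespace Cfsg.Agent.H51.PSLE

set_option maxRecDepth 100000 in
theorem check1_8 : Check1E F8 6 7 ⟨false, true, false⟩ := by decide +kernel

set_option maxRecDepth 100000 in
theorem check3_8 : Check3E F8 6 7 ⟨false, true, false⟩ := by decide +kernel

end Cfsg.Agent.H51.PSLE
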