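import Mathlib
import Cfsg.Agent.H51.PSLRecDefs

/-! The finite checks for the recognition of `PSL₂(17)` (helper51). -/

set_option autoImplicit false

namespace Cfsg.Agent.H51.PSLRec

set_option maxRecDepth 100000 in
theorem check1_17 : Check1 17 8 9 3 6 := by decide +kernel

set_option maxRecDepth 100000 in
theorem check3_17 : Check3 17 8 9 6 := by decide +kernel

theorem arith_17 : ∀ n, n ∣ (17 + 1) * 8 → n % 17 = 1 → n = 1 ∨ n = 17 + 1 := by
  intro n hn hmod
  have hle : n ≤ 144 := Nat.le_of_dvd (by norm_num) hn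
  have key : ∀ n ≤ 144, n ∣ 144 → n % 17 = 1 → n = 1 ∨ n = 18 := by decide
  exact key n hle hn hmod

end Cfsg.Agent.H51.PSLRec
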