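import Mathlib
import Cfsg.Agent.H51.PSLRecDefs

/-! The finite checks for the recognition of `PSL₂(23)` (helper51). -/

set_option autoImplicit false

namespace Cfsg.Agent.H51.PSLRec

set_option maxRecDepth 100000 in
theorem check1_23 : Check1 23 11 2 5 14 := by decide +kernel

set_option maxRecDepth 100000 in
theorem check3_23 : Check3 23 11 2 14 := by decide +kernel

set_option maxRecDepth 100000 in
theorem arith_23 : ∀ n, n ∣ (23 + 1) * 11 → n % 23 = 1 → n = 1 ∨ n = 23 + 1 := by
  intro n hn hmod
  have hle : n ≤ 264 := Nat.le_of_dvd (by norm_num) hn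
  have key : ∀ n ≤ 264, n ∣ 264 → n % 23 = 1 → n = 1 ∨ n = 24 := by decide +kernel
  exact key n hle hn hmod

end Cfsg.Agent.H51.PSLRec
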