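import Cfsg.Agent.H51.QdField

set_option autoImplicit false
open Cfsg Matrix

namespace Cfsg.Agent.H51

section core
variable {F : Type*} [Field F]

/-- entry (1,0) of a conjugate in `SL₂`. -/
theorem sl2_conj_10 (A B : SpecialLinearGroup (Fin 2) F) :
    ((A * B * A⁻¹ : SpecialLinearGroup (Fin 2) F) : Matrix (Fin 2) (Fin 2) F) 1 0 =
      (A : Matrix (Fin 2) (Fin 2) F) 1 0 * (A : Matrix (Fin 2) (Fin 2) F) 1 1 * (B : Matrix (Fin 2) (Fin 2) F) 0 0
      + (A : Matrix (Fin 2) (Fin 2) F) 1 1 * (A : Matrix (Fin 2) (Fin 2) F) 1 1 * (B : Matrix (Fin 2) (Fin 2) F) 1 0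
      - (A : Matrix (Fin 2) (Fin 2) F) 1 0 * (A : Matrix (Fin 2) (Fin 2) F) 1 0 * (B : Matrix (Fin 2) (Fin 2) F) 0 1
      - (A : Matrix (Fin 2) (Fin 2) F) 1 0 * (A : Matrix (Fin 2) (Fin 2) F) 1 1 * (B : Matrix (Fin 2) (Fin 2) F) 1 1 := by
  show ((A : Matrix (Fin 2) (Fin 2) F) * (B : Matrix (Fin 2) (Fin 2) F) *
    ((A⁻¹ : SpecialLinearGroup (Fin 2) F) : Matrix (Fin 2) (Fin 2) F)) 1 0 = _
  simp [Matrix.mul_apply, Fin.sum_univ_two, Matrix.adjugate_fin_two]
  ring

/-- upper triangular matrices in `SL₂`. -/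
def sl2Bor (F : Type*) [Field F] : Subgroup (SpecialLinearGroup (Fin 2) F) where
  carrier := {A | (A : Matrix (Fin 2) (Fin 2) F) 1 0 = 0}
  mul_mem' := by
    intro a b ha hb
    simp only [Set.mem_ofPred_eq] at ha hb ⊢
    show ((a : Matrix (Fin 2) (Fin 2) F) * (b : Matrix (Fin 2) (Fin 2) F)) 1 0 = 0
    simp [Matrix.mul_apply, Fin.sum_univ_two, ha, hb]
  one_mem' := by simp
  inv_mem' := by
    intro a ha
    simp only [Set.mem_ofPred_eq] at ha ⊢
    simp [Matrix.adjugate_fin_two, ha]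

/-- upper unitriangular matrices in `SL₂`. -/
def sl2Uni (F : Type*) [Field F] : Subgroup (SpecialLinearGroup (Fin 2) F) where
  carrier := {A | (A : Matrix (Fin 2) (Fin 2) F) 1 0 = 0 ∧ (A : Matrix (Fin 2) (Fin 2) F) 0 0 = 1 ∧
    (A : Matrix (Fin 2) (Fin 2) F) 1 1 = 1}
  mul_mem' := by
    rintro a b ⟨ha, ha0, ha1⟩ ⟨hb, hb0, hb1⟩
    refine ⟨?_, ?_, ?_⟩
    · show ((a : Matrix (Fin 2) (Fin 2) F) * (b : Matrix (Fin 2) (Fin 2) F)) 1 0 = 0
      simp [Matrix.mul_apply, Fin.sum_univ_two, ha, hb]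
    · show ((a : Matrix (Fin 2) (Fin 2) F) * (b : Matrix (Fin 2) (Fin 2) F)) 0 0 = 1
      simp [Matrix.mul_apply, Fin.sum_univ_two, ha0, hb, hb0]
    · show ((a : Matrix (Fin 2) (Fin 2) F) * (b : Matrix (Fin 2) (Fin 2) F)) 1 1 = 1
      simp [Matrix.mul_apply, Fin.sum_univ_two, ha, ha1, hb1]
  one_mem' := by simp
  inv_mem' := by
    rintro a ⟨ha, ha0, ha1⟩
    refine ⟨?_, ?_, ?_⟩
    · simp [Matrix.adjugate_fin_two, ha]
    · simp [Matrix.adjugate_fin_two, ha1]
    · simp [Matrix.adjugate_fin_two, ha0]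

/-- The Borel subgroup of the affine group: block upper triangular. -/
def affB (F : Type*) [Field F] : Subgroup (affSub F) := (sl2Bor F).comap (blockHom F)

theorem mem_affB (M : affSub F) : M ∈ affB F ↔ (blockA M : Matrix (Fin 2) (Fin 2) F) 1 0 = 0 := Iff.rfl

/-- The unitriangular subgroup of the affine group. -/
def affU (F : Type*) [Field F] : Subgroup (affSub F) := (sl2Uni F).comap (blockHom F)

theorem mem_affU (M : affSub F) : M ∈ affU F ↔ (blockA M : Matrix (Fin 2) (Fin 2) F) 1 0 = 0 ∧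
    (blockA M : Matrix (Fin 2) (Fin 2) F) 0 0 = 1 ∧ (blockA M : Matrix (Fin 2) (Fin 2) F) 1 1 = 1 := Iff.rfl

theorem affU_le_affB : affU F ≤ affB F := fun _ h => h.1

theorem ker_le_affU : (blockHom F).ker ≤ affU F := by
  intro M hM
  rw [MonoidHom.mem_ker, blockHom_apply] at hM
  rw [mem_affU, hM]
  simp

/-- upper unitriangular element of `SL₂` -/
def sl2U (F : Type*) [Field F] (a : F) : SpecialLinearGroup (Fin 2) F :=
  ⟨!![1, a; 0, 1], by simp [Matrix.det_fin_two_of]⟩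

/-- the Weyl element of `SL₂` -/
def sl2W (F : Type*) [Field F] : SpecialLinearGroup (Fin 2) F :=
  ⟨!![0, 1; -1, 0], by simp [Matrix.det_fin_two_of]⟩

/-- diagonal element of `SL₂` -/
def sl2D (F : Type*) [Field F] (a : F) (ha : a ≠ 0) : SpecialLinearGroup (Fin 2) F :=
  ⟨!![a, 0; 0, a⁻¹], by simp [Matrix.det_fin_two_of, ha]⟩

theorem sl2U_mem (a : F) : sl2U F a ∈ sl2Uni F := by
  refine ⟨?_, ?_, ?_⟩ <;> simp [sl2U]

theorem eq_sl2U_of_mem {A : SpecialLinearGroup (Fin 2) F} (hA : A ∈ sl2Uni F) :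
    A = sl2U F ((A : Matrix (Fin 2) (Fin 2) F) 0 1) := by
  obtain ⟨h1, h2, h3⟩ := hA
  apply Subtype.ext
  ext i j
  fin_cases i <;> fin_cases j <;> simp [sl2U, h1, h2, h3]

theorem sl2U_mul (a b : F) : sl2U F a * sl2U F b = sl2U F (a + b) := by
  apply Subtype.ext
  show (sl2U F a).1 * (sl2U F b).1 = (sl2U F (a + b)).1
  ext i j
  fin_cases i <;> fin_cases j <;> simp [sl2U, Matrix.mul_apply, Fin.sum_univ_two, add_comm]

theorem sl2U_zero : sl2U F 0 = 1 := by
  apply Subtype.ext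
  ext i j
  fin_cases i <;> fin_cases j <;> simp [sl2U]

theorem sl2U_pow (a : F) (n : ℕ) : sl2U F a ^ n = sl2U F (n • a) := by
  induction n with
  | zero => simp [sl2U_zero]
  | succ n ih => rw [pow_succ, ih, sl2U_mul, succ_nsmul]

theorem sl2Uni_isPGroup {p : ℕ} [CharP F p] : IsPGroup p (sl2Uni F) := by
  intro A
  refine ⟨1, ?_⟩
  apply Subtype.ext
  rw [pow_one, Subgroup.coe_pow, Subgroup.coe_one, eq_sl2U_of_mem A.2, sl2U_pow]
  rw [← sl2U_zero]
  congr 1
  simp [CharP.cast_eq_zero F p]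

theorem affU_isPGroup {F : Type*} [Field F] [Fintype F] {p : ℕ} [Fact p.Prime] [CharP F p] :
    IsPGroup p (affU F) :=
  (sl2Uni_isPGroup (p := p)).comap_of_ker_isPGroup (blockHom F) ker_isPGroup

/-- the standard unipotent element -/
def uElt (F : Type*) [Field F] (a : F) : affSub F := mkAff (sl2U F a) 0

theorem uElt_mem (a : F) : uElt F a ∈ affU F := by
  rw [mem_affU, uElt, blockA_mkAff]
  simp [sl2U]

theorem blockA_inv (g : affSub F) : blockA g⁻¹ = (blockA g)⁻¹ := map_inv (blockHom F) g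

theorem blockA_conj (g m : affSub F) : blockA (g * m * g⁻¹) = blockA g * blockA m * (blockA g)⁻¹ := by
  rw [blockA_mul, blockA_mul, blockA_inv]

theorem normalizer_affU : Subgroup.normalizer (affU F : Set (affSub F)) = affB F := by
  apply le_antisymm
  · intro g hg
    have h1 := (Subgroup.mem_normalizer_iff.1 hg (uElt F 1)).1 (uElt_mem 1)
    rw [mem_affU, blockA_conj, sl2_conj_10] at h1
    have h2 := h1.1
    simp only [uElt, blockA_mkAff] at h2
    simp [sl2U] at h2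
    rw [mem_affB]
    exact h2
  · rw [Subgroup.le_normalizer_iff]
    intro b hb u hu
    rw [mem_affB] at hb
    rw [mem_affU] at hu ⊢
    obtain ⟨hu10, hu00, hu11⟩ := hu
    have hdet := (blockA b).2
    rw [Matrix.det_fin_two, hb] at hdet
    refine ⟨?_, ?_, ?_⟩
    · rw [blockA_conj, sl2_conj_10, hb, hu10]; simp
    · rw [blockA_conj]
      show ((blockA b : Matrix (Fin 2) (Fin 2) F) * (blockA u : Matrix (Fin 2) (Fin 2) F) *
        (((blockA b)⁻¹ : SpecialLinearGroup (Fin 2) F) : Matrix (Fin 2) (Fin 2) F)) 0 0 = 1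
      simp [Matrix.mul_apply, Fin.sum_univ_two, Matrix.adjugate_fin_two, hb, hu10, hu00, hu11]
      linear_combination hdet
    · rw [blockA_conj]
      show ((blockA b : Matrix (Fin 2) (Fin 2) F) * (blockA u : Matrix (Fin 2) (Fin 2) F) *
        (((blockA b)⁻¹ : SpecialLinearGroup (Fin 2) F) : Matrix (Fin 2) (Fin 2) F)) 1 1 = 1
      simp [Matrix.mul_apply, Fin.sum_univ_two, Matrix.adjugate_fin_two, hb, hu10, hu00, hu11]
      linear_combination hdet

theorem normalizer_affU_ne_top : Subgroup.normalizer (affU F : Set (affSub F)) ≠ ⊤ := by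
  rw [normalizer_affU]
  intro h
  have : mkAff (sl2W F) 0 ∈ affB F := by
    rw [h]; trivial
  rw [mem_affB, blockA_mkAff] at this
  simp [sl2W] at this

/-- conjugating a translation -/
theorem transl_conj_ker (m v : affSub F) :
    transl (m * v * m⁻¹) = (blockA m : Matrix (Fin 2) (Fin 2) F).mulVec (transl v) +
      ((blockA m * blockA v : SpecialLinearGroup (Fin 2) F) : Matrix (Fin 2) (Fin 2) F).mulVec (transl m⁻¹) +
      transl m := by
  rw [transl_mul, transl_mul, blockA_mul]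
  abel

theorem transl_inv (m : affSub F) :
    (blockA m : Matrix (Fin 2) (Fin 2) F).mulVec (transl m⁻¹) + transl m = 0 := by
  have := transl_mul m m⁻¹
  rw [mul_inv_cancel, transl_one] at this
  exact this.symm

theorem conj_ker (m v : affSub F) (hv : v ∈ (blockHom F).ker) :
    m * v * m⁻¹ ∈ (blockHom F).ker ∧
    transl (m * v * m⁻¹) = (blockA m : Matrix (Fin 2) (Fin 2) F).mulVec (transl v) := by
  refine ⟨(MonoidHom.normal_ker (blockHom F)).conj_mem v hv m, ?_⟩
  rw [transl_conj_ker]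
  rw [MonoidHom.mem_ker, blockHom_apply] at hv
  rw [hv, mul_one, add_assoc, transl_inv, add_zero]

theorem eq_mkAff_of_ker {v : affSub F} (hv : v ∈ (blockHom F).ker) : v = mkAff 1 (transl v) := by
  apply aff_ext
  · rw [blockA_mkAff]; exact hv
  · rw [transl_mkAff]

theorem mkAff_one_mul (s t : Fin 2 → F) :
    mkAff (1 : SpecialLinearGroup (Fin 2) F) s * mkAff 1 t = mkAff 1 (s + t) := by
  apply aff_ext
  · rw [blockA_mul, blockA_mkAff, blockA_mkAff, blockA_mkAff, one_mul]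
  · rw [transl_mul, blockA_mkAff, transl_mkAff, transl_mkAff, transl_mkAff]
    simp [add_comm]

theorem transl_inv_ker {v : affSub F} (hv : v ∈ (blockHom F).ker) : transl v⁻¹ = - transl v := by
  have h := transl_inv v
  rw [MonoidHom.mem_ker, blockHom_apply] at hv
  rw [hv] at h
  have h' : (1 : Matrix (Fin 2) (Fin 2) F).mulVec (transl v⁻¹) + transl v = 0 := h
  rw [Matrix.one_mulVec] at h'
  exact eq_neg_of_add_eq_zero_left h'

theorem comm_ker (m k : affSub F) (hk : k ∈ (blockHom F).ker) :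
    m * k * m⁻¹ * k⁻¹ ∈ (blockHom F).ker ∧
    transl (m * k * m⁻¹ * k⁻¹) =
      (blockA m : Matrix (Fin 2) (Fin 2) F).mulVec (transl k) - transl k := by
  obtain ⟨h1, h2⟩ := conj_ker m k hk
  refine ⟨Subgroup.mul_mem _ h1 (Subgroup.inv_mem _ hk), ?_⟩
  rw [transl_mul_of_ker h1, transl_inv_ker hk, h2]
  abel

theorem mkAff_one_zero : mkAff (1 : SpecialLinearGroup (Fin 2) F) ![0, 0] = 1 := by
  apply aff_ext
  · rw [blockA_mkAff, blockA_one]
  · rw [transl_mkAff, transl_one]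
    ext i; fin_cases i <;> simp

theorem vec2_eta (t : Fin 2 → F) : t = ![t 0, t 1] := by
  ext i; fin_cases i <;> simp

theorem mem_ker_of_affU {m : affSub F} (hmU : m ∈ affU F)
    (ha : (blockA m : Matrix (Fin 2) (Fin 2) F) 0 1 = 0) : m ∈ (blockHom F).ker := by
  show blockA m = 1
  have h := eq_sl2U_of_mem (A := blockA m) hmU
  rw [h, ha, sl2U_zero]

theorem core_Z (T : Subgroup (affSub F)) (hTU : T ≤ affU F) (hT : T ≠ ⊥)
    (hB : affB F ≤ Subgroup.normalizer (T : Set (affSub F))) (x : F) :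
    mkAff 1 ![x, 0] ∈ T := by
  have conjmem : ∀ b ∈ affB F, ∀ t ∈ T, b * t * b⁻¹ ∈ T := fun b hb t ht =>
    (Subgroup.mem_normalizer_iff.1 (hB hb) t).1 ht
  have step1 : ∃ z : F, z ≠ 0 ∧ mkAff 1 ![z, 0] ∈ T := by
    obtain ⟨m, hm, hm1⟩ := (Subgroup.bot_or_exists_ne_one T).resolve_left hT
    have hmU := (mem_affU m).1 (hTU hm)
    by_cases ha : (blockA m : Matrix (Fin 2) (Fin 2) F) 0 1 = 0
    · have hmk : m ∈ (blockHom F).ker := mem_ker_of_affU (hTU hm) ha
      by_cases hy : transl m 1 = 0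
      · refine ⟨transl m 0, ?_, ?_⟩
        · intro h0
          apply hm1
          apply eq_one_of_ker_of_transl hmk
          ext i; fin_cases i <;> simp [h0, hy]
        · have h3 : m = mkAff 1 ![transl m 0, 0] := by
            conv_lhs => rw [eq_mkAff_of_ker hmk, vec2_eta (transl m), hy]
          rw [← h3]; exact hm
      · refine ⟨transl m 1, hy, ?_⟩
        obtain ⟨h1, h2⟩ := comm_ker (uElt F 1) m hmk
        have hmem : uElt F 1 * m * (uElt F 1)⁻¹ * m⁻¹ ∈ T :=
          T.mul_mem (conjmem _ (affU_le_affB (uElt_mem 1)) m hm) (T.inv_mem hm)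
        rw [eq_mkAff_of_ker h1, h2, uElt, blockA_mkAff] at hmem
        convert hmem using 2
        ext i; fin_cases i <;> simp [sl2U, Matrix.mulVec, dotProduct]
    · refine ⟨-(blockA m : Matrix (Fin 2) (Fin 2) F) 0 1, neg_ne_zero.2 ha, ?_⟩
      have hk := mkAff_one_mem_ker (R := F) ![0, 1]
      have hkB : mkAff (1 : SpecialLinearGroup (Fin 2) F) ![0, 1] ∈ affB F := by
        rw [mem_affB, blockA_mkAff]; simp
      obtain ⟨h1, h2⟩ := comm_ker m (mkAff 1 ![0, 1]) hk
      have hmem : m * mkAff 1 ![0, 1] * m⁻¹ * (mkAff 1 ![0, 1])⁻¹ ∈ T := by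
        have h4 := T.inv_mem (T.mul_mem (conjmem _ hkB m hm) (T.inv_mem hm))
        have e : (mkAff (1 : SpecialLinearGroup (Fin 2) F) ![0, 1] * m *
            (mkAff 1 ![0, 1])⁻¹ * m⁻¹)⁻¹ = m * mkAff 1 ![0, 1] * m⁻¹ * (mkAff 1 ![0, 1])⁻¹ := by
          group
        rw [e] at h4
        exact h4
      rw [eq_mkAff_of_ker h1, h2, transl_mkAff] at hmem
      have hm00 := hmU.2.1
      have hm11 := hmU.2.2
      have e2 : (blockA m : Matrix (Fin 2) (Fin 2) F).mulVec ![0, 1] - ![0, 1] =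
          ![(blockA m : Matrix (Fin 2) (Fin 2) F) 0 1, 0] := by
        ext i; fin_cases i <;> simp [Matrix.mulVec, dotProduct, hm11]
      rw [e2] at hmem
      have h5 := T.inv_mem hmem
      have e3 : (mkAff (1 : SpecialLinearGroup (Fin 2) F) ![(blockA m : Matrix (Fin 2) (Fin 2) F) 0 1, 0])⁻¹ =
          mkAff 1 ![-(blockA m : Matrix (Fin 2) (Fin 2) F) 0 1, 0] := by
        rw [inv_eq_iff_mul_eq_one, mkAff_one_mul]
        rw [← mkAff_one_zero]
        congr 1
        ext i; fin_cases i <;> simp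
      rw [e3] at h5
      exact h5
  obtain ⟨z, hz, hzT⟩ := step1
  by_cases hx : x = 0
  · subst hx
    rw [mkAff_one_zero]; exact T.one_mem
  · have hd : mkAff (sl2D F (x / z) (div_ne_zero hx hz)) 0 ∈ affB F := by
      rw [mem_affB, blockA_mkAff]; simp [sl2D]
    have h3 := conjmem _ hd _ hzT
    obtain ⟨h1, h2⟩ := conj_ker (mkAff (sl2D F (x / z) (div_ne_zero hx hz)) 0) _
      (mkAff_one_mem_ker ![z, 0])
    rw [eq_mkAff_of_ker h1, h2, blockA_mkAff, transl_mkAff] at h3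
    convert h3 using 2
    ext i; fin_cases i <;> simp [sl2D, Matrix.mulVec, dotProduct, hz]

theorem core_normalizer (T : Subgroup (affSub F)) (hTU : T ≤ affU F) (hT : T ≠ ⊥)
    (hB : affB F ≤ Subgroup.normalizer (T : Set (affSub F))) (hne : T ≠ (blockHom F).ker) :
    Subgroup.normalizer (T : Set (affSub F)) = affB F := by
  apply le_antisymm _ hB
  intro g hg
  rw [mem_affB]
  by_contra hc
  have hZ := core_Z T hTU hT hB
  have hker : (blockHom F).ker ≤ T := by
    intro v hv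
    rw [eq_mkAff_of_ker hv]
    have h3 := (Subgroup.mem_normalizer_iff.1 hg _).1
      (hZ (transl v 1 / (blockA g : Matrix (Fin 2) (Fin 2) F) 1 0))
    obtain ⟨h1, h2⟩ := conj_ker g _
      (mkAff_one_mem_ker ![transl v 1 / (blockA g : Matrix (Fin 2) (Fin 2) F) 1 0, 0])
    rw [eq_mkAff_of_ker h1, h2, transl_mkAff] at h3
    have h4 := T.mul_mem (hZ (transl v 0 - (blockA g : Matrix (Fin 2) (Fin 2) F) 0 0 *
      (transl v 1 / (blockA g : Matrix (Fin 2) (Fin 2) F) 1 0))) h3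
    rw [mkAff_one_mul] at h4
    convert h4 using 2
    ext i
    fin_cases i
    · simp [Matrix.mulVec, dotProduct]
    · simp [Matrix.mulVec, dotProduct]
      field_simp
  have hnle : ¬ T ≤ (blockHom F).ker := fun h => hne (le_antisymm h hker)
  obtain ⟨m, hm, hmk⟩ := SetLike.not_le_iff_exists.1 hnle
  have hmU := (mem_affU m).1 (hTU hm)
  have ha : (blockA m : Matrix (Fin 2) (Fin 2) F) 0 1 ≠ 0 :=
    fun ha => hmk (mem_ker_of_affU (hTU hm) ha)
  have h5 := hTU ((Subgroup.mem_normalizer_iff.1 hg m).1 hm)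
  rw [mem_affU, blockA_conj, sl2_conj_10, hmU.1, hmU.2.1, hmU.2.2] at h5
  have h6 := h5.1
  have h7 : (blockA g : Matrix (Fin 2) (Fin 2) F) 1 0 * (blockA g : Matrix (Fin 2) (Fin 2) F) 1 0 *
      (blockA m : Matrix (Fin 2) (Fin 2) F) 0 1 = 0 := by linear_combination -h6
  simp [hc, ha] at h7

end core

end Cfsg.Agent.H51
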