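import Cfsg.Agent.H51.QdSylow

set_option autoImplicit false
open Cfsg Matrix

namespace Cfsg.Agent.H51

section core
variable {F : Type*} [Field F]

theorem heis_cA_mul {M N : affSub F} (hM : M ∈ affU F) (hN : N ∈ affU F) :
    (blockA (M * N) : Matrix (Fin 2) (Fin 2) F) 0 1 =
      (blockA M : Matrix (Fin 2) (Fin 2) F) 0 1 + (blockA N : Matrix (Fin 2) (Fin 2) F) 0 1 := by
  have hM' := (mem_affU M).1 hM
  have hN' := (mem_affU N).1 hN
  rw [blockA_mul]
  show ((blockA M).1 * (blockA N).1) 0 1 = _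
  simp only [Matrix.mul_apply, Fin.sum_univ_two]
  have e1 : (blockA M).1 0 0 = 1 := hM'.2.1
  have e2 : (blockA N).1 1 1 = 1 := hN'.2.2
  rw [e1, e2]
  show 1 * (blockA N).1 0 1 + (blockA M).1 0 1 * 1 = (blockA M).1 0 1 + (blockA N).1 0 1
  ring

theorem heis_transl_mul {M N : affSub F} (hM : M ∈ affU F) :
    transl (M * N) = ![transl N 0 + (blockA M : Matrix (Fin 2) (Fin 2) F) 0 1 * transl N 1 + transl M 0,
      transl N 1 + transl M 1] := by
  have hM' := (mem_affU M).1 hM
  rw [transl_mul]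
  ext i; fin_cases i <;> simp [Matrix.mulVec, dotProduct, hM'.1, hM'.2.1, hM'.2.2]

/-- the swap map on the Heisenberg group -/
def heisSwapFun (M : affU F) : affU F :=
  ⟨mkAff (sl2U F (transl M.1 1))
    ![(blockA M.1 : Matrix (Fin 2) (Fin 2) F) 0 1 * transl M.1 1 - transl M.1 0,
      (blockA M.1 : Matrix (Fin 2) (Fin 2) F) 0 1], by
    rw [mem_affU, blockA_mkAff]; exact sl2U_mem _⟩

theorem heisSwapFun_blockA (M : affU F) : blockA (heisSwapFun M).1 = sl2U F (transl M.1 1) :=
  blockA_mkAff _ _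

theorem heisSwapFun_transl (M : affU F) : transl (heisSwapFun M).1 =
    ![(blockA M.1 : Matrix (Fin 2) (Fin 2) F) 0 1 * transl M.1 1 - transl M.1 0,
      (blockA M.1 : Matrix (Fin 2) (Fin 2) F) 0 1] :=
  transl_mkAff _ _

theorem sl2U_01 (a : F) : (sl2U F a : Matrix (Fin 2) (Fin 2) F) 0 1 = a := by
  simp [sl2U]

theorem heisSwapFun_invol (M : affU F) : heisSwapFun (heisSwapFun M) = M := by
  apply Subtype.ext
  apply aff_ext
  · rw [heisSwapFun_blockA, heisSwapFun_transl]
    have h := eq_sl2U_of_mem (A := blockA M.1) M.2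
    rw [h]
    congr 1
  · rw [heisSwapFun_transl, heisSwapFun_blockA, heisSwapFun_transl, sl2U_01]
    ext i; fin_cases i <;> simp
    ring

theorem heisSwapFun_mul (M N : affU F) : heisSwapFun (M * N) = heisSwapFun M * heisSwapFun N := by
  apply Subtype.ext
  apply aff_ext
  · show blockA (heisSwapFun (M * N)).1 = blockA ((heisSwapFun M).1 * (heisSwapFun N).1)
    rw [heisSwapFun_blockA, blockA_mul, heisSwapFun_blockA, heisSwapFun_blockA, sl2U_mul]
    show sl2U F (transl (M.1 * N.1) 1) = _
    rw [heis_transl_mul M.2]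
    congr 1
    simp [add_comm]
  · show transl (heisSwapFun (M * N)).1 = transl ((heisSwapFun M).1 * (heisSwapFun N).1)
    rw [heisSwapFun_transl, heis_transl_mul (heisSwapFun M).2, heisSwapFun_transl,
      heisSwapFun_transl, heisSwapFun_blockA, sl2U_01]
    show ![(blockA (M.1 * N.1) : Matrix (Fin 2) (Fin 2) F) 0 1 * transl (M.1 * N.1) 1 -
      transl (M.1 * N.1) 0, (blockA (M.1 * N.1) : Matrix (Fin 2) (Fin 2) F) 0 1] = _
    rw [heis_cA_mul M.2 N.2, heis_transl_mul M.2]
    ext i; fin_cases i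
    · simp
      ring
    · simp
      ring

/-- the swap automorphism of the Heisenberg group -/
def heisSwap : affU F ≃* affU F where
  toFun := heisSwapFun
  invFun := heisSwapFun
  left_inv := heisSwapFun_invol
  right_inv := heisSwapFun_invol
  map_mul' := heisSwapFun_mul

/-- a translation in the second coordinate, as an element of the Heisenberg group -/
def kElt (F : Type*) [Field F] : affU F := ⟨mkAff 1 ![0, 1], ker_le_affU (mkAff_one_mem_ker _)⟩

theorem kElt_val : (kElt F).1 = mkAff 1 ![0, 1] := rfl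

theorem heisSwap_kElt_not_ker : (heisSwapFun (kElt F)).1 ∉ (blockHom F).ker := by
  intro h4
  have h5 : blockA (heisSwapFun (kElt F)).1 = 1 := h4
  rw [heisSwapFun_blockA, kElt_val, transl_mkAff] at h5
  have h6 : (sl2U F (![0, 1] 1) : Matrix (Fin 2) (Fin 2) F) 0 1 =
      ((1 : SpecialLinearGroup (Fin 2) F) : Matrix (Fin 2) (Fin 2) F) 0 1 := by rw [h5]
  rw [sl2U_01] at h6
  simp at h6

theorem heisSwap_apply (M : affU F) : heisSwap M = heisSwapFun M := rfl

theorem char_ne_ker_aux (T : Subgroup (affU F)) (hT : T.Characteristic) (k : affU F)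
    (hk : k.1 ∈ (blockHom F).ker) (hk2 : (heisSwapFun k).1 ∉ (blockHom F).ker) :
    T.map (affU F).subtype ≠ (blockHom F).ker := by
  intro h
  have hk : k ∈ T := by
    have h1 : k.1 ∈ T.map (affU F).subtype := by
      rw [h]; exact hk
    obtain ⟨t, ht, ht2⟩ := h1
    have : t = k := Subtype.ext ht2
    rw [← this]; exact ht
  have h2 := hT.fixed heisSwap
  have h3 : heisSwapFun k ∈ T := by
    have h4 : k ∈ T.comap heisSwap.toMonoidHom := by rw [h2]; exact hk
    rw [Subgroup.mem_comap] at h4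
    exact h4
  apply hk2
  rw [← h]
  exact ⟨_, h3, rfl⟩

theorem char_ne_ker (T : Subgroup (affU F)) (hT : T.Characteristic) :
    T.map (affU F).subtype ≠ (blockHom F).ker :=
  char_ne_ker_aux T hT (kElt F) (mkAff_one_mem_ker _) heisSwap_kElt_not_ker

end core

section general
variable {G : Type*} [Group G]

/-- conjugation by a normalizing element, restricted -/
def conjRestr (U : Subgroup G) (g : G) (hg : g ∈ Subgroup.normalizer (U : Set G)) : U ≃* U where
  toFun x := ⟨g * x * g⁻¹, (Subgroup.mem_normalizer_iff.1 hg x).1 x.2⟩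
  invFun x := ⟨g⁻¹ * x * g, by
    have := (Subgroup.mem_normalizer_iff.1 (inv_mem hg) x).1 x.2
    simpa using this⟩
  left_inv x := by
    apply Subtype.ext
    show g⁻¹ * (g * x * g⁻¹) * g = x
    group
  right_inv x := by
    apply Subtype.ext
    show g * (g⁻¹ * x * g) * g⁻¹ = x
    group
  map_mul' x y := by
    apply Subtype.ext
    show g * (x * y) * g⁻¹ = (g * x * g⁻¹) * (g * y * g⁻¹)
    group

theorem char_normalizer_le (U : Subgroup G) (T : Subgroup U) (hT : T.Characteristic) :
    Subgroup.normalizer (U : Set G) ≤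
      Subgroup.normalizer ((T.map U.subtype : Subgroup G) : Set G) := by
  have key : ∀ g ∈ Subgroup.normalizer (U : Set G), ∀ h ∈ T.map U.subtype,
      g * h * g⁻¹ ∈ T.map U.subtype := by
    rintro g hg _ ⟨t, ht, rfl⟩
    have h2 := hT.fixed (conjRestr U g hg)
    rw [← h2] at ht
    exact ⟨conjRestr U g hg t, ht, rfl⟩
  intro g hg
  rw [Subgroup.mem_normalizer_iff]
  intro h
  refine ⟨key g hg h, fun h1 => ?_⟩
  have h3 := key g⁻¹ (inv_mem hg) _ h1
  have e : g⁻¹ * (g * h * g⁻¹) * g⁻¹⁻¹ = h := by group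
  rw [e] at h3
  exact h3

/-- the restriction of an automorphism to a subgroup and its image -/
def mapEquiv' (U : Subgroup G) (α : G ≃* G) : U ≃* U.map α.toMonoidHom where
  toFun x := ⟨α x, ⟨x, x.2, rfl⟩⟩
  invFun y := ⟨α.symm y, by
    obtain ⟨x, hx, hxy⟩ := y.2
    have e : α.symm (y : G) = x := by
      rw [← hxy]; exact α.symm_apply_apply x
    rw [e]; exact hx⟩
  left_inv x := by
    apply Subtype.ext
    exact α.symm_apply_apply x
  right_inv y := by
    apply Subtype.ext
    exact α.apply_symm_apply y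
  map_mul' x y := by
    apply Subtype.ext
    exact map_mul α (x : G) (y : G)

theorem mapEquiv'_val (U : Subgroup G) (α : G ≃* G) (x : U) : ((mapEquiv' U α x : U.map α.toMonoidHom) : G) = α x := rfl

theorem transport_char (U : Subgroup G) (α : G ≃* G)
    (hU : ∀ T' : Subgroup U, T' ≠ ⊥ → T'.Characteristic →
      Subgroup.normalizer ((T'.map U.subtype : Subgroup G) : Set G) =
        Subgroup.normalizer (U : Set G))
    (S : Subgroup G) (hS : S = U.map α.toMonoidHom)
    (T : Subgroup S) (hT : T ≠ ⊥) (hTc : T.Characteristic) :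
    Subgroup.normalizer ((T.map S.subtype : Subgroup G) : Set G) =
      Subgroup.normalizer (S : Set G) := by
  subst hS
  have hT'c : (T.comap (mapEquiv' U α).toMonoidHom).Characteristic := by
    constructor
    intro φ
    have h1 := hTc.fixed (((mapEquiv' U α).symm.trans φ).trans (mapEquiv' U α))
    ext x
    have h3 : mapEquiv' U α x ∈ T.comap (((mapEquiv' U α).symm.trans φ).trans (mapEquiv' U α)).toMonoidHom ↔
        mapEquiv' U α x ∈ T := by rw [h1]
    have h4 : (((mapEquiv' U α).symm.trans φ).trans (mapEquiv' U α)) (mapEquiv' U α x) =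
        mapEquiv' U α (φ x) := by
      show mapEquiv' U α (φ ((mapEquiv' U α).symm (mapEquiv' U α x))) = _
      rw [MulEquiv.symm_apply_apply]
    have h5 : mapEquiv' U α (φ x) ∈ T ↔ mapEquiv' U α x ∈ T := by
      rw [← h4]; exact h3
    exact h5
  have hT'ne : T.comap (mapEquiv' U α).toMonoidHom ≠ ⊥ := by
    intro h
    apply hT
    rw [Subgroup.eq_bot_iff_forall] at h ⊢
    intro x hx
    have h2 := h ((mapEquiv' U α).symm x) (by
      show mapEquiv' U α ((mapEquiv' U α).symm x) ∈ T
      rw [MulEquiv.apply_symm_apply]; exact hx)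
    have h3 := congrArg (mapEquiv' U α) h2
    rw [MulEquiv.apply_symm_apply, map_one] at h3
    exact h3
  have h1 := hU _ hT'ne hT'c
  have h2 : T.map (U.map α.toMonoidHom).subtype =
      ((T.comap (mapEquiv' U α).toMonoidHom).map U.subtype).map α.toMonoidHom := by
    ext x
    constructor
    · rintro ⟨t, ht, rfl⟩
      refine ⟨((mapEquiv' U α).symm t : U), ⟨(mapEquiv' U α).symm t, ?_, rfl⟩, ?_⟩
      · show mapEquiv' U α ((mapEquiv' U α).symm t) ∈ T
        rw [MulEquiv.apply_symm_apply]; exact ht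
      · have := congrArg Subtype.val ((mapEquiv' U α).apply_symm_apply t)
        exact this
    · rintro ⟨_, ⟨u, hu, rfl⟩, rfl⟩
      exact ⟨mapEquiv' U α u, hu, rfl⟩
  rw [h2, ← Subgroup.map_equiv_normalizer_eq, ← Subgroup.map_equiv_normalizer_eq, h1]

end general

section sylow
variable {F : Type*} [Field F] [Fintype F] {p : ℕ} [Fact p.Prime] [CharP F p]

theorem affU_maximal (P : Subgroup (affSub F)) (hP : IsPGroup p P) (hUP : affU F ≤ P) :
    P ≤ affU F := by
  classical
  have hNp : IsPGroup p (P.map (blockHom F)) := hP.map _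
  have hpF : p ∣ Fintype.card F := (CharP.cast_eq_zero_iff F p _).1 (Nat.cast_card_eq_zero F)
  have hcard : p ∣ Nat.card (Fin 2 → F) := by
    rw [Nat.card_eq_fintype_card, Fintype.card_fun]
    simp only [Fintype.card_fin]
    exact dvd_pow hpF two_ne_zero
  have h0 : (0 : Fin 2 → F) ∈ MulAction.fixedPoints (P.map (blockHom F)) (Fin 2 → F) := by
    intro n; exact smul_zero _
  obtain ⟨v, hv, hv0⟩ := hNp.exists_fixed_point_of_prime_dvd_card_of_fixed_point (Fin 2 → F) hcard h0
  have hPv : ∀ n ∈ P.map (blockHom F), (n : Matrix (Fin 2) (Fin 2) F).mulVec v = v := by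
    intro n hn'
    exact hv ⟨n, hn'⟩
  have hu : sl2U F 1 ∈ P.map (blockHom F) := ⟨uElt F 1, hUP (uElt_mem 1), blockA_mkAff _ _⟩
  have h1 := hPv _ hu
  have hv1 : v 1 = 0 := by
    have := congrFun h1 0
    simpa [sl2U, Matrix.mulVec, dotProduct] using this
  have hv0' : v 0 ≠ 0 := by
    intro h00; apply hv0; ext i; fin_cases i <;> simp [h00, hv1]
  intro M hM
  have h2 := hPv (blockA M) ⟨M, hM, rfl⟩
  have e0 := congrFun h2 0
  have e1 := congrFun h2 1
  simp [Matrix.mulVec, dotProduct, hv1, hv0'] at e0 e1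
  have hdet := (blockA M).2
  rw [Matrix.det_fin_two, e0, e1] at hdet
  rw [mem_affU]
  refine ⟨e1, e0, ?_⟩
  linear_combination hdet

theorem sylow_eq_conj (S : Sylow p (affSub F)) :
    ∃ g : affSub F, (S : Subgroup (affSub F)) = (affU F).map (MulAut.conj g).toMonoidHom := by
  obtain ⟨P, hP⟩ := (affU_isPGroup (p := p) (F := F)).exists_le_sylow
  have hPU : (P : Subgroup (affSub F)) = affU F := le_antisymm (affU_maximal _ P.isPGroup' hP) hP
  obtain ⟨g, hg⟩ := MulAction.exists_smul_eq (affSub F) P S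
  refine ⟨g, ?_⟩
  rw [← hg, Sylow.coe_subgroup_smul, hPU]
  rfl

theorem affU_char (T : Subgroup (affU F)) (hT : T ≠ ⊥) (hTc : T.Characteristic) :
    Subgroup.normalizer ((T.map (affU F).subtype : Subgroup (affSub F)) : Set (affSub F)) =
      Subgroup.normalizer (affU F : Set (affSub F)) := by
  rw [normalizer_affU]
  apply core_normalizer
  · exact Subgroup.map_subtype_le T
  · intro h
    apply hT
    rw [Subgroup.map_eq_bot_iff_of_injective _ (Subgroup.subtype_injective _)] at h
    exact h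
  · rw [← normalizer_affU]
    exact char_normalizer_le _ T hTc
  · exact char_ne_ker T hTc

theorem qd_sylow_char (Q : Subgroup (SpecialLinearGroup (Fin 3) F)) (hQ : Q = affSub F)
    (S : Sylow p ↥Q) (T : Subgroup ↥(S : Subgroup ↥Q)) (hT : T ≠ ⊥) (hTc : T.Characteristic) :
    Subgroup.normalizer ((T.map (S : Subgroup ↥Q).subtype : Subgroup ↥Q) : Set ↥Q) =
      Subgroup.normalizer ((S : Subgroup ↥Q) : Set ↥Q) ∧
    Subgroup.normalizer ((S : Subgroup ↥Q) : Set ↥Q) ≠ ⊤ := by
  subst hQ
  obtain ⟨g, hg⟩ := sylow_eq_conj S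
  refine ⟨transport_char (affU F) (MulAut.conj g) affU_char _ hg T hT hTc, ?_⟩
  rw [hg, ← Subgroup.map_equiv_normalizer_eq]
  intro h
  apply normalizer_affU_ne_top (F := F)
  rw [eq_top_iff]
  intro x _
  have hx : (MulAut.conj g) x ∈ (Subgroup.normalizer (affU F : Set (affSub F))).map
      (MulAut.conj g).toMonoidHom := by rw [h]; trivial
  obtain ⟨y, hy, hy2⟩ := hx
  have : y = x := (MulAut.conj g).injective hy2
  rw [← this]; exact hy

end sylow

end Cfsg.Agent.H51
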