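import Mathlib
import Cfsg.Agent.Lib.Lead.SylAlt.Defs

/-!
# S2221-NOMIXED (helper51, for lead): no "mixed" direct decomposition of `T ⊓ Alt`
-/

set_option autoImplicit false

namespace Cfsg.Agent.H51.SylAlt

open Equiv Cfsg.Agent.Lib.Lead.SylAlt

section Gen

variable {G : Type*} [Group G]

/-- In the join of two elementwise commuting subgroups every element is a product. -/
theorem exists_mul_of_mem_sup_of_commute (A B : Subgroup G)
    (hc : ∀ a ∈ A, ∀ b ∈ B, a * b = b * a) {g : G} (hg : g ∈ A ⊔ B) :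
    ∃ a ∈ A, ∃ b ∈ B, g = a * b := by
  let C : Subgroup G :=
    { carrier := {g | ∃ a ∈ A, ∃ b ∈ B, g = a * b}
      mul_mem' := by
        rintro _ _ ⟨a, ha, b, hb, rfl⟩ ⟨a', ha', b', hb', rfl⟩
        refine ⟨a * a', A.mul_mem ha ha', b * b', B.mul_mem hb hb', ?_⟩
        rw [mul_assoc, ← mul_assoc b, ← hc a' ha' b hb, mul_assoc, mul_assoc]
      one_mem' := ⟨1, A.one_mem, 1, B.one_mem, by simp⟩
      inv_mem' := by
        rintro _ ⟨a, ha, b, hb, rfl⟩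
        refine ⟨a⁻¹, A.inv_mem ha, b⁻¹, B.inv_mem hb, ?_⟩
        rw [mul_inv_rev, hc a⁻¹ (A.inv_mem ha) b⁻¹ (B.inv_mem hb)] }
  have h : A ⊔ B ≤ C := sup_le (fun a ha => ⟨a, ha, 1, B.one_mem, by simp⟩)
    (fun b hb => ⟨1, A.one_mem, b, hb, by simp⟩)
  exact h hg

end Gen

section Part

variable {α : Type*}

/-- `a` is the `O`-part of `g`: it agrees with `g` on `O` and fixes every point outside `O`. -/
def IsPart (O : Set α) (g a : Perm α) : Prop := (∀ y ∈ O, a y = g y) ∧ ∀ y, y ∉ O → a y = y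

theorem IsPart.unique {O : Set α} {g a a' : Perm α} (h : IsPart O g a) (h' : IsPart O g a') :
    a = a' := by
  ext y
  by_cases hy : y ∈ O
  · rw [h.1 y hy, h'.1 y hy]
  · rw [h.2 y hy, h'.2 y hy]

theorem IsPart.mul {O : Set α} {g g' a a' : Perm α} (hO : ∀ y ∈ O, g' y ∈ O) (h : IsPart O g a)
    (h' : IsPart O g' a') : IsPart O (g * g') (a * a') := by
  refine ⟨fun y hy => ?_, fun y hy => ?_⟩
  · rw [Perm.mul_apply, Perm.mul_apply, h'.1 y hy, h.1 _ (hO y hy)]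
  · rw [Perm.mul_apply, h'.2 y hy, h.2 y hy]

theorem isPart_self {T : Subgroup (Perm α)} {O : Set α} {a : Perm α} (ha : a ∈ res T O) :
    IsPart O a a :=
  ⟨fun _ _ => rfl, ha.2⟩

theorem isPart_one {O : Set α} {b : Perm α} (hb : ∀ y ∈ O, b y = y) : IsPart O b 1 :=
  ⟨fun y hy => by rw [hb y hy]; rfl, fun _ _ => rfl⟩

theorem exists_part {T : Subgroup (Perm α)} (hs : HSplit T) {O : Set α}
    (hO : ∀ g ∈ T, ∀ x ∈ O, g x ∈ O) {g : Perm α} (hg : g ∈ T) :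
    ∃ a ∈ res T O, IsPart O g a := by
  obtain ⟨a, ha, b, hb, rfl⟩ := hs O hO g hg
  refine ⟨a, ha, fun y hy => ?_, ha.2⟩
  rw [Perm.mul_apply, hb.2 y (fun h => h hy)]

theorem IsPart.commute {O : Set α} {g g' a a' : Perm α} (hO : ∀ y ∈ O, g y ∈ O)
    (hO' : ∀ y ∈ O, g' y ∈ O) (h : IsPart O g a) (h' : IsPart O g' a') (hc : g * g' = g' * g) :
    a * a' = a' * a := by
  have h1 := h'.mul hO h
  rw [← hc] at h1
  exact (h.mul hO' h').unique h1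

theorem comm_of_fix {a b : Perm α} (h : ∀ y, a y = y ∨ b y = y) : a * b = b * a :=
  (show Perm.Disjoint a b from h).commute.eq

/-- The three-way decomposition with respect to two disjoint invariant sets. -/
theorem three_way {O O' : Set α} (hd : ∀ y, y ∈ O → y ∉ O') {g a a' r : Perm α}
    (hO' : ∀ y ∈ O', g y ∈ O') (hR : ∀ y ∈ (O ∪ O')ᶜ, g y ∈ (O ∪ O')ᶜ) (h : IsPart O g a)
    (h' : IsPart O' g a') (hr : IsPart (O ∪ O')ᶜ g r) : g = a * a' * r := by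
  ext y
  simp only [Perm.mul_apply]
  by_cases hy : y ∈ O
  · have hyR : y ∉ (O ∪ O')ᶜ := fun hh => hh (Or.inl hy)
    rw [hr.2 y hyR, h'.2 y (hd y hy), h.1 y hy]
  · by_cases hy' : y ∈ O'
    · have hyR : y ∉ (O ∪ O')ᶜ := fun hh => hh (Or.inr hy')
      rw [hr.2 y hyR, h'.1 y hy', h.2 _ (fun hh => hd _ hh (hO' y hy'))]
    · have hyR : y ∈ (O ∪ O')ᶜ := by
        rintro (hh | hh)
        · exact hy hh
        · exact hy' hh
      have hgy := hR y hyR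
      rw [hr.1 y hyR, h'.2 _ (fun hh => hgy (Or.inr hh)), h.2 _ (fun hh => hgy (Or.inl hh))]

end Part

variable {α : Type*} [Fintype α] [DecidableEq α]

theorem no_mixed (T : Subgroup (Perm α)) (hT : IsSyl2 T) (hs : HSplit T) (hz : HZeven T)
    (x x' : α) (hxx' : ¬ ∃ g ∈ T, g x = x')
    (t t' : Perm α) (ht : t ∈ res T (orb T x)) (ht' : t' ∈ res T (orb T x'))
    (hodd : Perm.sign t = -1) (hodd' : Perm.sign t' = -1)
    (S₁ S₂ : Subgroup (Perm α))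
    (hS : Cfsg.IsInternalDirectProduct S₁ S₂ (T ⊓ alternatingGroup α))
    (h1 : ∀ b ∈ proj T (orb T x) S₂, ∀ w ∈ res T (orb T x), b * w = w * b)
    (h2 : ∀ a ∈ proj T (orb T x') S₁, ∀ w ∈ res T (orb T x'), a * w = w * a) : False := by
  obtain ⟨hS1, hS2, hcomm, hinf, hsup⟩ := hS
  set O := orb T x with hOdef
  set O' := orb T x' with hO'def
  have hO : ∀ g ∈ T, ∀ y ∈ O, g y ∈ O := orb_inv T x
  have hO' : ∀ g ∈ T, ∀ y ∈ O', g y ∈ O' := orb_inv T x'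
  have hd : ∀ y, y ∈ O → y ∉ O' := by
    rintro y ⟨g, hg, rfl⟩ ⟨g', hg', h⟩
    refine hxx' ⟨g'⁻¹ * g, T.mul_mem (T.inv_mem hg') hg, ?_⟩
    rw [Perm.mul_apply, ← h]
    simp
  have hR : ∀ g ∈ T, ∀ y ∈ (O ∪ O')ᶜ, g y ∈ (O ∪ O')ᶜ := by
    intro g hg y hy hgy
    apply hy
    rcases hgy with h | h
    · left
      have := hO g⁻¹ (T.inv_mem hg) _ h
      simpa using this
    · right
      have := hO' g⁻¹ (T.inv_mem hg) _ h
      simpa using this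
  have htT : t ∈ T := res_le T O ht
  have ht'T : t' ∈ T := res_le T O' ht'
  have htt' : t * t' ∈ T ⊓ alternatingGroup α := by
    refine Subgroup.mem_inf.mpr ⟨T.mul_mem htT ht'T, Perm.mem_alternatingGroup.mpr ?_⟩
    rw [map_mul, hodd, hodd']
    simp
  rw [← hsup] at htt'
  obtain ⟨s₁, hs₁, s₂, hs₂, hprod⟩ := exists_mul_of_mem_sup_of_commute S₁ S₂ hcomm htt'
  have hs₁T : s₁ ∈ T := (hS1 hs₁).1
  have hs₁A : Perm.sign s₁ = 1 := Perm.mem_alternatingGroup.mp (hS1 hs₁).2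
  have hs₂T : s₂ ∈ T := (hS2 hs₂).1
  obtain ⟨a₁, ha₁, hp₁⟩ := exists_part hs hO hs₁T
  obtain ⟨a₁', ha₁', hp₁'⟩ := exists_part hs hO' hs₁T
  obtain ⟨r₁, hr₁, hq₁⟩ := exists_part hs hR hs₁T
  obtain ⟨a₂, ha₂, hp₂⟩ := exists_part hs hO hs₂T
  obtain ⟨r₂, hr₂, hq₂⟩ := exists_part hs hR hs₂T
  -- an element of `res T P` central in `res T P` is central in `T`
  have cen_of : ∀ (P : Set α), (∀ g ∈ T, ∀ y ∈ P, g y ∈ P) → ∀ c ∈ res T P,
      (∀ w ∈ res T P, c * w = w * c) → ∀ g ∈ T, g * c = c * g := by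
    intro P hP c hc hcw g hg
    obtain ⟨a, ha, b, hb, rfl⟩ := hs P hP g hg
    rw [mul_assoc, ← res_comm hc hb, ← mul_assoc, ← hcw a ha, mul_assoc]
  -- Claim 1: sign a₂ = 1
  have ha₂proj : a₂ ∈ proj T O S₂ := by
    refine ⟨ha₂, a₂⁻¹ * s₂, ⟨T.mul_mem (T.inv_mem (res_le T O ha₂)) hs₂T, fun y hy => ?_⟩, ?_⟩
    · have hyO : y ∈ O := not_not.mp hy
      rw [Perm.mul_apply, ← hp₂.1 y hyO]
      simp
    · rw [mul_inv_cancel_left]
      exact hs₂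
  have hsa₂ : Perm.sign a₂ = 1 :=
    hz a₂ (res_le T O ha₂) (cen_of O hO a₂ ha₂ (h1 a₂ ha₂proj))
  -- Claim 2: sign a₁' = 1
  have ha₁'proj : a₁' ∈ proj T O' S₁ := by
    refine ⟨ha₁', a₁'⁻¹ * s₁, ⟨T.mul_mem (T.inv_mem (res_le T O' ha₁')) hs₁T, fun y hy => ?_⟩, ?_⟩
    · have hyO : y ∈ O' := not_not.mp hy
      rw [Perm.mul_apply, ← hp₁'.1 y hyO]
      simp
    · rw [mul_inv_cancel_left]
      exact hs₁
  have hsa₁' : Perm.sign a₁' = 1 :=
    hz a₁' (res_le T O' ha₁') (cen_of O' hO' a₁' ha₁' (h2 a₁' ha₁'proj))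
  -- Claim 3: t = a₁ * a₂
  have hta : t * 1 = a₁ * a₂ := by
    have e1 : IsPart O (t * t') (t * 1) :=
      (isPart_self ht).mul (hO t' ht'T) (isPart_one (fun y hy => ht'.2 y (hd y hy)))
    have e2 : IsPart O (s₁ * s₂) (a₁ * a₂) := hp₁.mul (hO s₂ hs₂T) hp₂
    rw [← hprod] at e2
    exact e1.unique e2
  have hsa₁ : Perm.sign a₁ = -1 := by
    have := congrArg Perm.sign hta
    rw [mul_one, map_mul, hsa₂, mul_one, hodd] at this
    exact this.symm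
  -- Claim 4: r₁ * r₂ = 1
  have hrr : r₁ * r₂ = 1 := by
    have e1 : IsPart (O ∪ O')ᶜ (t * t') (1 * 1) :=
      (isPart_one (O := (O ∪ O')ᶜ) (fun y hy => ht.2 y (fun h => hy (Or.inl h)))).mul (hR t' ht'T)
        (isPart_one (O := (O ∪ O')ᶜ) (fun y hy => ht'.2 y (fun h => hy (Or.inr h))))
    have e2 : IsPart (O ∪ O')ᶜ (s₁ * s₂) (r₁ * r₂) := hq₁.mul (hR s₂ hs₂T) hq₂
    rw [← hprod] at e2
    rw [← e1.unique e2, mul_one]
  -- Claim 5: r₁ is central in `T`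
  have hr₁cen : ∀ w ∈ res T (O ∪ O')ᶜ, r₁ * w = w * r₁ := by
    intro w hw
    have hwT : w ∈ T := res_le T _ hw
    have hq : ∃ q ∈ T ⊓ alternatingGroup α, IsPart (O ∪ O')ᶜ q w := by
      rcases Int.units_eq_one_or (Perm.sign w) with h | h
      · exact ⟨w, Subgroup.mem_inf.mpr ⟨hwT, Perm.mem_alternatingGroup.mpr h⟩, isPart_self hw⟩
      · refine ⟨w * t, Subgroup.mem_inf.mpr ⟨T.mul_mem hwT htT,
          Perm.mem_alternatingGroup.mpr ?_⟩, ?_⟩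
        · rw [map_mul, h, hodd]
          simp
        · have := (isPart_self hw).mul (hR t htT)
            (isPart_one (O := (O ∪ O')ᶜ) (fun y hy => ht.2 y (fun h => hy (Or.inl h))))
          rw [mul_one] at this
          exact this
    obtain ⟨q, hq, hqw⟩ := hq
    rw [← hsup] at hq
    obtain ⟨u₁, hu₁, u₂, hu₂, rfl⟩ := exists_mul_of_mem_sup_of_commute S₁ S₂ hcomm hq
    have hu₁T : u₁ ∈ T := (hS1 hu₁).1
    have hu₂T : u₂ ∈ T := (hS2 hu₂).1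
    obtain ⟨e₁, he₁, hpe₁⟩ := exists_part hs hR hu₁T
    obtain ⟨e₂, he₂, hpe₂⟩ := exists_part hs hR hu₂T
    have hw12 : w = e₁ * e₂ := hqw.unique (hpe₁.mul (hR u₂ hu₂T) hpe₂)
    have c1 : r₁ * e₂ = e₂ * r₁ :=
      hq₁.commute (hR s₁ hs₁T) (hR u₂ hu₂T) hpe₂ (hcomm s₁ hs₁ u₂ hu₂)
    have c2 : e₁ * r₂ = r₂ * e₁ :=
      hpe₁.commute (hR u₁ hu₁T) (hR s₂ hs₂T) hq₂ (hcomm u₁ hu₁ s₂ hs₂)
    have hr₁inv : r₁ = r₂⁻¹ := eq_inv_of_mul_eq_one_left hrr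
    have c3 : r₁ * e₁ = e₁ * r₁ := by
      rw [hr₁inv]
      rw [inv_mul_eq_iff_eq_mul, ← mul_assoc, ← c2, mul_assoc, mul_inv_cancel, mul_one]
    rw [hw12, ← mul_assoc, c3, mul_assoc, c1, mul_assoc]
  have hsr₁ : Perm.sign r₁ = 1 :=
    hz r₁ (res_le T _ hr₁) (cen_of _ hR r₁ hr₁ hr₁cen)
  -- Claim 6
  have h3 : s₁ = a₁ * a₁' * r₁ := three_way hd (hO' s₁ hs₁T) (hR s₁ hs₁T) hp₁ hp₁' hq₁
  have := congrArg Perm.sign h3
  rw [map_mul, map_mul, hsa₁, hsa₁', hsr₁, hs₁A] at this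
  revert this
  decide

end Cfsg.Agent.H51.SylAlt
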