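import Mathlib
import Cfsg.Agent.Lib.Lead.SylAlt.Defs
import Cfsg.Agent.H51.SylAltNoMixed

/-!
# S2221-ENDGAME (helper51, for lead): a direct factor of `T ⊓ Alt` whose big-orbit parts are all
central is trivial (two big orbits)
-/

set_option autoImplicit false

namespace Cfsg.Agent.H51.SylAlt

open Equiv Cfsg.Agent.Lib.Lead.SylAlt
open scoped commutatorElement

section Gen

variable {G : Type*} [Group G]

theorem comm_mul_right_of_commute {u ε X : G} (h : ε * X = X * ε) : ⁅u * ε, X⁆ = ⁅u, X⁆ := by
  rw [commutatorElement_def, commutatorElement_def, mul_inv_rev, mul_assoc u ε X, h]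
  group

theorem comm_right_mul_of_commute {u u' ε : G} (h : ε * u = u * ε) : ⁅u, u' * ε⁆ = ⁅u, u'⁆ := by
  have h' : ε * u⁻¹ = u⁻¹ * ε := by
    rw [eq_inv_mul_iff_mul_eq, ← mul_assoc, ← h, mul_assoc, mul_inv_cancel, mul_one]
  rw [commutatorElement_def, commutatorElement_def, mul_inv_rev]
  calc u * (u' * ε) * u⁻¹ * (ε⁻¹ * u'⁻¹) = u * u' * (ε * u⁻¹) * ε⁻¹ * u'⁻¹ := by group
    _ = u * u' * (u⁻¹ * ε) * ε⁻¹ * u'⁻¹ := by rw [h']
    _ = u * u' * u⁻¹ * u'⁻¹ := by group

/-- In a finite `2`-group, a nontrivial normal subgroup contains a nontrivial central element. -/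
theorem exists_central_mem_of_normal [Finite G] (hG : IsPGroup 2 G) (N : Subgroup G) [N.Normal]
    (hN : N ≠ ⊥) : ∃ z ∈ N, z ≠ 1 ∧ ∀ g : G, g * z = z * g := by
  haveI : Fact (Nat.Prime 2) := ⟨Nat.prime_two⟩
  letI : MulAction G N := MulAction.compHom N (MulAut.conjNormal : G →* MulAut N)
  have hsmul : ∀ (g : G) (x : N), ((g • x : N) : G) = g * x * g⁻¹ := fun g x => rfl
  have hdvd : 2 ∣ Nat.card N := by
    rcases (hG.to_subgroup N).card_eq_or_dvd with h | h
    · exact absurd ((Subgroup.card_eq_one).mp h) hN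
    · exact h
  have h1 : (1 : N) ∈ MulAction.fixedPoints G N := by
    intro g
    apply Subtype.ext
    rw [hsmul]
    simp
  obtain ⟨b, hb, hb1⟩ := hG.exists_fixed_point_of_prime_dvd_card_of_fixed_point N hdvd h1
  refine ⟨b, b.2, fun h => hb1 (Subtype.ext h.symm), fun g => ?_⟩
  have := congrArg Subtype.val (hb g)
  rw [hsmul] at this
  calc g * b = g * b * g⁻¹ * g := by group
    _ = b * g := by rw [this]

end Gen

variable {α : Type*} [Fintype α] [DecidableEq α]

theorem endgame (T : Subgroup (Perm α)) (hT : IsSyl2 T) (hno2 : ∀ x, ¬ Two T x)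
    (hs : HSplit T) (htr : HTr T) (hzone : HZone T) (hnonab : HNonab T)
    (x₁ x₂ : α) (h₁ : Bigp T x₁) (h₂ : Bigp T x₂) (h12 : ¬ ∃ g ∈ T, g x₁ = x₂)
    (S₁ S₂ : Subgroup (Perm α))
    (hS : Cfsg.IsInternalDirectProduct S₁ S₂ (T ⊓ alternatingGroup α))
    (hcen : ∀ x, Bigp T x → ∀ a ∈ proj T (orb T x) S₁, ∀ w ∈ res T (orb T x), a * w = w * a) :
    S₁ = ⊥ := by
  obtain ⟨hS1, hS2, hcomm, hinf, hsup⟩ := hS
  -- a point moved by `T` is big
  have hbig : ∀ x, (∃ g ∈ T, g x ≠ x) → Bigp T x := by
    rintro x ⟨g₀, hg₀, hne⟩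
    by_contra hB
    unfold Bigp at hB
    push_neg at hB
    obtain ⟨y, hy⟩ := hB
    apply hno2 x
    refine ⟨y, ?_, ⟨g₀, hg₀, hy g₀ hg₀ hne⟩, fun g hg => ?_⟩
    · rw [← hy g₀ hg₀ hne]
      exact hne
    · by_cases h : g x = x
      · left
        exact h
      · right
        exact hy g hg h
  have hOinv : ∀ x, ∀ g ∈ T, ∀ y ∈ orb T x, g y ∈ orb T x := fun x => orb_inv T x
  -- the support decreases when an orbit part is split off
  have hsupp : ∀ (x : α) (g a b : Perm α), g = a * b → a ∈ res T (orb T x) →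
      b ∈ res T (orb T x)ᶜ → g x ≠ x → b.support.card < g.support.card := by
    intro x g a b hg ha hb hx
    apply Finset.card_lt_card
    rw [Finset.ssubset_iff_of_subset]
    · refine ⟨x, Perm.mem_support.mpr hx, ?_⟩
      rw [Perm.mem_support, not_not]
      exact hb.2 x (fun h => h (mem_orb_self T x))
    · intro y hy
      rw [Perm.mem_support] at hy ⊢
      have hbyO : b y ∉ orb T x := by
        intro h
        apply hy
        have := hb.2 (b y) (fun h' => h' h)
        exact b.injective this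
      rw [hg, Perm.mul_apply, ha.2 _ hbyO]
      exact hy
  -- (1a)
  have h1a : ∀ s ∈ S₁, ∀ x, Bigp T x → ∀ w ∈ res T (orb T x), s * w = w * s := by
    intro s hs₁ x hx w hw
    have hsT : s ∈ T := (hS1 hs₁).1
    obtain ⟨a, ha, b, hb, rfl⟩ := hs (orb T x) (hOinv x) s hsT
    have haproj : a ∈ proj T (orb T x) S₁ := ⟨ha, b, hb, hs₁⟩
    rw [mul_assoc, ← res_comm hw hb, ← mul_assoc a w b, hcen x hx a haproj w hw, mul_assoc]
  -- (1b) every element of `S₁` is central in `T`
  have h1b : ∀ s ∈ S₁, ∀ g ∈ T, g * s = s * g := by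
    intro s hs₁
    have key : ∀ n : ℕ, ∀ g ∈ T, g.support.card = n → g * s = s * g := by
      intro n
      induction n using Nat.strong_induction_on with
      | _ n ih =>
        intro g hg hn
        by_cases hg1 : g = 1
        · rw [hg1]
          simp
        · obtain ⟨x, hx⟩ : ∃ x, g x ≠ x := by
            by_contra h
            push_neg at h
            exact hg1 (Perm.ext h)
          have hxb : Bigp T x := hbig x ⟨g, hg, hx⟩
          obtain ⟨a, ha, b, hb, hgab⟩ := hs (orb T x) (hOinv x) g hg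
          have hlt := hsupp x g a b hgab ha hb hx
          have hbs := ih _ (hn ▸ hlt) b (res_le T _ hb) rfl
          rw [hgab, mul_assoc, hbs, ← mul_assoc a s b, ← h1a s hs₁ x hxb a ha, mul_assoc]
    intro g hg
    exact key _ g hg rfl
  -- (2) commutators of `T ⊓ Alt` lie in `S₂`
  have h2 : ∀ q ∈ T ⊓ alternatingGroup α, ∀ q' ∈ T ⊓ alternatingGroup α, ⁅q, q'⁆ ∈ S₂ := by
    intro q hq q' hq'
    rw [← hsup] at hq hq'
    obtain ⟨u, hu, v, hv, rfl⟩ := exists_mul_of_mem_sup_of_commute S₁ S₂ hcomm hq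
    obtain ⟨u', hu', v', hv', rfl⟩ := exists_mul_of_mem_sup_of_commute S₁ S₂ hcomm hq'
    have hvT : v ∈ T := (hS2 hv).1
    have hv'T : v' ∈ T := (hS2 hv').1
    have hu'T : u' ∈ T := (hS1 hu').1
    have e1 : ⁅u * v, u' * v'⁆ = ⁅v, v'⁆ := by
      rw [hcomm u hu v hv, comm_mul_right_of_commute (h1b u hu _ (T.mul_mem hu'T hv'T)).symm,
        hcomm u' hu' v' hv', comm_right_mul_of_commute (h1b u' hu' v hvT).symm]
    rw [e1, commutatorElement_def]
    exact S₂.mul_mem (S₂.mul_mem (S₂.mul_mem hv hv') (S₂.inv_mem hv)) (S₂.inv_mem hv')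
  -- (3) every central element of `T` lies in `S₂`
  have h3 : ∀ n : ℕ, ∀ c ∈ T, (∀ g ∈ T, g * c = c * g) → c.support.card = n → c ∈ S₂ := by
    intro n
    induction n using Nat.strong_induction_on with
    | _ n ih =>
      intro c hc hcen' hn
      by_cases hc1 : c = 1
      · rw [hc1]
        exact S₂.one_mem
      · obtain ⟨x, hx⟩ : ∃ x, c x ≠ x := by
          by_contra h
          push_neg at h
          exact hc1 (Perm.ext h)
        have hxb : Bigp T x := hbig x ⟨c, hc, hx⟩
        obtain ⟨a, ha, b, hb, hcab⟩ := hs (orb T x) (hOinv x) c hc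
        have hlt := hsupp x c a b hcab ha hb hx
        have hpa : IsPart (orb T x) c a :=
          ⟨fun y hy => by rw [hcab, Perm.mul_apply, hb.2 y (fun h => h hy)], ha.2⟩
        have haW : ∀ w ∈ res T (orb T x), w * a = a * w := by
          intro w hw
          exact (isPart_self hw).commute (hOinv x w (res_le T _ hw)) (hOinv x c hc) hpa
            (hcen' w (res_le T _ hw))
        have haT : ∀ g ∈ T, g * a = a * g := by
          intro g hg
          obtain ⟨a', ha', b', hb', rfl⟩ := hs (orb T x) (hOinv x) g hg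
          rw [mul_assoc, ← res_comm ha hb', ← mul_assoc a' a b', haW a' ha', mul_assoc]
        have ha1 : a ≠ 1 := by
          intro h
          apply hx
          rw [← hpa.1 x (mem_orb_self T x), h]
          rfl
        have hbT : b ∈ T := res_le T _ hb
        have hbeq : b = a⁻¹ * c := by rw [hcab, inv_mul_cancel_left]
        have hbcen : ∀ g ∈ T, g * b = b * g := by
          intro g hg
          have e1 := haT g hg
          have e2 := hcen' g hg
          have e3 : g * a⁻¹ = a⁻¹ * g := by
            rw [eq_inv_mul_iff_mul_eq, ← mul_assoc, ← e1, mul_assoc, mul_inv_cancel, mul_one]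
          rw [hbeq, ← mul_assoc, e3, mul_assoc, e2, mul_assoc]
        have hbS : b ∈ S₂ := ih _ (hn ▸ hlt) b hbT hbcen rfl
        have haS : a ∈ S₂ := by
          -- an odd element of `T` fixing the orbit of `x` pointwise
          obtain ⟨x₀, hx₀b, hx₀O⟩ : ∃ x₀, Bigp T x₀ ∧ x₀ ∉ orb T x := by
            by_cases hx1 : x₁ ∈ orb T x
            · exact ⟨x₂, h₂, fun hx2 => h12 (orb_trans T x x₁ hx1 x₂ hx2)⟩
            · exact ⟨x₁, h₁, hx1⟩
          obtain ⟨g₀, hg₀, hg₀x, -⟩ := hx₀b x₀
          obtain ⟨y₀, hy₀, hτ⟩ := htr x₀ ⟨g₀, hg₀, hg₀x⟩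
          have hy₀O : y₀ ∉ orb T x := by
            intro h
            apply hx₀O
            have := hOinv x (swap x₀ y₀) hτ y₀ h
            rwa [swap_apply_right] at this
          have hτfix : ∀ z ∈ orb T x, swap x₀ y₀ z = z := by
            intro z hz
            exact swap_apply_of_ne_of_ne (fun h => hx₀O (h ▸ hz)) (fun h => hy₀O (h ▸ hz))
          have hτW : ∀ w ∈ res T (orb T x), swap x₀ y₀ * w = w * swap x₀ y₀ := by
            intro w hw
            apply comm_of_fix
            intro z
            by_cases hz : z ∈ orb T x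
            · left
              exact hτfix z hz
            · right
              exact hw.2 z hz
          have hτsign : Perm.sign (swap x₀ y₀) = -1 := Perm.sign_swap hy₀.symm
          have hlift : ∀ u ∈ res T (orb T x), ∃ ε, (ε = 1 ∨ ε = swap x₀ y₀) ∧
              u * ε ∈ T ⊓ alternatingGroup α := by
            intro u hu
            rcases Int.units_eq_one_or (Perm.sign u) with h | h
            · refine ⟨1, Or.inl rfl, ?_⟩
              rw [mul_one]
              exact Subgroup.mem_inf.mpr ⟨res_le T _ hu, Perm.mem_alternatingGroup.mpr h⟩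
            · refine ⟨swap x₀ y₀, Or.inr rfl, Subgroup.mem_inf.mpr
                ⟨T.mul_mem (res_le T _ hu) hτ, Perm.mem_alternatingGroup.mpr ?_⟩⟩
              rw [map_mul, h, hτsign]
              simp
          have hεcomm : ∀ ε, (ε = 1 ∨ ε = swap x₀ y₀) →
              (∀ w ∈ res T (orb T x), ε * w = w * ε) ∧ ε * swap x₀ y₀ = swap x₀ y₀ * ε := by
            rintro ε (rfl | rfl)
            · exact ⟨fun w _ => by simp, by simp⟩
            · exact ⟨hτW, rfl⟩
          have hcommW : ∀ u ∈ res T (orb T x), ∀ u' ∈ res T (orb T x), ⁅u, u'⁆ ∈ S₂ := by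
            intro u hu u' hu'
            obtain ⟨ε, hε, hq⟩ := hlift u hu
            obtain ⟨ε', hε', hq'⟩ := hlift u' hu'
            have hmem := h2 _ hq _ hq'
            have e : ⁅u * ε, u' * ε'⁆ = ⁅u, u'⁆ := by
              have hc1 := (hεcomm ε hε).1 u' hu'
              have hc2 : ε * ε' = ε' * ε := by
                rcases hε' with rfl | rfl
                · simp
                · exact (hεcomm ε hε).2
              have c1 : ε * (u' * ε') = (u' * ε') * ε := by
                rw [← mul_assoc, hc1, mul_assoc, hc2, ← mul_assoc]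
              rw [comm_mul_right_of_commute c1,
                comm_right_mul_of_commute ((hεcomm ε' hε').1 u hu)]
            rw [e] at hmem
            exact hmem
          -- a nontrivial central element of `W = res T (orb T x)` inside its commutator subgroup
          have hW2 : IsPGroup 2 ↥(res T (orb T x)) := hT.1.to_le (res_le T _)
          obtain ⟨a₀, ha₀, b₀, hb₀, hab₀⟩ := hnonab x hxb
          have hN : ⁅(⊤ : Subgroup ↥(res T (orb T x))), (⊤ : Subgroup ↥(res T (orb T x)))⁆ ≠ ⊥ := by
            intro h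
            have hmem : ⁅(⟨a₀, ha₀⟩ : ↥(res T (orb T x))), ⟨b₀, hb₀⟩⁆ ∈
                ⁅(⊤ : Subgroup ↥(res T (orb T x))), (⊤ : Subgroup ↥(res T (orb T x)))⁆ :=
              Subgroup.commutator_mem_commutator (Subgroup.mem_top _) (Subgroup.mem_top _)
            rw [h, Subgroup.mem_bot, commutatorElement_eq_one_iff_mul_comm] at hmem
            exact hab₀ (congrArg Subtype.val hmem)
          obtain ⟨z, hzN, hz1, hzcen⟩ := exists_central_mem_of_normal hW2
            ⁅(⊤ : Subgroup ↥(res T (orb T x))), (⊤ : Subgroup ↥(res T (orb T x)))⁆ hN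
          have hle : ⁅(⊤ : Subgroup ↥(res T (orb T x))), (⊤ : Subgroup ↥(res T (orb T x)))⁆ ≤
              S₂.comap (res T (orb T x)).subtype := by
            rw [Subgroup.commutator_le]
            intro g₁ _ g₂ _
            exact hcommW g₁.1 g₁.2 g₂.1 g₂.2
          have hzS : (z : Perm α) ∈ S₂ := hle hzN
          have haz : a = (z : Perm α) := by
            refine hzone x hxb a z ha z.2 ha1 (fun h => hz1 (Subtype.ext h)) haW ?_
            intro g hg
            exact congrArg Subtype.val (hzcen ⟨g, hg⟩)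
          rw [haz]
          exact hzS
        rw [hcab]
        exact S₂.mul_mem haS hbS
  rw [eq_bot_iff]
  intro s hs₁
  have hsS₂ : s ∈ S₂ := h3 _ s (hS1 hs₁).1 (h1b s hs₁) rfl
  have : s ∈ S₁ ⊓ S₂ := ⟨hs₁, hsS₂⟩
  rw [hinf] at this
  exact this

end Cfsg.Agent.H51.SylAlt
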